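import Mathlib

set_option autoImplicit false

namespace Cfsg.Agent.Lib.PermRec.Affine

variable {K V : Type*} [Field K] [AddCommGroup V] [Module K V]

/-- Two linearly independent families indexed alike in a finite-dimensional space are
related by a linear automorphism. -/
theorem exists_linearEquiv_of_linearIndependent [FiniteDimensional K V] {ι : Type*} [Finite ι]
    (u w : ι → V) (hu : LinearIndependent K u) (hw : LinearIndependent K w) :
    ∃ A : V ≃ₗ[K] V, ∀ i, A (u i) = w i := by
  classical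
  letI := Fintype.ofFinite ι
  obtain ⟨C₁, hC₁⟩ := Submodule.exists_isCompl (Submodule.span K (Set.range u))
  obtain ⟨C₂, hC₂⟩ := Submodule.exists_isCompl (Submodule.span K (Set.range w))
  have hfu : Module.finrank K (Submodule.span K (Set.range u)) = Fintype.card ι :=
    finrank_span_eq_card hu
  have hfw : Module.finrank K (Submodule.span K (Set.range w)) = Fintype.card ι :=
    finrank_span_eq_card hw
  have h₁ := Submodule.finrank_add_eq_of_isCompl hC₁
  have h₂ := Submodule.finrank_add_eq_of_isCompl hC₂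
  have hC : Module.finrank K C₁ = Module.finrank K C₂ := by omega
  let ψ : C₁ ≃ₗ[K] C₂ := LinearEquiv.ofFinrankEq _ _ hC
  let φ : Submodule.span K (Set.range u) ≃ₗ[K] Submodule.span K (Set.range w) :=
    (hu.linearCombinationEquiv.symm).trans hw.linearCombinationEquiv
  let A : V ≃ₗ[K] V :=
    (Submodule.prodEquivOfIsCompl _ _ hC₁).symm.trans
      ((φ.prodCongr ψ).trans (Submodule.prodEquivOfIsCompl _ _ hC₂))
  refine ⟨A, fun i => ?_⟩
  have hui : u i ∈ Submodule.span K (Set.range u) := Submodule.subset_span ⟨i, rfl⟩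
  have hφ : φ ⟨u i, hui⟩ = ⟨w i, Submodule.subset_span ⟨i, rfl⟩⟩ := by
    have h0 : (⟨u i, hui⟩ : Submodule.span K (Set.range u)) =
        hu.linearCombinationEquiv (Finsupp.single i 1) := by
      apply Subtype.ext
      rw [LinearIndependent.linearCombinationEquiv_apply_coe]
      simp
    simp only [φ, LinearEquiv.trans_apply, h0, LinearEquiv.symm_apply_apply]
    apply Subtype.ext
    rw [LinearIndependent.linearCombinationEquiv_apply_coe]
    simp
  have h1 : (Submodule.prodEquivOfIsCompl _ _ hC₁).symm (u i) = (⟨u i, hui⟩, 0) :=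
    Submodule.prodEquivOfIsCompl_symm_apply_left _ _ hC₁ ⟨u i, hui⟩
  simp only [A, LinearEquiv.trans_apply, h1, LinearEquiv.prodCongr_apply, map_zero, hφ,
    Submodule.coe_prodEquivOfIsCompl', Submodule.coe_zero, add_zero]

/-- A map of an `F_p`-vector space (`p` odd) that agrees with an affine map on every triple of
points is itself affine. -/
theorem exists_linearMap_of_three_approx {p : ℕ} [Fact p.Prime] (hp : p ≠ 2)
    {W : Type*} [AddCommGroup W] [Module (ZMod p) W] (σ : W → W)
    (h : ∀ x y z : W, ∃ (A : W →ₗ[ZMod p] W) (b : W),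
      σ x = A x + b ∧ σ y = A y + b ∧ σ z = A z + b) :
    ∃ A : W →ₗ[ZMod p] W, ∀ x, σ x = A x + σ 0 := by
  have h2 : (2 : ZMod p) ≠ 0 := by
    intro h0
    have h3 : ((2 : ℕ) : ZMod p) = 0 := by exact_mod_cast h0
    rw [ZMod.natCast_eq_zero_iff] at h3
    exact hp ((Nat.prime_dvd_prime_iff_eq Fact.out Nat.prime_two).mp h3)
  have hmid : ∀ x y : W, (2 : ZMod p) • σ ((2 : ZMod p)⁻¹ • (x + y)) = σ x + σ y := by
    intro x y
    obtain ⟨A, b, hx, hy, hm⟩ := h x y ((2 : ZMod p)⁻¹ • (x + y))
    rw [hx, hy, hm, smul_add, ← map_smul, smul_smul, mul_inv_cancel₀ h2, one_smul, map_add, two_smul]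
    abel
  let τ : W → W := fun x => σ x - σ 0
  have hτ0 : τ 0 = 0 := sub_self _
  have hmidτ : ∀ x y : W, (2 : ZMod p) • τ ((2 : ZMod p)⁻¹ • (x + y)) = τ x + τ y := by
    intro x y
    simp only [τ, smul_sub, hmid, two_smul]
    abel
  have hhalf : ∀ x : W, (2 : ZMod p) • τ ((2 : ZMod p)⁻¹ • x) = τ x := by
    intro x
    have := hmidτ x 0
    rwa [add_zero, hτ0, add_zero] at this
  have hadd : ∀ x y : W, τ (x + y) = τ x + τ y := by
    intro x y
    rw [← hhalf (x + y), hmidτ]
  let f : W →+ W := AddMonoidHom.mk' τ hadd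
  refine ⟨f.toZModLinearMap p, fun x => ?_⟩
  change σ x = τ x + σ 0
  simp [τ]

end Cfsg.Agent.Lib.PermRec.Affine
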