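import Cfsg.Agent.Lib.PermRec.SylvesterSchur
import Cfsg.Agent.Lib.Perm.JordanPrime

/-!
# Derangements of prime order for subgroups of alternating groups

If `S` is a proper subgroup of `A_m`, `m ≥ 5`, and `r` is the largest prime divisor of the index,
then some element of order `r` of `A_m` has no conjugate in `S`.
-/

set_option autoImplicit false

open MulAction Equiv Equiv.Perm
open scoped Pointwise

namespace Cfsg.Agent.Lib.PermRec.AltDer

/-- A transitive group containing a `p`-cycle with `|K| < 2p` is primitive. -/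
theorem preprimitive_of_big_cycle {K : Type*} [Fintype K] [DecidableEq K] (H : Subgroup (Perm K))
    [hT : IsPretransitive H K] {c : Perm K} (hc : c ∈ H) (hcc : c.IsCycle) {p : ℕ} (hp : p.Prime)
    (hcp : c.support.card = p) (hcard : Fintype.card K < 2 * p) : IsPreprimitive H K := by
  classical
  have hord : orderOf c = p := by rw [hcc.orderOf, hcp]
  let c' : H := ⟨c, hc⟩
  have hpow : ∀ (i : ℕ) (x : K), (c' ^ i) • x = (c ^ i) x := by
    intro i x
    rfl
  -- stabilised by a non-trivial power means stabilised by `c`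
  have hfix : ∀ D : Set K, IsBlock H D → (∃ d₀ ∈ D, ∃ d₁ ∈ D, d₀ ≠ d₁) → c' ∈ stabilizer H D := by
    intro D hD ⟨d₀, h₀, d₁, h₁, h01⟩
    by_contra hne
    have hne' : c' • D ≠ D := fun h => hne (mem_stabilizer_iff.mpr h)
    have hdis : Disjoint (c' • D) D :=
      (isBlock_iff_smul_eq_or_disjoint.mp hD c').resolve_left hne'
    have hsupp : ∀ d ∈ D, c d ≠ d := by
      intro d hd hfx
      have h1 : d ∈ c' • D := by
        have := Set.smul_mem_smul_set (a := c') hd
        have h2 : c' • d = d := hfx
        rwa [h2] at this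
      exact (Set.disjoint_left.mp hdis) h1 hd
    obtain ⟨i, hi⟩ := hcc.exists_pow_eq (hsupp d₀ h₀) (hsupp d₁ h₁)
    have h2 : (c' ^ i) • D = D := by
      refine (isBlock_iff_smul_eq_or_disjoint.mp hD (c' ^ i)).resolve_right ?_
      intro hd
      have h3 : d₁ ∈ (c' ^ i) • D := by
        have := Set.smul_mem_smul_set (a := c' ^ i) h₀
        rw [hpow, hi] at this
        exact this
      exact (Set.disjoint_left.mp hd) h3 h₁
    have hpi : ¬ p ∣ i := by
      intro hd
      have : c ^ i = 1 := by
        rw [← hord] at hd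
        exact orderOf_dvd_iff_pow_eq_one.mp hd
      rw [this] at hi
      exact h01 hi
    have hcop : Nat.Coprime i p := ((Nat.Prime.coprime_iff_not_dvd hp).mpr hpi).symm
    obtain ⟨m, _, hm⟩ := Nat.exists_mul_mod_eq_one_of_coprime hcop hp.one_lt
    have h4 : c' ^ i ∈ stabilizer H D := mem_stabilizer_iff.mpr h2
    have h5 : (c' ^ i) ^ m ∈ stabilizer H D := pow_mem h4 m
    have h6 : (c' ^ i) ^ m = c' := by
      rw [← pow_mul]
      apply Subtype.ext
      show c ^ (i * m) = c
      rw [← pow_mod_orderOf, hord, hm, pow_one]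
    rw [h6] at h5
    exact hne h5
  refine { toIsPretransitive := hT, isTrivialBlock_of_isBlock := ?_ }
  intro B hB
  by_cases hBs : B.Subsingleton
  · exact Or.inl hBs
  right
  obtain ⟨x, hx, y, hy, hxy⟩ := Set.not_subsingleton_iff.mp hBs
  obtain ⟨a₀, ha₀, _⟩ := id hcc
  obtain ⟨g, hg⟩ := exists_smul_eq H x a₀
  set D : Set K := g • B with hDdef
  have hDb : IsBlock H D := hB.translate g
  have hxD : a₀ ∈ D := by
    rw [← hg]; exact Set.smul_mem_smul_set hx
  have hyD : g • y ∈ D := Set.smul_mem_smul_set hy
  have hne : a₀ ≠ g • y := by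
    rw [← hg]
    exact fun h => hxy (MulAction.injective g h)
  have hst := hfix D hDb ⟨a₀, hxD, g • y, hyD, hne⟩
  have hsubset : ((c.support : Finset K) : Set K) ⊆ D := by
    intro z hz
    have hz' : c z ≠ z := by
      simpa using hz
    obtain ⟨i, hi⟩ := hcc.exists_pow_eq ha₀ hz'
    have h1 : c' ^ i ∈ stabilizer H D := pow_mem hst i
    have h2 : (c' ^ i) • a₀ ∈ (c' ^ i) • D := Set.smul_mem_smul_set hxD
    rw [mem_stabilizer_iff.mp h1, hpow, hi] at h2
    exact h2
  have hcardD : p ≤ D.ncard := by
    rw [← hcp, ← Set.ncard_coe_finset]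
    exact Set.ncard_le_ncard hsubset (Set.toFinite _)
  have hDu : D = Set.univ := by
    apply hDb.eq_univ_of_card_lt
    rw [Nat.card_eq_fintype_card]
    omega
  have : g⁻¹ • D = B := by rw [hDdef, inv_smul_smul]
  rw [← this, hDu]
  simp

/-- `r ^ 2` does not divide `m !` when `m < 2 * r`. -/
lemma sq_not_dvd_factorial {r m : ℕ} (hr : r.Prime) (hm : m < 2 * r) : ¬ r ^ 2 ∣ m.factorial := by
  induction m with
  | zero =>
    intro h
    have : r ^ 2 ≤ 1 := Nat.le_of_dvd (by simp) h
    have := hr.two_le
    nlinarith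
  | succ m ih =>
    intro h
    have ih' := ih (by omega)
    rw [Nat.factorial_succ] at h
    by_cases hrm : r ∣ m + 1
    · -- m + 1 = r
      obtain ⟨t, ht⟩ := hrm
      have ht1 : t = 1 := by
        have h0 : 0 < t := by
          rcases Nat.eq_zero_or_pos t with rfl | h0
          · simp at ht
          · exact h0
        have hr0 := hr.pos
        have : t < 2 := by
          by_contra hge
          push Not at hge
          have : r * 2 ≤ r * t := Nat.mul_le_mul_left r hge
          omega
        omega
      subst ht1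
      have hmr : m + 1 = r := by omega
      rw [hmr, pow_two] at h
      have h2 : r ∣ m.factorial := Nat.dvd_of_mul_dvd_mul_left hr.pos h
      have := hr.dvd_factorial.mp h2
      omega
    · have hcop : Nat.Coprime (r ^ 2) (m + 1) :=
        Nat.Coprime.pow_left 2 ((Nat.Prime.coprime_iff_not_dvd hr).mpr hrm)
      exact ih' (hcop.dvd_of_dvd_mul_left h)

/-- The order of a group preserving a set divides the product of two factorials. -/
lemma card_dvd_of_invariant {α : Type*} [Fintype α] [DecidableEq α] (S : Subgroup (Perm α))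
    (K : Set α) (hK : ∀ s ∈ S, ∀ x, s x ∈ K ↔ x ∈ K) :
    Nat.card S ∣ (K.ncard).factorial * (Kᶜ.ncard).factorial := by
  classical
  let f : α → Bool := fun x => decide (x ∈ K)
  let T : Subgroup (Perm α) :=
    { carrier := {g | ∀ x, g x ∈ K ↔ x ∈ K}
      mul_mem' := by
        intro a b ha hb x
        simp only [Set.mem_ofPred_eq] at ha hb
        rw [Perm.mul_apply, ha, hb]
      one_mem' := by
        intro x; simp
      inv_mem' := by
        intro a ha x
        simp only [Set.mem_ofPred_eq] at ha
        have := ha (a⁻¹ x)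
        have e : a (a⁻¹ x) = x := by simp
        rw [e] at this
        exact this.symm }
  have hST : S ≤ T := fun s hs x => hK s hs x
  have hT : Nat.card T = (K.ncard).factorial * (Kᶜ.ncard).factorial := by
    have h1 : Nat.card T = Fintype.card {g : Perm α // f ∘ g = f} := by
      rw [← Nat.card_eq_fintype_card]
      apply Nat.card_congr
      apply Equiv.subtypeEquivRight
      intro g
      show (∀ x, g x ∈ K ↔ x ∈ K) ↔ _
      constructor
      · intro h
        funext x
        simp only [Function.comp, f, decide_eq_decide]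
        exact h x
      · intro h x
        have := congrFun h x
        simpa [f] using this
    rw [h1, DomMulAct.stabilizer_card, Fintype.prod_bool]
    have e1 : Fintype.card {a // f a = true} = K.ncard := by
      rw [← Nat.card_eq_fintype_card, ← Nat.card_coe_set_eq]
      apply Nat.card_congr
      apply Equiv.subtypeEquivRight
      intro x
      simp [f]
    have e2 : Fintype.card {a // f a = false} = Kᶜ.ncard := by
      rw [← Nat.card_eq_fintype_card, ← Nat.card_coe_set_eq]
      apply Nat.card_congr
      apply Equiv.subtypeEquivRight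
      intro x
      simp [f]
    rw [e1, e2]
  rw [← hT]
  exact Subgroup.card_dvd_of_le hST

variable {α : Type*} [Fintype α] [DecidableEq α]

lemma lcm_replicate (a r : ℕ) (ha : a ≠ 0) : (Multiset.replicate a r).lcm = r := by
  obtain ⟨b, rfl⟩ := Nat.exists_eq_succ_of_ne_zero ha
  induction b with
  | zero => simp
  | succ b ih =>
    rw [Multiset.replicate_succ, Multiset.lcm_cons, ih (Nat.succ_ne_zero b)]
    simp

lemma exists_ct {a r : ℕ} (hr : 2 ≤ r) (h : a * r ≤ Fintype.card α) :
    ∃ x : Perm α, x.cycleType = Multiset.replicate a r := by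
  rw [Equiv.Perm.exists_with_cycleType_iff]
  constructor
  · simpa using h
  · intro b hb
    rw [Multiset.eq_of_mem_replicate hb]
    exact hr

lemma ct_order {x : Perm α} {a r : ℕ} (ha : a ≠ 0) (h : x.cycleType = Multiset.replicate a r) :
    orderOf x = r := by
  rw [← lcm_cycleType, h, lcm_replicate a r ha]

lemma ct_support {x : Perm α} {a r : ℕ} (h : x.cycleType = Multiset.replicate a r) :
    x.support.card = a * r := by
  rw [← sum_cycleType, h]
  simp

lemma ct_mem_alt {x : Perm α} {a r : ℕ} (h : x.cycleType = Multiset.replicate a r)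
    (hpar : Even (a * r + a)) : x ∈ alternatingGroup α := by
  rw [Equiv.Perm.mem_alternatingGroup, sign_of_cycleType, h]
  simp only [Multiset.sum_replicate, Multiset.card_replicate, smul_eq_mul]
  exact hpar.neg_one_pow

lemma ct_cycle {x : Perm α} {r : ℕ} (h : x.cycleType = Multiset.replicate 1 r) : x.IsCycle := by
  rw [← card_cycleType_eq_one, h]
  simp

/-- A permutation of prime order `r` preserving a set with fewer than `r` points fixes it pointwise. -/
lemma fix_of_small {y : Perm α} {r : ℕ} (hr : r.Prime) (hy : orderOf y = r) (Q : Set α)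
    (hQ : ∀ x, y x ∈ Q ↔ x ∈ Q) (hcard : Q.ncard < r) : ∀ x ∈ Q, y x = x := by
  classical
  intro x hx
  by_contra hne
  have hc : (y.cycleOf x).IsCycle := isCycle_cycleOf y hne
  have hd : orderOf (y.cycleOf x) ∣ r := by
    rw [← hy]; exact orderOf_cycleOf_dvd_orderOf y x
  have hord : orderOf (y.cycleOf x) = r := by
    rcases (Nat.dvd_prime hr).mp hd with h | h
    · exact absurd (orderOf_eq_one_iff.mp h) hc.ne_one
    · exact h
  have hsupp : ((y.cycleOf x).support : Set α) ⊆ Q := by
    intro z hz
    have hz' : z ∈ (y.cycleOf x).support := by simpa using hz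
    rw [mem_support_cycleOf_iff] at hz'
    obtain ⟨i, _, hi⟩ := hz'.1.exists_pow_eq'
    rw [← hi]
    have hpow : ∀ i : ℕ, (y ^ i) x ∈ Q := by
      intro i
      induction i with
      | zero => simpa using hx
      | succ i ih =>
        rw [pow_succ', Perm.mul_apply]
        exact (hQ _).mpr ih
    exact hpow i
  have hle := Set.ncard_le_ncard hsupp (Set.toFinite _)
  rw [Set.ncard_coe_finset, ← hc.orderOf, hord] at hle
  omega

/-- The orbit, as a reducible abbreviation. -/
abbrev Orb (S : Subgroup (Perm α)) (a : α) : Set α := orbit S a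

/-- The restriction of `S` to one of its orbits. -/
def phi (S : Subgroup (Perm α)) (a : α) : S →* Perm (Orb S a) := toPermHom S (Orb S a)

lemma phi_apply (S : Subgroup (Perm α)) (a : α) (s : S) (x : Orb S a) :
    ((phi S a s x : Orb S a) : α) = (s : Perm α) x := rfl

lemma orb_inv (S : Subgroup (Perm α)) (a : α) : ∀ s ∈ S, ∀ x, s x ∈ Orb S a ↔ x ∈ Orb S a := by
  intro s hs x
  constructor
  · intro h
    have h1 : (⟨s, hs⟩ : S)⁻¹ • ((⟨s, hs⟩ : S) • x) ∈ orbit S a := mem_orbit_of_mem_orbit _ h
    rwa [inv_smul_smul] at h1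
  · intro h
    exact mem_orbit_of_mem_orbit (⟨s, hs⟩ : S) h

instance phi_trans (S : Subgroup (Perm α)) (a : α) :
    IsPretransitive (phi S a).range (Orb S a) := by
  refine ⟨fun x y => ?_⟩
  obtain ⟨s, hs⟩ := exists_smul_eq S x y
  exact ⟨⟨phi S a s, ⟨s, rfl⟩⟩, hs⟩

/-- Lifting a cycle of prime order with support in the orbit. -/
lemma lift_cycle (S : Subgroup (Perm α)) (a : α) [Fintype (Orb S a)] [DecidableEq (Orb S a)]
    {y : Perm α} (hy : y ∈ S)
    (hc : y.IsCycle) (hp : (orderOf y).Prime) (hsupp : ∀ x, y x ≠ x → x ∈ Orb S a) :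
    ∃ y' ∈ (phi S a).range, y'.IsCycle ∧ y'.support.card = orderOf y := by
  set z : S := ⟨y, hy⟩ with hz
  set y' := phi S a z with hy'
  have hmem : y' ∈ (phi S a).range := ⟨z, rfl⟩
  have hzpow : ∀ (i : ℤ) (x : Orb S a), (((y' ^ i) x : Orb S a) : α) = (y ^ i) x := by
    intro i x
    rw [hy', ← map_zpow, phi_apply]
    rfl
  have hne : ∀ x : Orb S a, (x : α) ∈ y.support → y' x ≠ x := by
    intro x hx h
    have h1 : ((y' x : Orb S a) : α) = (x : α) := by rw [h]
    exact (Perm.mem_support.mp hx) h1
  have hyc : y'.IsCycle := by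
    obtain ⟨x₀, hx₀, hall⟩ := hc
    refine ⟨⟨x₀, hsupp x₀ hx₀⟩, ?_, ?_⟩
    · exact hne _ (Perm.mem_support.mpr hx₀)
    · intro w hw
      have hw' : y (w : α) ≠ (w : α) := by
        intro h
        apply hw
        apply Subtype.ext
        exact h
      obtain ⟨i, hi⟩ := hall hw'
      refine ⟨i, ?_⟩
      apply Subtype.ext
      rw [hzpow]
      exact hi
  refine ⟨y', hmem, hyc, ?_⟩
  rw [← hyc.orderOf]
  have h1 : y' ^ orderOf y = 1 := by
    rw [hy', ← map_pow]
    have : z ^ orderOf y = 1 := by
      apply Subtype.ext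
      show y ^ orderOf y = 1
      exact pow_orderOf_eq_one y
    rw [this, map_one]
  haveI : Fact (orderOf y).Prime := ⟨hp⟩
  exact orderOf_eq_prime h1 hyc.ne_one

/-- Main arithmetic/permutation argument. -/
theorem core (hm : 5 ≤ Fintype.card α)
    (S : Subgroup (Perm α)) (n : ℕ) (h2n : 2 * n * Nat.card S = (Fintype.card α).factorial)
    {r : ℕ} (hr : r.Prime) (hrn : r ∣ n) (hmax : ∀ s, s.Prime → s ∣ n → s ≤ r)
    (Hr : ∀ x ∈ alternatingGroup α, orderOf x = r → ∃ y ∈ S, y.cycleType = x.cycleType)
    (H3 : r = 2 → ∀ x ∈ alternatingGroup α, orderOf x = 3 → ∃ y ∈ S, y.cycleType = x.cycleType) :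
    False := by
  classical
  set m := Fintype.card α with hmdef
  have hfac : 0 < m.factorial := Nat.factorial_pos m
  have hS0 : 0 < Nat.card S := Nat.card_pos
  have hn0 : n ≠ 0 := by
    rintro rfl
    simp at h2n
    omega
  have hrm : r ≤ m := by
    have : r ∣ m.factorial := by
      rw [← h2n]
      exact Dvd.dvd.mul_right (Dvd.dvd.mul_left hrn 2) _
    exact hr.dvd_factorial.mp this
  have hcyc : r ≠ 2 → ∃ y ∈ S, y.IsCycle ∧ y.support.card = r ∧ orderOf y = r := by
    intro hr2
    have hodd : Odd r := hr.odd_of_ne_two hr2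
    obtain ⟨x, hx⟩ := exists_ct (α := α) (a := 1) (r := r) hr.two_le (by omega)
    have hxo := ct_order one_ne_zero hx
    have hxA : x ∈ alternatingGroup α := ct_mem_alt hx (by
      rw [one_mul]
      exact hodd.add_odd odd_one)
    obtain ⟨y, hy, hct⟩ := Hr x hxA hxo
    have hyt : y.cycleType = Multiset.replicate 1 r := hct.trans hx
    refine ⟨y, hy, ct_cycle hyt, ?_, ct_order one_ne_zero hyt⟩
    rw [ct_support hyt, one_mul]
  by_cases h2r : m < 2 * r
  · have hr2 : r ≠ 2 := by rintro rfl; omega
    obtain ⟨y, hy, _, _, hyo⟩ := hcyc hr2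
    have hdvd : r ∣ Nat.card S := by
      have := orderOf_dvd_natCard (⟨y, hy⟩ : S)
      rwa [Subgroup.orderOf_mk, hyo] at this
    apply sq_not_dvd_factorial hr h2r
    rw [← h2n, pow_two]
    exact mul_dvd_mul (Dvd.dvd.mul_left hrn 2) hdvd
  push Not at h2r
  obtain ⟨p, hp, hp1, hp2⟩ := Nat.exists_prime_lt_and_le_two_mul (m / 2) (by omega)
  have hpm : p ≤ m := by omega
  have hmp : m < 2 * p := by omega
  have hrp : r < p := by omega
  have hpn : ¬ p ∣ n := fun h => by
    have := hmax p hp h
    omega
  have hp3 : p ≠ 2 := by omega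
  have hpS : p ∣ Nat.card S := by
    have h1 : p ∣ 2 * n * Nat.card S := by
      rw [h2n]; exact hp.dvd_factorial.mpr hpm
    rcases (Nat.Prime.dvd_mul hp).mp h1 with h | h
    · rcases (Nat.Prime.dvd_mul hp).mp h with h | h
      · exact absurd ((Nat.prime_dvd_prime_iff_eq hp Nat.prime_two).mp h) hp3
      · exact absurd h hpn
    · exact h
  haveI := Fact.mk hp
  obtain ⟨z, hz⟩ := exists_prime_orderOf_dvd_card' p hpS
  have hco : orderOf (z : Perm α) = p := by
    rw [Subgroup.orderOf_coe]; exact hz
  have hcS : (z : Perm α) ∈ S := z.2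
  generalize (z : Perm α) = c at hco hcS
  have hcc : c.IsCycle := isCycle_of_prime_order (by rw [hco]; exact hp)
    (by rw [hco]; exact (Finset.card_le_univ _).trans_lt hmp)
  have hcp : c.support.card = p := by rw [← hcc.orderOf, hco]
  obtain ⟨a₀, ha₀, _⟩ := id hcc
  have hKinv := orb_inv S a₀
  have hsupp : ((c.support : Finset α) : Set α) ⊆ Orb S a₀ := by
    intro x hx
    have hx' : c x ≠ x := by simpa using hx
    obtain ⟨i, hi⟩ := hcc.exists_pow_eq ha₀ hx'
    have : (⟨c, hcS⟩ ^ i : S) • a₀ ∈ orbit S a₀ := mem_orbit _ _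
    rw [← hi]
    exact this
  have hκk : (Orb S a₀).ncard + (Orb S a₀)ᶜ.ncard = m := by
    rw [Set.ncard_add_ncard_compl, Nat.card_eq_fintype_card]
  have hpκ : p ≤ (Orb S a₀).ncard := by
    rw [← hcp, ← Set.ncard_coe_finset]
    exact Set.ncard_le_ncard hsupp (Set.toFinite _)
  obtain ⟨u, hu⟩ := card_dvd_of_invariant S (Orb S a₀) hKinv
  generalize hκdef : (Orb S a₀).ncard = κ at hκk hpκ hu
  generalize hkdef : (Orb S a₀)ᶜ.ncard = k at hκk hu
  have h2k : 2 * k ≤ m := by omega
  have hchoose : 2 * n = m.choose k * u := by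
    have h1 : m.choose k * k.factorial * (m - k).factorial = m.factorial :=
      Nat.choose_mul_factorial_mul_factorial (by omega)
    have e : m - k = κ := by omega
    rw [e] at h1
    apply Nat.eq_of_mul_eq_mul_right hS0
    rw [h2n, ← h1]
    calc m.choose k * k.factorial * κ.factorial
        = m.choose k * (κ.factorial * k.factorial) := by ring
      _ = m.choose k * (Nat.card S * u) := by rw [hu]
      _ = m.choose k * u * Nat.card S := by ring
  have hqn : ∀ q, q.Prime → q ≠ 2 → q ∣ m.choose k → q ∣ n := by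
    intro q hq hq2 hd
    have h1 : q ∣ 2 * n := by rw [hchoose]; exact Dvd.dvd.mul_right hd _
    rcases (Nat.Prime.dvd_mul hq).mp h1 with h | h
    · exact absurd ((Nat.prime_dvd_prime_iff_eq hq Nat.prime_two).mp h) hq2
    · exact h
  haveI : Fintype (Orb S a₀) := Fintype.ofFinite _
  have hcardK : Fintype.card (Orb S a₀) = κ := by
    rw [← hκdef, ← Nat.card_eq_fintype_card, Nat.card_coe_set_eq]
  have hprim : IsPreprimitive (phi S a₀).range (Orb S a₀) := by
    obtain ⟨c', hc', hc'c, hc'p⟩ := lift_cycle S a₀ hcS hcc (by rw [hco]; exact hp)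
      (fun x hx => hsupp (by simpa using hx))
    exact preprimitive_of_big_cycle _ hc' hc'c hp (by rw [hc'p, hco]) (by omega)
  have hW : alternatingGroup (Orb S a₀) ≤ (phi S a₀).range → u ∣ 2 * k.factorial := by
    intro hle
    haveI : Nontrivial (Orb S a₀) := by
      apply Fintype.one_lt_card_iff_nontrivial.mp
      omega
    have h1 : Nat.card (alternatingGroup (Orb S a₀)) ∣ Nat.card (phi S a₀).range :=
      Subgroup.card_dvd_of_le hle
    have h2 : Nat.card (phi S a₀).range ∣ Nat.card S := Subgroup.card_range_dvd _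
    obtain ⟨w, hw⟩ := h1.trans h2
    have h3 : 2 * Nat.card (alternatingGroup (Orb S a₀)) = κ.factorial := by
      rw [two_mul_nat_card_alternatingGroup, Nat.card_perm, Nat.card_eq_fintype_card, hcardK]
    have h4 : 0 < Nat.card (alternatingGroup (Orb S a₀)) := Nat.card_pos
    refine ⟨w, ?_⟩
    apply Nat.eq_of_mul_eq_mul_left h4
    calc Nat.card (alternatingGroup (Orb S a₀)) * (2 * k.factorial)
        = κ.factorial * k.factorial := by rw [← h3]; ring
      _ = Nat.card S * u := hu
      _ = Nat.card (alternatingGroup (Orb S a₀)) * (u * w) := by rw [hw]; ring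
  have hfixQ : ∀ y ∈ S, orderOf y = r → k < r → ∀ x, x ∉ Orb S a₀ → y x = x := by
    intro y hy hyo hkr x hx
    refine fix_of_small hr hyo (Orb S a₀)ᶜ (fun x => ?_) (by rw [hkdef]; exact hkr) x hx
    simp only [Set.mem_compl_iff, not_iff_not]
    exact hKinv y hy x
  rcases eq_or_ne r 2 with hr2 | hr2
  · subst hr2
    rcases Nat.lt_or_ge k 2 with hk2 | hk2
    · have hk01 : k = 0 ∨ k = 1 := by omega
      rcases hk01 with hk0 | hk1
      · subst hk0
        obtain ⟨x, hx⟩ := exists_ct (α := α) (a := 1) (r := 3) (by norm_num) (by omega)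
        have hxo := ct_order one_ne_zero hx
        have hxA : x ∈ alternatingGroup α := ct_mem_alt hx (by decide)
        obtain ⟨y, hy, hct⟩ := H3 rfl x hxA hxo
        have hyt : y.cycleType = Multiset.replicate 1 3 := hct.trans hx
        have hyo := ct_order one_ne_zero hyt
        have hall : ∀ x, x ∈ Orb S a₀ := by
          intro x
          by_contra hx
          have : (Orb S a₀)ᶜ.Nonempty := ⟨x, hx⟩
          have h0 := (Set.ncard_pos (Set.toFinite _)).mpr this
          omega
        obtain ⟨y', hy', hy'c, hy's⟩ := lift_cycle S a₀ hy (ct_cycle hyt) (by rw [hyo]; norm_num)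
          (fun x _ => hall x)
        rw [hyo] at hy's
        have h3c : y'.IsThreeCycle := card_support_eq_three_iff.mp hy's
        have hAlt := Equiv.Perm.alternatingGroup_le_of_isPreprimitive_of_isThreeCycle_mem
          hprim h3c hy'
        have hud := hW hAlt
        simp only [Nat.choose_zero_right, one_mul] at hchoose
        rw [← hchoose] at hud
        simp only [Nat.factorial_zero, mul_one] at hud
        have h1 : 2 * n ≤ 2 := Nat.le_of_dvd (by norm_num) hud
        have h2 : 2 ≤ n := Nat.le_of_dvd (by omega) hrn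
        omega
      · subst hk1
        rw [Nat.choose_one_right] at hchoose
        have hn2 : n = 2 ^ n.primeFactorsList.length := by
          apply Nat.eq_prime_pow_of_unique_prime_dvd hn0
          intro d hd hdn
          have := hmax d hd hdn
          have := hd.two_le
          omega
        have hmd : m ∣ 2 ^ (n.primeFactorsList.length + 1) := by
          rw [pow_succ, ← hn2, mul_comm, hchoose]
          exact Dvd.intro _ rfl
        obtain ⟨b, _, hb⟩ := (Nat.dvd_prime_pow Nat.prime_two).mp hmd
        have hb3 : 3 ≤ b := by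
          by_contra hlt
          push Not at hlt
          have : 2 ^ b ≤ 2 ^ 2 := Nat.pow_le_pow_right (by norm_num) (by omega)
          omega
        obtain ⟨c3, rfl⟩ : ∃ c3, b = 2 + c3 := ⟨b - 2, by omega⟩
        have hm2 : m = 2 * (2 * 2 ^ c3) := by rw [hb, pow_add]; ring
        obtain ⟨x, hx⟩ := exists_ct (α := α) (a := 2 * 2 ^ c3) (r := 2) le_rfl (by omega)
        have hxo := ct_order (by positivity) hx
        have hxA : x ∈ alternatingGroup α := ct_mem_alt hx (by
          exact ⟨3 * 2 ^ c3, by ring⟩)
        obtain ⟨y, hy, hct⟩ := Hr x hxA hxo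
        have hyt := hct.trans hx
        have hyo := ct_order (by positivity) hyt
        have hys := ct_support hyt
        have hw : (Orb S a₀)ᶜ.Nonempty := by
          rw [← Set.ncard_pos (Set.toFinite _), hkdef]
          norm_num
        obtain ⟨w, hw⟩ := hw
        have hfw := hfixQ y hy hyo (by norm_num) w hw
        have hsuniv : y.support = Finset.univ := by
          apply Finset.eq_univ_of_card
          rw [hys, ← hmdef]
          omega
        have : w ∈ y.support := by rw [hsuniv]; exact Finset.mem_univ w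
        exact (Perm.mem_support.mp this) hfw
    · obtain ⟨q, hq, hkq, hqd⟩ :=
        Cfsg.Agent.Lib.PermRec.SylvesterSchur.exists_prime_dvd_choose (by omega) h2k
      have := hmax q hq (hqn q hq (by omega) hqd)
      omega
  · have hodd : Odd r := hr.odd_of_ne_two hr2
    have hr3 : 3 ≤ r := by
      have := hr.two_le
      omega
    have hkr : k < r := by
      rcases Nat.lt_or_ge k 2 with hk2 | hk2
      · omega
      · obtain ⟨q, hq, hkq, hqd⟩ :=
          Cfsg.Agent.Lib.PermRec.SylvesterSchur.exists_prime_dvd_choose (by omega) h2k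
        have := hmax q hq (hqn q hq (by omega) hqd)
        omega
    -- the element with as many `r`-cycles as possible
    have hdm := Nat.div_add_mod m r
    have hmr := Nat.mod_lt m hr.pos
    have ha1 : m / r ≠ 0 := by
      intro h
      rw [h] at hdm
      omega
    obtain ⟨x, hx⟩ := exists_ct (α := α) (a := m / r) (r := r) hr.two_le
      (by rw [mul_comm]; omega)
    have hxo := ct_order ha1 hx
    have hxA : x ∈ alternatingGroup α := ct_mem_alt hx (by
      have : m / r * r + m / r = m / r * (r + 1) := by ring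
      rw [this]
      exact (hodd.add_odd odd_one).mul_left _)
    obtain ⟨y, hy, hct⟩ := Hr x hxA hxo
    have hyt := hct.trans hx
    have hyo := ct_order ha1 hyt
    have hys := ct_support hyt
    have hfy := hfixQ y hy hyo hkr
    have hyK : ((y.support : Finset α) : Set α) ⊆ Orb S a₀ := by
      intro w hw
      by_contra hnw
      have : y w ≠ w := by simpa using hw
      exact this (hfy w hnw)
    have hcardy : m / r * r ≤ κ := by
      rw [← hys, ← hκdef, ← Set.ncard_coe_finset]
      exact Set.ncard_le_ncard hyK (Set.toFinite _)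
    have hkb : k ≤ m % r := by
      have : m / r * r = r * (m / r) := mul_comm _ _
      omega
    have hnd : ¬ r ∣ m.choose k := by
      intro hd
      haveI := Fact.mk hr
      have hL := Choose.choose_modEq_choose_mod_mul_choose_div_nat (n := m) (k := k) (p := r)
      rw [Nat.mod_eq_of_lt hkr, Nat.div_eq_of_lt hkr, Nat.choose_zero_right, mul_one] at hL
      have hd2 : r ∣ (m % r).choose k := (Nat.ModEq.dvd_iff hL (dvd_refl r)).mp hd
      have hd3 : (m % r).choose k ∣ (m % r).factorial := by
        rw [← Nat.choose_mul_factorial_mul_factorial hkb, mul_assoc]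
        exact Dvd.intro _ rfl
      have := hr.dvd_factorial.mp (hd2.trans hd3)
      omega
    have hru : r ∣ u := by
      have h1 : r ∣ m.choose k * u := by
        rw [← hchoose]; exact Dvd.dvd.mul_left hrn 2
      exact ((Nat.Prime.dvd_mul hr).mp h1).resolve_left hnd
    obtain ⟨y₁, hy₁, hy₁c, hy₁s, hy₁o⟩ := hcyc hr2
    have hfy₁ := hfixQ y₁ hy₁ hy₁o hkr
    obtain ⟨y', hy', hy'c, hy's⟩ := lift_cycle S a₀ hy₁ hy₁c (by rw [hy₁o]; exact hr)
      (fun w hw => by
        by_contra hnw
        exact hw (hfy₁ w hnw))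
    rw [hy₁o] at hy's
    have hrk : ¬ r ∣ k.factorial := fun h => by
      have := hr.dvd_factorial.mp h
      omega
    by_cases hrκ : r + 3 ≤ κ
    · have hAlt := Cfsg.Agent.Lib.Perm.JordanPrime.jordan_prime_cycle _ hprim hr
        (by rw [hcardK]; exact hrκ) hy'c hy's hy'
      have hud := hW hAlt
      have h1 : r ∣ 2 * k.factorial := hru.trans hud
      rcases (Nat.Prime.dvd_mul hr).mp h1 with h | h
      · exact hr2 ((Nat.prime_dvd_prime_iff_eq hr Nat.prime_two).mp h)
      · exact hrk h
    · have hκ2r : κ < 2 * r := by omega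
      have hdvd : r ∣ Nat.card S := by
        have := orderOf_dvd_natCard (⟨y₁, hy₁⟩ : S)
        rwa [Subgroup.orderOf_mk, hy₁o] at this
      have h1 : r ^ 2 ∣ κ.factorial * k.factorial := by
        rw [hu, pow_two]
        exact mul_dvd_mul hdvd hru
      have hcop : Nat.Coprime (r ^ 2) k.factorial :=
        Nat.Coprime.pow_left 2 ((Nat.Prime.coprime_iff_not_dvd hr).mpr hrk)
      exact sq_not_dvd_factorial hr hκ2r (hcop.dvd_of_dvd_mul_right h1)

end Cfsg.Agent.Lib.PermRec.AltDer
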