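import Mathlib
import Cfsg.Agent.Lib.Perm.Basic

/-!
# The isometry group of the Hamming scheme

The group of isometries of the Hamming distance on `ι → Δ` is transitive on pairs of points at a
given distance, primitive when `Δ` has at least 3 points, and not 2-transitive when `ι` has at least
2 points.
-/

set_option autoImplicit false

open MulAction
open scoped Pointwise

namespace Cfsg.Agent.Lib.PermRec.Hamming

universe u v w

variable (ι : Type u) [Fintype ι] (Δ : Type v) [DecidableEq Δ]

/-- The isometry group of the Hamming distance. -/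
def isoG : Subgroup (Equiv.Perm (ι → Δ)) where
  carrier := {σ | ∀ x y, hammingDist (σ x) (σ y) = hammingDist x y}
  mul_mem' := by
    intro a b ha hb x y
    rw [Equiv.Perm.mul_apply, Equiv.Perm.mul_apply, ha, hb]
  one_mem' := fun x y => rfl
  inv_mem' := by
    intro a ha x y
    have := ha (a⁻¹ x) (a⁻¹ y)
    have h1 : ∀ z, a (a⁻¹ z) = z := fun z => by simp
    rw [h1, h1] at this
    exact this.symm

variable {ι Δ}

theorem mem_isoG {σ : Equiv.Perm (ι → Δ)} :
    σ ∈ isoG ι Δ ↔ ∀ x y, hammingDist (σ x) (σ y) = hammingDist x y := Iff.rfl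

/-- A permutation prescribing two values. -/
theorem exists_perm_two (a b a' b' : Δ) (h : a = b ↔ a' = b') :
    ∃ π : Equiv.Perm Δ, π a = a' ∧ π b = b' := by
  by_cases hab : a = b
  · subst hab
    have : a' = b' := h.1 rfl
    subst this
    exact ⟨Equiv.swap a a', by simp, by simp⟩
  · have hne : a' ≠ b' := fun e => hab (h.2 e)
    refine ⟨Equiv.swap ((Equiv.swap a a') b) b' * Equiv.swap a a', ?_, ?_⟩
    · rw [Equiv.Perm.mul_apply, Equiv.swap_apply_left]
      apply Equiv.swap_apply_of_ne_of_ne
      · intro e
        have : (Equiv.swap a a') b = (Equiv.swap a a') a := by rw [Equiv.swap_apply_left, ← e]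
        exact hab ((Equiv.swap a a').injective this).symm
      · exact hne
    · rw [Equiv.Perm.mul_apply, Equiv.swap_apply_left]

/-- The isometry group is transitive on pairs at a given distance. -/
theorem exists_iso (x y x' y' : ι → Δ) (h : hammingDist x y = hammingDist x' y') :
    ∃ σ ∈ isoG ι Δ, σ x = x' ∧ σ y = y' := by
  classical
  have hcard : Fintype.card {i // x i ≠ y i} = Fintype.card {i // x' i ≠ y' i} := by
    rw [Fintype.card_subtype, Fintype.card_subtype]
    exact h
  let e0 := Fintype.equivOfCardEq hcard
  let τ : Equiv.Perm ι := e0.extendSubtype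
  have hτ : ∀ i, x i ≠ y i ↔ x' (τ i) ≠ y' (τ i) := by
    intro i
    constructor
    · intro hi
      exact Equiv.extendSubtype_mem e0 i hi
    · intro hi
      by_contra! hcon
      exact Equiv.extendSubtype_not_mem e0 i (fun h => h hcon) hi
  have hpi : ∀ j : ι, ∃ π : Equiv.Perm Δ, π (x (τ.symm j)) = x' j ∧ π (y (τ.symm j)) = y' j := by
    intro j
    apply exists_perm_two
    have := hτ (τ.symm j)
    simp only [Equiv.apply_symm_apply] at this
    rw [← not_iff_not]
    exact this
  choose π hπ1 hπ2 using hpi
  let σ : Equiv.Perm (ι → Δ) :=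
    { toFun := fun ω j => π j (ω (τ.symm j))
      invFun := fun ω i => (π (τ i)).symm (ω (τ i))
      left_inv := by
        intro ω
        funext i
        simp
      right_inv := by
        intro ω
        funext j
        simp }
  refine ⟨σ, ?_, ?_, ?_⟩
  · intro u v
    unfold hammingDist
    apply Finset.card_equiv τ.symm
    intro j
    simp [σ]
  · funext j
    exact hπ1 j
  · funext j
    exact hπ2 j

instance isPretransitive_isoG : IsPretransitive (isoG ι Δ) (ι → Δ) := by
  refine ⟨fun x x' => ?_⟩
  obtain ⟨σ, hσ, h1, -⟩ := exists_iso x x x' x' (by simp)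
  exact ⟨⟨σ, hσ⟩, h1⟩

theorem closed_of_block {B : Set (ι → Δ)} (hB : IsBlock (isoG ι Δ) B) {x y u v : ι → Δ}
    (hx : x ∈ B) (hy : y ∈ B) (hu : u ∈ B) (h : hammingDist x y = hammingDist u v) : v ∈ B := by
  obtain ⟨σ, hσ, h1, h2⟩ := exists_iso x y u v h
  have hblock := (isBlock_iff_smul_eq_of_nonempty.1 hB) (g := (⟨σ, hσ⟩ : isoG ι Δ)) (by
    refine ⟨u, ?_, hu⟩
    exact ⟨x, hx, h1⟩)
  rw [← hblock]
  exact ⟨y, hy, h2⟩

theorem hammingDist_update_left (x : ι → Δ) (i : ι) (e : Δ) (he : e ≠ x i) [DecidableEq ι] :
    hammingDist x (Function.update x i e) = 1 := by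
  unfold hammingDist
  rw [Finset.card_eq_one]
  refine ⟨i, ?_⟩
  ext j
  simp only [Finset.mem_filter, Finset.mem_univ, true_and, Finset.mem_singleton]
  constructor
  · intro hj
    by_contra hji
    exact hj (by rw [Function.update_of_ne hji])
  · rintro rfl
    rw [Function.update_self]
    exact he.symm

/-- Every block with two points contains two points at distance 1. -/
theorem exists_dist_one {B : Set (ι → Δ)} (hB : IsBlock (isoG ι Δ) B) (h3 : 3 ≤ Nat.card Δ)
    [Finite Δ] {x y : ι → Δ} (hx : x ∈ B) (hy : y ∈ B) (hxy : x ≠ y) :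
    ∃ b ∈ B, hammingDist x b = 1 := by
  classical
  obtain ⟨i, hi⟩ : ∃ i, x i ≠ y i := by
    by_contra hcon
    push Not at hcon
    exact hxy (funext hcon)
  obtain ⟨c, hc1, hc2⟩ : ∃ c : Δ, c ≠ x i ∧ c ≠ y i := by
    by_contra hcon
    push Not at hcon
    have hsub : (Set.univ : Set Δ) ⊆ {x i, y i} := by
      intro c _
      by_cases hc : c = x i
      · simp [hc]
      · simp [hcon c hc]
    have := Set.ncard_le_ncard hsub (Set.toFinite _)
    rw [Set.ncard_univ] at this
    have h2 := Set.ncard_pair hi
    omega
  let z := Function.update y i c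
  let b := Function.update x i (y i)
  have hd1 : hammingDist x y = hammingDist x z := by
    unfold hammingDist
    congr 1
    ext j
    simp only [Finset.mem_filter, Finset.mem_univ, true_and]
    by_cases hj : j = i
    · subst hj
      simp only [z, Function.update_self]
      exact ⟨fun _ => hc1.symm, fun _ => hi⟩
    · simp [z, Function.update_of_ne hj]
  have hd2 : hammingDist x y = hammingDist z b := by
    unfold hammingDist
    congr 1
    ext j
    simp only [Finset.mem_filter, Finset.mem_univ, true_and]
    by_cases hj : j = i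
    · subst hj
      simp only [z, b, Function.update_self]
      exact ⟨fun _ => hc2, fun _ => hi⟩
    · simp only [z, b, Function.update_of_ne hj]
      exact ⟨fun h e => h e.symm, fun h e => h e.symm⟩
  have hz : z ∈ B := closed_of_block hB hx hy hx hd1
  have hb : b ∈ B := closed_of_block hB hx hy hz hd2
  exact ⟨b, hb, hammingDist_update_left x i (y i) hi.symm⟩

theorem eq_univ_of_dist_one {B : Set (ι → Δ)} (hB : IsBlock (isoG ι Δ) B) {x b : ι → Δ}
    (hx : x ∈ B) (hb : b ∈ B) (h1 : hammingDist x b = 1) : B = Set.univ := by
  classical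
  rw [Set.eq_univ_iff_forall]
  have key : ∀ (n : ℕ) (v : ι → Δ), hammingDist x v = n → v ∈ B := by
    intro n
    induction n with
    | zero =>
      intro v hv
      rw [hammingDist_eq_zero] at hv
      rwa [← hv]
    | succ n ih =>
      intro v hv
      obtain ⟨i, hi⟩ : ∃ i, x i ≠ v i := by
        by_contra hcon
        push Not at hcon
        have : x = v := funext hcon
        subst this
        simp at hv
      let v' := Function.update v i (x i)
      have hv' : hammingDist x v' = n := by
        have hs : (Finset.univ.filter fun j => x j ≠ v' j) =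
            (Finset.univ.filter fun j => x j ≠ v j).erase i := by
          ext j
          simp only [Finset.mem_filter, Finset.mem_univ, true_and, Finset.mem_erase]
          by_cases hj : j = i
          · subst hj
            simp [v']
          · simp [v', Function.update_of_ne hj, hj]
        unfold hammingDist at hv ⊢
        rw [hs, Finset.card_erase_of_mem (by simp [hi]), hv]
        simp
      have hv'B : v' ∈ B := ih v' hv'
      have hd : hammingDist x b = hammingDist v' v := by
        rw [h1, hammingDist_comm]
        have hvv' : v' = Function.update v i (x i) := rfl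
        rw [hvv']
        exact (hammingDist_update_left v i (x i) hi).symm
      exact closed_of_block hB hx hb hv'B hd
  intro v
  exact key _ v rfl

/-- The isometry group of the Hamming scheme on at least 3 letters is primitive. -/
theorem isPreprimitive_isoG [Finite Δ] (h3 : 3 ≤ Nat.card Δ) :
    IsPreprimitive (isoG ι Δ) (ι → Δ) := by
  refine { toIsPretransitive := isPretransitive_isoG, isTrivialBlock_of_isBlock := ?_ }
  intro B hB
  by_cases hsub : B.Subsingleton
  · exact Or.inl hsub
  · right
    rw [Set.not_subsingleton_iff] at hsub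
    obtain ⟨x, hx, y, hy, hxy⟩ := hsub
    obtain ⟨b, hb, h1⟩ := exists_dist_one hB h3 hx hy hxy
    exact eq_univ_of_dist_one hB hx hb h1


section Reg

variable {F : ι → Type w} [∀ i, Group (F i)] (e : ∀ i, F i ≃ Δ)

/-- Coordinatewise regular action of a product group. -/
def regHom : (∀ i, F i) →* Equiv.Perm (ι → Δ) where
  toFun f :=
    { toFun := fun ω i => e i (f i * (e i).symm (ω i))
      invFun := fun ω i => e i ((f i)⁻¹ * (e i).symm (ω i))
      left_inv := by
        intro ω
        funext i
        simp
      right_inv := by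
        intro ω
        funext i
        simp }
  map_one' := by
    ext ω i
    simp
  map_mul' := by
    intro f g
    ext ω i
    simp [mul_assoc]

theorem regHom_apply (f : ∀ i, F i) (ω : ι → Δ) (i : ι) :
    regHom e f ω i = e i (f i * (e i).symm (ω i)) := rfl

theorem regHom_mem (f : ∀ i, F i) : regHom e f ∈ isoG ι Δ := by
  intro u v
  unfold hammingDist
  congr 1
  ext j
  simp [regHom_apply]

theorem regHom_exists (u v : ι → Δ) : ∃ f, regHom e f u = v := by
  refine ⟨fun i => (e i).symm (v i) * ((e i).symm (u i))⁻¹, ?_⟩
  funext i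
  simp [regHom_apply]

theorem regHom_eq_one [Nonempty Δ] {f : ∀ i, F i} (u : ι → Δ) (h : regHom e f u = u) : f = 1 := by
  funext i
  have h1 := congrFun h i
  rw [regHom_apply] at h1
  have h2 : f i * (e i).symm (u i) = (e i).symm (u i) := by
    apply (e i).injective
    rw [h1]
    simp
  simpa using h2

theorem regHom_injective [Nonempty Δ] : Function.Injective (regHom e) := by
  rw [injective_iff_map_eq_one]
  intro f hf
  obtain ⟨d⟩ := ‹Nonempty Δ›
  apply regHom_eq_one e (fun _ => d)
  rw [hf]
  rfl

end Reg

/-- Not 2-transitive. -/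
theorem exists_dist (h2 : 2 ≤ Fintype.card ι) (hΔ : Nontrivial Δ) [DecidableEq ι] :
    ∃ x y x' y' : ι → Δ, x ≠ y ∧ x' ≠ y' ∧ hammingDist x y ≠ hammingDist x' y' := by
  obtain ⟨i, j, hij⟩ := Fintype.exists_pair_of_one_lt_card (α := ι) (by omega)
  obtain ⟨a, b, hab⟩ := hΔ
  let x : ι → Δ := fun _ => a
  let y := Function.update x i b
  let y' := Function.update y j b
  have h1 : hammingDist x y = 1 := hammingDist_update_left x i b hab.symm
  have hs : hammingDist x y' = 2 := by
    unfold hammingDist
    have : (Finset.univ.filter fun k => x k ≠ y' k) = {i, j} := by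
      ext k
      simp only [Finset.mem_filter, Finset.mem_univ, true_and, Finset.mem_insert,
        Finset.mem_singleton]
      by_cases hki : k = i
      · subst hki
        simp [y', y, Function.update_of_ne hij, x, hab]
      · by_cases hkj : k = j
        · subst hkj
          simp [y', x, hab, hki]
        · simp [y', y, Function.update_of_ne hkj, Function.update_of_ne hki, hki, hkj, x]
    rw [this, Finset.card_pair hij]
  refine ⟨x, y, x, y', ?_, ?_, ?_⟩
  · intro h
    rw [h, hammingDist_self] at h1
    omega
  · intro h
    rw [← h, hammingDist_self] at hs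
    omega
  · omega

end Cfsg.Agent.Lib.PermRec.Hamming
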