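import Cfsg.Agent.Lib.Perm.JordanThree
import Cfsg.Agent.Lib.Perm.MinDegree
import Cfsg.Agent.Lib.Perm.Basic

/-!
# Marggraf's theorem on Jordan sets

A primitive (indeed quasiprimitive) group with a Jordan set `Γ`, `2 ≤ |Γ|`, `2|Γ| < n`, contains
the alternating group.

The proof reduces to `n = 2|Γ| + 1` through point stabilisers.  In that case, let `t` be the degree
of transitivity.  A `t`-subset `T₀` of the complement of `Γ` has a "closure" `C`
(the points on no translate of `Γ` avoiding `T₀`).  The pointwise stabiliser of `C` is transitive on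
the complement, the complement of `C` carries an invariant equivalence relation with classes of
size `β`, `Γ` is a union of classes; so `β ∣ |C| - 1`.  A Tits-style count gives `β ≥ |C|`.
-/

set_option autoImplicit false

open MulAction Equiv
open scoped Pointwise

namespace Cfsg.Agent.Lib.PermRec.Marggraf

universe u v

section Base

variable {G : Type u} {Ω : Type v} [Group G] [MulAction G Ω]

/-- Every translate of `Γ` avoiding `A` and through `y` passes through `z`. -/
def Dep (G : Type u) [Group G] [MulAction G Ω] (Γ A : Set Ω) (y z : Ω) : Prop :=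
  ∀ g : G, (∀ a ∈ A, g • a ∉ Γ) → g • y ∈ Γ → g • z ∈ Γ

/-- The pointwise stabiliser of `A` is transitive on the complement. -/
def Tr (G : Type u) [Group G] [MulAction G Ω] (A : Set Ω) : Prop :=
  ∀ u v, u ∉ A → v ∉ A → ∃ g : G, (∀ a ∈ A, g • a = a) ∧ g • u = v

theorem Dep.refl (Γ A : Set Ω) (y : Ω) : Dep G Γ A y y := fun _ _ h => h

theorem Dep.trans {Γ A : Set Ω} {x y z : Ω} (h1 : Dep G Γ A x y) (h2 : Dep G Γ A y z) :
    Dep G Γ A x z := fun g hg hx => h2 g hg (h1 g hg hx)

theorem Dep.smul {Γ A : Set Ω} {h : G} (hh : ∀ a ∈ A, h • a = a) {y z : Ω}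
    (d : Dep G Γ A y z) : Dep G Γ A (h • y) (h • z) := fun g hg hy => by
  have := d (g * h) (fun a ha => by rw [mul_smul, hh a ha]; exact hg a ha) (by rwa [mul_smul])
  rwa [mul_smul] at this

/-- The class of `y`. -/
def Cls (G : Type u) [Group G] [MulAction G Ω] (Γ A : Set Ω) (y : Ω) : Set Ω :=
  {z | z ∉ A ∧ Dep G Γ A y z}

theorem cls_card_le [Finite Ω] {Γ A : Set Ω} (hA : Tr G A) {y y' : Ω} (hy : y ∉ A) (hy' : y' ∉ A) :
    (Cls G Γ A y).ncard ≤ (Cls G Γ A y').ncard := by
  obtain ⟨h, hh, hhy⟩ := hA y y' hy hy'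
  refine Set.ncard_le_ncard_of_injOn (fun z => h • z) ?_ ?_ (Set.toFinite _)
  · rintro z ⟨hz, hd⟩
    refine ⟨?_, ?_⟩
    · intro hza
      have h1 : h • (h • z) = h • z := hh _ hza
      have h2 : h • z = z := MulAction.injective h h1
      exact hz (h2 ▸ hza)
    · have := hd.smul hh
      rwa [hhy] at this
  · intro a _ b _ hab
    exact MulAction.injective h hab

theorem cls_card_eq [Finite Ω] {Γ A : Set Ω} (hA : Tr G A) {y y' : Ω} (hy : y ∉ A) (hy' : y' ∉ A) :
    (Cls G Γ A y).ncard = (Cls G Γ A y').ncard :=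
  le_antisymm (cls_card_le hA hy hy') (cls_card_le hA hy' hy)

theorem Dep.symm [Finite Ω] {Γ A : Set Ω} (hA : Tr G A) {y z : Ω} (hy : y ∉ A) (hz : z ∉ A)
    (d : Dep G Γ A y z) : Dep G Γ A z y := by
  have hsub : Cls G Γ A z ⊆ Cls G Γ A y := fun w hw => ⟨hw.1, d.trans hw.2⟩
  have heq := Set.eq_of_subset_of_ncard_le hsub (cls_card_le hA hy hz)
  have hmem : y ∈ Cls G Γ A y := ⟨hy, Dep.refl _ _ _⟩
  rw [← heq] at hmem
  exact hmem.2

theorem cls_eq [Finite Ω] {Γ A : Set Ω} (hA : Tr G A) {y z : Ω} (hy : y ∉ A)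
    (hz : z ∈ Cls G Γ A y) : Cls G Γ A z = Cls G Γ A y := by
  have hzy := hz.2.symm hA hy hz.1
  ext w
  exact ⟨fun hw => ⟨hw.1, hz.2.trans hw.2⟩, fun hw => ⟨hw.1, hzy.trans hw.2⟩⟩

/-- A set which is a union of classes of constant size. -/
theorem dvd_ncard_of_classes {X : Type*} [Finite X] (S : Set X) (c : X → Set X) (β : ℕ)
    (hsub : ∀ x ∈ S, c x ⊆ S) (hcard : ∀ x ∈ S, (c x).ncard = β)
    (hself : ∀ x ∈ S, x ∈ c x)
    (heq : ∀ x ∈ S, ∀ z ∈ c x, c z = c x) : β ∣ S.ncard := by
  classical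
  have := Fintype.ofFinite X
  let s : Finset X := S.toFinset
  have hs : S.ncard = s.card := Set.ncard_eq_toFinset_card' S
  let t : Finset (Set X) := s.image c
  have h1 := Finset.card_eq_sum_card_fiberwise (s := s) (t := t) (f := c)
    (fun x hx => Finset.mem_coe.2 (Finset.mem_image_of_mem c hx))
  have h2 : ∀ b ∈ t, (s.filter (fun x => c x = b)).card = β := by
    intro b hb
    obtain ⟨x, hx, rfl⟩ := Finset.mem_image.1 hb
    have hxS : x ∈ S := Set.mem_toFinset.1 hx
    have : s.filter (fun z => c z = c x) = (c x).toFinset := by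
      ext z
      simp only [Finset.mem_filter, Set.mem_toFinset, s]
      constructor
      · rintro ⟨hz, hzx⟩
        rw [← hzx]
        exact hself z hz
      · intro hz
        exact ⟨hsub x hxS hz, heq x hxS z hz⟩
    rw [this, ← Set.ncard_eq_toFinset_card', hcard x hxS]
  rw [Finset.sum_congr rfl h2, Finset.sum_const, smul_eq_mul] at h1
  rw [hs, h1]
  exact dvd_mul_left _ _

/-- The base case of Marggraf's theorem. -/
theorem base [Finite Ω] {Γ : Set Ω}
    (hJ : ∀ x ∈ Γ, ∀ y ∈ Γ, ∃ g : G, (∀ z ∉ Γ, g • z = z) ∧ g • x = y) {t m : ℕ}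
    (hm : Γ.ncard = m) (hn : Nat.card Ω = 2 * m + 1) (ht2 : 2 ≤ t) (hne : Γ.Nonempty)
    (T₀ : Finset Ω) (hT : T₀.card = t) (hTΓ : ∀ a ∈ T₀, a ∉ Γ)
    (hTr : ∀ A : Set Ω, A.ncard + 1 = t → Tr G A)
    (hnot : ¬ Tr G (T₀ : Set Ω)) : False := by
  classical
  have := Fintype.ofFinite Ω
  set U : Set Ω := {w | ∃ g : G, (∀ a ∈ T₀, g • a ∉ Γ) ∧ g • w ∈ Γ} with hU
  set C : Set Ω := Uᶜ with hC
  have hJcard : ∀ g : G, ({w | g • w ∈ Γ} : Set Ω).ncard = m := by
    intro g
    have : ({w | g • w ∈ Γ} : Set Ω) = g⁻¹ • Γ := by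
      ext w
      rw [Set.mem_inv_smul_set_iff]
      rfl
    rw [this, Set.ncard_smul_set, hm]
  have hT0 : ((T₀ : Set Ω)).ncard = t := by rw [Set.ncard_coe_finset, hT]
  have hoverlap : ∀ g₁ g₂ : G, (∀ a ∈ T₀, g₁ • a ∉ Γ) → (∀ a ∈ T₀, g₂ • a ∉ Γ) →
      ∃ w, g₁ • w ∈ Γ ∧ g₂ • w ∈ Γ := by
    intro g₁ g₂ h₁ h₂
    by_contra hcon
    push Not at hcon
    have hdisj : Disjoint ({w | g₁ • w ∈ Γ} : Set Ω) {w | g₂ • w ∈ Γ} := by
      rw [Set.disjoint_left]
      intro w h1 h2
      exact hcon w h1 h2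
    have hsub : ({w | g₁ • w ∈ Γ} : Set Ω) ∪ {w | g₂ • w ∈ Γ} ⊆ (T₀ : Set Ω)ᶜ := by
      rintro w (h | h) hw
      · exact h₁ w hw h
      · exact h₂ w hw h
    have h1 := Set.ncard_le_ncard hsub (Set.toFinite _)
    rw [Set.ncard_union_eq hdisj (Set.toFinite _) (Set.toFinite _), hJcard, hJcard] at h1
    have h2 := Set.ncard_add_ncard_compl (T₀ : Set Ω)
    omega
  have hmove : ∀ g : G, (∀ a ∈ T₀, g • a ∉ Γ) → ∀ u v, g • u ∈ Γ → g • v ∈ Γ →
      ∃ f : G, (∀ c ∈ C, f • c = c) ∧ f • u = v := by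
    intro g hg u v hu hv
    obtain ⟨e, he, heu⟩ := hJ _ hu _ hv
    refine ⟨g⁻¹ * e * g, fun c hc => ?_, ?_⟩
    · have hgc : g • c ∉ Γ := fun h => hc ⟨g, hg, h⟩
      simp only [mul_smul]
      rw [he _ hgc, inv_smul_smul]
    · simp only [mul_smul]
      rw [heu, inv_smul_smul]
  have hTrC : Tr G C := by
    intro u v hu hv
    have hu' : u ∈ U := by
      by_contra h
      exact hu h
    have hv' : v ∈ U := by
      by_contra h
      exact hv h
    obtain ⟨g₁, hg₁, hu₁⟩ := hu'
    obtain ⟨g₂, hg₂, hv₂⟩ := hv'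
    obtain ⟨w, hw₁, hw₂⟩ := hoverlap g₁ g₂ hg₁ hg₂
    obtain ⟨f₁, hf₁, hf₁u⟩ := hmove g₁ hg₁ u w hu₁ hw₁
    obtain ⟨f₂, hf₂, hf₂w⟩ := hmove g₂ hg₂ w v hw₂ hv₂
    exact ⟨f₂ * f₁, fun c hc => by rw [mul_smul, hf₁ c hc, hf₂ c hc], by
      rw [mul_smul, hf₁u, hf₂w]⟩
  -- `T₀ ⊆ C`
  have hT₀C : (T₀ : Set Ω) ⊆ C := by
    rintro a ha ⟨g, hg, hga⟩
    exact hg a ha hga
  have hCΓ : ∀ c ∈ C, c ∉ Γ := by
    intro c hc hcΓ
    exact hc ⟨1, fun a ha => by rw [one_smul]; exact hTΓ a ha, by rwa [one_smul]⟩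
  have hCne : (T₀ : Set Ω) ≠ C := by
    intro h
    apply hnot
    rw [h]
    exact hTrC
  have hCcard : t + 1 ≤ C.ncard := by
    have := Set.ncard_lt_ncard (lt_of_le_of_ne hT₀C hCne) (Set.toFinite _)
    omega
  obtain ⟨y, hyΓ⟩ := hne
  have hyC : y ∉ C := fun h => hCΓ y h hyΓ
  have hyT : y ∉ T₀ := fun h => hTΓ y h hyΓ
  -- the subsets `S s`
  let S : Ω → Set Ω := fun s => (T₀ : Set Ω) \ {s}
  have hSsub : ∀ s, S s ⊆ (T₀ : Set Ω) := fun s => Set.sdiff_subset
  have hScard : ∀ s ∈ T₀, (S s).ncard + 1 = t := by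
    intro s hs
    have := Set.ncard_sdiff_singleton_add_one (Finset.mem_coe.2 hs) (Set.toFinite _)
    rw [hT0] at this
    exact this
  have hSTr : ∀ s ∈ T₀, Tr G (S s) := fun s hs => hTr _ (hScard s hs)
  have hsS : ∀ s, s ∉ S s := fun s h => h.2 rfl
  -- the class of `s` for `S s`
  have hClsS : ∀ s ∈ T₀, Cls G Γ (S s) s = C \ S s := by
    intro s hs
    ext z
    constructor
    · rintro ⟨hz, hd⟩
      refine ⟨?_, hz⟩
      have hd' := hd.symm (hSTr s hs) (hsS s) hz
      rintro ⟨g, hg, hgz⟩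
      have h1 := hd' g (fun a ha => hg a (hSsub s ha)) hgz
      exact hg s hs h1
    · rintro ⟨hzC, hz⟩
      refine ⟨hz, ?_⟩
      by_cases hzs : z = s
      · rw [hzs]
        exact Dep.refl _ _ _
      · have hd : Dep G Γ (S s) z s := by
          intro g hg hgz
          by_contra hgs
          refine hzC ⟨g, fun a ha => ?_, hgz⟩
          by_cases has : a = s
          · rw [has]
            exact hgs
          · exact hg a ⟨ha, has⟩
        exact hd.symm (hSTr s hs) hz (hsS s)
  -- sizes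
  set k : ℕ := C.ncard with hk
  have hES : ∀ s ∈ T₀, (Cls G Γ (S s) y).ncard + t = k + 1 := by
    intro s hs
    have hyS : y ∉ S s := fun h => hyT (hSsub s h)
    rw [cls_card_eq (hSTr s hs) hyS (hsS s), hClsS s hs]
    have h1 : S s ⊆ C := (hSsub s).trans hT₀C
    have h2 := Set.ncard_sdiff_add_ncard_of_subset h1 (Set.toFinite _)
    have h3 := hScard s hs
    omega
  -- disjointness
  have hdisj : ∀ s ∈ T₀, ∀ s' ∈ T₀, s ≠ s' → ∀ z, z ∈ Cls G Γ (S s) y → z ∈ Cls G Γ (S s') y →
      z = y := by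
    intro s hs s' hs' hss' z hz hz'
    by_contra hzy
    let A : Set Ω := insert y ((T₀ : Set Ω) \ {s, s'})
    have hAcard : A.ncard + 1 = t := by
      have h1 : y ∉ (T₀ : Set Ω) \ {s, s'} := fun h => hyT h.1
      rw [Set.ncard_insert_of_notMem h1]
      have h2 : ({s, s'} : Set Ω) ⊆ T₀ := by
        intro w hw
        rcases hw with rfl | hw
        · exact hs
        · rw [Set.mem_singleton_iff] at hw
          rw [hw]
          exact hs'
      have h3 := Set.ncard_sdiff_add_ncard_of_subset h2 (Set.toFinite _)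
      rw [Set.ncard_pair hss', hT0] at h3
      omega
    have hATr : Tr G A := hTr _ hAcard
    have hsA : s ∉ A := by
      rintro (h | h)
      · exact hyT (h ▸ hs)
      · exact h.2 (Or.inl rfl)
    have hs'A : s' ∉ A := by
      rintro (h | h)
      · exact hyT (h ▸ hs')
      · exact h.2 (Or.inr rfl)
    have hzA : z ∉ A := by
      rintro (h | h)
      · exact hzy h
      · exact hz.1 ⟨h.1, fun hh => h.2 (Or.inl hh)⟩
    have hyS : y ∉ S s := fun h => hyT (hSsub s h)
    have hyS' : y ∉ S s' := fun h => hyT (hSsub s' h)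
    -- exchange
    have h1 : Dep G Γ A z s' := by
      intro g hg hgz
      by_contra hgs
      have hzy' := hz.2.symm (hSTr s hs) hyS hz.1
      have := hzy' g (fun a ha => ?_) hgz
      · exact hg y (Or.inl rfl) this
      · by_cases has : a = s'
        · rw [has]
          exact hgs
        · exact hg a (Or.inr ⟨ha.1, by
            rintro (h | h)
            · exact ha.2 h
            · exact has h⟩)
    have h2 : Dep G Γ A z s := by
      intro g hg hgz
      by_contra hgs
      have hzy' := hz'.2.symm (hSTr s' hs') hyS' hz'.1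
      have := hzy' g (fun a ha => ?_) hgz
      · exact hg y (Or.inl rfl) this
      · by_cases has : a = s
        · rw [has]
          exact hgs
        · exact hg a (Or.inr ⟨ha.1, by
            rintro (h | h)
            · exact has h
            · exact ha.2 h⟩)
    have h3 : Dep G Γ A s s' := (h2.symm hATr hzA hsA).trans h1
    -- a translate through `s`, avoiding `S s` and `y`
    have h4 : ¬ Dep G Γ (S s) s y := by
      intro hd
      have : y ∈ Cls G Γ (S s) s := ⟨hyS, hd⟩
      rw [hClsS s hs] at this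
      exact hyC this.1
    unfold Dep at h4
    push Not at h4
    obtain ⟨g, hg, hgs, hgy⟩ := h4
    have h5 := h3 g (by
      rintro a (rfl | ha)
      · exact hgy
      · exact hg a ⟨ha.1, fun h => ha.2 (Or.inl h)⟩) hgs
    exact hg s' ⟨hs', fun h => hss' h.symm⟩ h5
  -- the classes for `C`
  set W : Set Ω := Cls G Γ C y with hW
  set β : ℕ := W.ncard with hβ
  have hUcompl : (U : Set Ω) = Cᶜ := by rw [hC, compl_compl]
  have hUdvd : β ∣ U.ncard := by
    refine dvd_ncard_of_classes U (Cls G Γ C) β ?_ ?_ ?_ ?_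
    · intro x _ z hz
      by_contra hzU
      exact hz.1 hzU
    · intro x hx
      exact cls_card_eq hTrC (fun h => h hx) hyC
    · intro x hx
      exact ⟨fun h => h hx, Dep.refl _ _ _⟩
    · intro x hx z hz
      exact cls_eq hTrC (fun h => h hx) hz
  have hΓdvd : β ∣ Γ.ncard := by
    have hΓC : ∀ x ∈ Γ, x ∉ C := fun x hx h => hCΓ x h hx
    refine dvd_ncard_of_classes Γ (Cls G Γ C) β ?_ ?_ ?_ ?_
    · intro x hx z hz
      have := hz.2 1 (fun a ha => by rw [one_smul]; exact hCΓ a ha) (by rwa [one_smul])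
      rwa [one_smul] at this
    · intro x hx
      exact cls_card_eq hTrC (hΓC x hx) hyC
    · intro x hx
      exact ⟨hΓC x hx, Dep.refl _ _ _⟩
    · intro x hx z hz
      exact cls_eq hTrC (hΓC x hx) hz
  have hsum : U.ncard + k = 2 * m + 1 := by
    have := Set.ncard_add_ncard_compl C
    rw [← hUcompl, hn] at this
    omega
  have hdvdk : β ∣ k - 1 := by
    have h1 : β ∣ 2 * m := by
      rw [← hm]
      exact Dvd.dvd.mul_left hΓdvd 2
    have h2 : 2 * m - U.ncard = k - 1 := by omega
    rw [← h2]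
    exact Nat.dvd_sub h1 hUdvd
  have hβle : β ≤ k - 1 := Nat.le_of_dvd (by omega) hdvdk
  -- the count
  have hWcount : 1 + t * (k - t) ≤ β := by
    let F : Ω → Finset Ω := fun s => (Cls G Γ (S s) y \ {y}).toFinset
    have hFcard : ∀ s ∈ T₀, (F s).card = k - t := by
      intro s hs
      have h1 : (F s).card = (Cls G Γ (S s) y \ {y}).ncard := by
        rw [Set.ncard_eq_toFinset_card']
      have h2 : y ∈ Cls G Γ (S s) y := ⟨fun h => hyT (hSsub s h), Dep.refl _ _ _⟩
      have h3 := Set.ncard_sdiff_singleton_add_one h2 (Set.toFinite _)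
      have h4 := hES s hs
      omega
    have hFdisj : ((T₀ : Finset Ω) : Set Ω).PairwiseDisjoint F := by
      intro s hs s' hs' hss'
      rw [Function.onFun, Finset.disjoint_left]
      intro z hz hz'
      simp only [F, Set.mem_toFinset] at hz hz'
      exact hz.2 (hdisj s hs s' hs' hss' z hz.1 hz'.1)
    have hcardU : (T₀.biUnion F).card = t * (k - t) := by
      rw [Finset.card_biUnion hFdisj, Finset.sum_congr rfl hFcard, Finset.sum_const, hT,
        smul_eq_mul]
    have hsubW : (↑(insert y (T₀.biUnion F)) : Set Ω) ⊆ W := by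
      intro z hz
      rw [Finset.coe_insert, Set.mem_insert_iff, Finset.mem_coe, Finset.mem_biUnion] at hz
      rcases hz with rfl | ⟨s, hs, hz⟩
      · exact ⟨hyC, Dep.refl _ _ _⟩
      · simp only [F, Set.mem_toFinset] at hz
        have hzE := hz.1
        refine ⟨?_, ?_⟩
        · intro hzC
          have := hzE.2 1 (fun a ha => by
            rw [one_smul]
            exact hTΓ a (hSsub s ha)) (by rwa [one_smul])
          rw [one_smul] at this
          exact hCΓ z hzC this
        · intro g hg hgy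
          exact hzE.2 g (fun a ha => hg a (hT₀C (hSsub s ha))) hgy
    have h1 := Set.ncard_le_ncard hsubW (Set.toFinite _)
    rw [Set.ncard_coe_finset, Finset.card_insert_of_notMem (by
      intro hy
      rw [Finset.mem_biUnion] at hy
      obtain ⟨s, _, hs⟩ := hy
      simp only [F, Set.mem_toFinset] at hs
      exact hs.2 rfl), hcardU] at h1
    omega
  -- conclusion
  obtain ⟨c, hc⟩ : ∃ c, k = t + 1 + c := ⟨k - t - 1, by omega⟩
  have h1 : k - t = c + 1 := by omega
  rw [h1] at hWcount
  have h2 : k - 1 = t + c := by omega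
  rw [h2] at hβle
  have h3 : t * (c + 1) = t * c + t := by ring
  have h4 : c ≤ t * c := Nat.le_mul_of_pos_left c (by omega)
  omega

end Base

section Prim

variable {G : Type u} {Ω : Type v} [Group G] [MulAction G Ω]

/-- Transitive with the point stabiliser inducing the alternating group on the remaining points. -/
theorem alt_of_stabilizer [Fintype Ω] [DecidableEq Ω] (htr : IsPretransitive G Ω) (a : Ω)
    (hcard : 4 ≤ Nat.card Ω)
    [Fintype (SubMulAction.ofStabilizer G a)] [DecidableEq (SubMulAction.ofStabilizer G a)]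
    (h : ∀ σ : Perm (SubMulAction.ofStabilizer G a), Perm.sign σ = 1 →
      ∃ x : stabilizer G a, (MulAction.toPerm x : Perm (SubMulAction.ofStabilizer G a)) = σ) :
    ∀ σ : Perm Ω, Perm.sign σ = 1 → ∃ x : G, (MulAction.toPerm x : Perm Ω) = σ := by
  classical
  have hcard' : 4 ≤ Fintype.card Ω := by rwa [← Nat.card_eq_fintype_card]
  let P : Subgroup (Perm Ω) := (MulAction.toPermHom G Ω).range
  have key : alternatingGroup Ω ≤ P := by
    rw [← Perm.closure_three_cycles_eq_alternating, Subgroup.closure_le]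
    intro c hc
    have hc3 : c.IsThreeCycle := hc
    have hs : c.support.card = 3 := hc3.card_support
    obtain ⟨b, hb⟩ : ∃ b, b ∉ c.support := by
      by_contra hcon
      push Not at hcon
      have : c.support = Finset.univ := Finset.eq_univ_of_forall hcon
      rw [this, Finset.card_univ] at hs
      omega
    obtain ⟨g, hg⟩ := htr.exists_smul_eq b a
    let c' : Perm Ω := MulAction.toPerm g * c * (MulAction.toPerm g)⁻¹
    have hca : c' a = a := by
      have h1 : (MulAction.toPerm g : Perm Ω)⁻¹ a = b := by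
        rw [Perm.inv_eq_iff_eq]
        exact hg.symm
      have h2 : c b = b := by
        rwa [Perm.notMem_support] at hb
      simp only [c', Perm.mul_apply]
      rw [h1, h2]
      exact hg
    have hsign : Perm.sign c' = 1 := by
      simp only [c', map_mul, map_inv]
      rw [hc3.sign]
      simp
    have hp : ∀ u : Ω, c' u ∈ SubMulAction.ofStabilizer G a ↔ u ∈ SubMulAction.ofStabilizer G a := by
      intro u
      rw [SubMulAction.mem_ofStabilizer_iff, SubMulAction.mem_ofStabilizer_iff]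
      constructor
      · intro hu hua
        apply hu
        rw [hua, hca]
      · intro hu hcu
        apply hu
        rw [← hca] at hcu
        exact c'.injective hcu
    let σ' : Perm (SubMulAction.ofStabilizer G a) := c'.subtypePerm hp
    have hσ' : Perm.sign σ' = 1 := by
      have h1 : Perm.sign σ' = Perm.sign c' := by
        have h2 := Perm.sign_subtypePerm c' hp (by
          intro u hu
          rw [SubMulAction.mem_ofStabilizer_iff]
          intro hua
          apply hu
          rw [hua, hca])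
        rw [← h2]
        congr!
      rw [h1, hsign]
    obtain ⟨x, hx⟩ := h σ' hσ'
    have hxc : (MulAction.toPerm (x : G) : Perm Ω) = c' := by
      ext u
      by_cases hua : u = a
      · rw [hua, hca]
        exact x.2
      · have hu : u ∈ SubMulAction.ofStabilizer G a := by
          rw [SubMulAction.mem_ofStabilizer_iff]
          exact hua
        have := congrArg Subtype.val (Equiv.congr_fun hx ⟨u, hu⟩)
        exact this
    have hmem : c' ∈ P := ⟨x, hxc⟩
    have hc'' : c = (MulAction.toPerm g)⁻¹ * c' * MulAction.toPerm g := by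
      simp only [c']
      group
    rw [hc'']
    have hgP : (MulAction.toPerm g : Perm Ω) ∈ P := ⟨g, rfl⟩
    exact P.mul_mem (P.mul_mem (P.inv_mem hgP) hmem) hgP
  intro σ hσ
  obtain ⟨x, hx⟩ := key (Perm.mem_alternatingGroup.2 hσ)
  exact ⟨x, hx⟩

/-- Marggraf's theorem for primitive groups. -/
theorem prim : ∀ (n : ℕ) {G : Type u} {Ω : Type v} [Group G] [Finite G] [MulAction G Ω]
    [Fintype Ω] [DecidableEq Ω] (_ : IsPreprimitive G Ω) (Γ : Set Ω) (_ : Nat.card Ω = n)
    (_ : 1 < Γ.ncard) (_ : 2 * Γ.ncard < n)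
    (_ : ∀ x ∈ Γ, ∀ y ∈ Γ, ∃ g : G, (∀ z ∉ Γ, g • z = z) ∧ g • x = y),
    ∀ σ : Perm Ω, Perm.sign σ = 1 → ∃ x : G, (MulAction.toPerm x : Perm Ω) = σ := by
  intro n
  induction n with
  | zero =>
    intro G Ω _ _ _ _ _ _ Γ hn h1 h2 htr
    omega
  | succ n ih =>
    intro G Ω _ _ _ _ _ hprim Γ hn h1 h2 htr
    classical
    have hG3 : IsMultiplyPretransitive G Ω 3 :=
      Cfsg.Agent.Lib.Perm.JordanThree.three_transitive hprim Γ h1 (by omega) htr
    have hcompl := Set.ncard_add_ncard_compl Γ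
    rw [hn] at hcompl
    by_cases hcase : 2 * Γ.ncard + 1 < n + 1
    · -- the reduction to a point stabiliser
      obtain ⟨a, ha⟩ : ∃ a, a ∉ Γ := by
        by_contra hcon
        push Not at hcon
        have h3 : Γ.ncard = n + 1 := by
          rw [← hn, Set.eq_univ_of_forall hcon, Set.ncard_univ]
        omega
      have hH2 : IsMultiplyPretransitive (stabilizer G a) (SubMulAction.ofStabilizer G a) 2 :=
        (SubMulAction.ofStabilizer.isMultiplyPretransitive (n := 2)).1 hG3
      have hHprim : IsPreprimitive (stabilizer G a) (SubMulAction.ofStabilizer G a) :=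
        isPreprimitive_of_is_two_pretransitive hH2
      have hcard := SubMulAction.nat_card_ofStabilizer_add_one_eq G a
      rw [hn] at hcard
      have hne : ∀ u ∈ Γ, u ∈ SubMulAction.ofStabilizer G a := by
        intro u hu
        rw [SubMulAction.mem_ofStabilizer_iff]
        rintro rfl
        exact ha hu
      let Γ' : Set (SubMulAction.ofStabilizer G a) := {u | (u : Ω) ∈ Γ}
      have hΓ' : Γ'.ncard = Γ.ncard := by
        rw [← Set.ncard_image_of_injective Γ' Subtype.val_injective]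
        congr 1
        ext u
        constructor
        · rintro ⟨v, hv, rfl⟩
          exact hv
        · intro hu
          exact ⟨⟨u, hne u hu⟩, hu, rfl⟩
      letI : Fintype (SubMulAction.ofStabilizer G a) := Fintype.ofFinite _
      have := ih hHprim Γ' (by omega) (by rw [hΓ']; exact h1) (by rw [hΓ']; omega) (by
        intro x hx y hy
        obtain ⟨g, hg, hgxy⟩ := htr _ hx _ hy
        refine ⟨⟨g, hg a ha⟩, fun z hz => Subtype.ext (hg _ hz), Subtype.ext hgxy⟩)
      exact alt_of_stabilizer hprim.toIsPretransitive a (by rw [hn]; omega) this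
    · -- the base case
      have hnm : Nat.card Ω = 2 * Γ.ncard + 1 := by omega
      set m := Γ.ncard with hm
      have hall : ∀ t, 3 ≤ t → t ≤ m + 2 → IsMultiplyPretransitive G Ω t := by
        intro t ht
        induction t, ht using Nat.le_induction with
        | base => intro _; exact hG3
        | succ t ht ih =>
          intro htm
          have hGt := ih (by omega)
          by_contra hnot
          -- a `t`-subset of the complement
          obtain ⟨T₀, hT₀⟩ : ∃ T₀ : Finset Ω, (T₀ : Set Ω) ⊆ Γᶜ ∧ T₀.card = t := by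
            have h3 : t ≤ Γᶜ.toFinset.card := by
              rw [← Set.ncard_eq_toFinset_card']
              omega
            obtain ⟨T₀, hsub, hcard⟩ := Finset.exists_subset_card_eq h3
            refine ⟨T₀, ?_, hcard⟩
            intro u hu
            exact Set.mem_toFinset.1 (hsub hu)
          have hne : Γ.Nonempty := (Set.ncard_pos Γ.toFinite).1 (by omega)
          refine base (G := G) htr hm.symm hnm (by omega) hne T₀ hT₀.2
            (fun a ha => hT₀.1 ha) ?_ ?_
          · intro A hA u v hu hv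
            let s : Finset Ω := insert u A.toFinset
            have hs : s.card = t := by
              rw [Finset.card_insert_of_notMem (by simpa using hu), ← Set.ncard_eq_toFinset_card']
              exact hA
            obtain ⟨g, hg⟩ := Cfsg.Agent.Lib.Perm.Basic.exists_agree_of_card_eq hGt s hs
              (fun x => if x = u then v else x) (by
                intro x hx y hy hxy
                simp only [s, Finset.coe_insert, Set.coe_toFinset, Set.mem_insert_iff] at hx hy
                by_cases hxu : x = u <;> by_cases hyu : y = u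
                · rw [hxu, hyu]
                · simp only [hxu, hyu, if_true, if_false] at hxy
                  rw [hxy] at hv
                  rcases hy with h | h
                  · exact absurd h hyu
                  · exact absurd h hv
                · simp only [hxu, hyu, if_true, if_false] at hxy
                  rw [← hxy] at hv
                  rcases hx with h | h
                  · exact absurd h hxu
                  · exact absurd h hv
                · simpa only [hxu, hyu, if_false] using hxy)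
            refine ⟨g, fun a ha => ?_, ?_⟩
            · have hau : a ≠ u := by
                rintro rfl
                exact hu ha
              have := hg a (by simp [s, ha])
              rwa [if_neg hau] at this
            · have := hg u (by simp [s])
              rwa [if_pos rfl] at this
          · intro hTr
            apply hnot
            refine Cfsg.Agent.Lib.Perm.Basic.of_fixing hGt T₀ hT₀.2 (r := 1) ?_
            rw [is_one_pretransitive_iff]
            refine ⟨fun a b => ?_⟩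
            obtain ⟨g, hg, hgab⟩ := hTr a.1 b.1 a.2 b.2
            exact ⟨⟨g, fun x => hg x.1 x.2⟩, Subtype.ext hgab⟩
      have hGk := hall (m + 2) (by omega) le_rfl
      -- the image in the symmetric group
      let P : Subgroup (Perm Ω) := (MulAction.toPermHom G Ω).range
      have hPk : IsMultiplyPretransitive P Ω (m + 2) := by
        refine ⟨fun x y => ?_⟩
        obtain ⟨g, hg⟩ := hGk.exists_smul_eq x y
        refine ⟨⟨MulAction.toPermHom G Ω g, ⟨g, rfl⟩⟩, ?_⟩
        exact hg
      obtain ⟨u, hu, v, hv, huv⟩ := (Set.one_lt_ncard Γ.toFinite).1 h1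
      obtain ⟨e, he, heu⟩ := htr _ hu _ hv
      have hsupp : (MulAction.toPerm e : Perm Ω).support.card ≤ m := by
        rw [hm, ← Set.ncard_coe_finset]
        refine Set.ncard_le_ncard ?_ Γ.toFinite
        intro z hz
        by_contra hzΓ
        rw [Finset.mem_coe, Perm.mem_support] at hz
        exact hz (he z hzΓ)
      have hcardn : m + 2 ≤ Fintype.card Ω := by
        rw [← Nat.card_eq_fintype_card]
        omega
      have := (Cfsg.Agent.Lib.Perm.MinDegree.small_support_alternating P (k := m + 2) (by omega)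
        hcardn hPk (MulAction.toPerm e) ⟨e, rfl⟩ (by
          intro h
          apply huv
          rw [← heu]
          have := Equiv.congr_fun h u
          exact this.symm) (by omega)).2
      intro σ hσ
      obtain ⟨x, hx⟩ := this (Perm.mem_alternatingGroup.2 hσ)
      exact ⟨x, hx⟩

end Prim

section Quasi

theorem ncard_eq_mul_of_fibers {X Y : Type*} [Finite X] [Finite Y] (π : X → Y) (S : Set X)
    (T : Set Y) (s : ℕ) (hmaps : ∀ x ∈ S, π x ∈ T)
    (hfib : ∀ t ∈ T, ({x | x ∈ S ∧ π x = t} : Set X).ncard = s) : S.ncard = s * T.ncard := by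
  classical
  have := Fintype.ofFinite X
  have := Fintype.ofFinite Y
  have h1 := Finset.card_eq_sum_card_fiberwise (s := S.toFinset) (t := T.toFinset) (f := π)
    (fun x hx => by
      simp only [Finset.mem_coe, Set.mem_toFinset] at hx ⊢
      exact hmaps x hx)
  have h2 : ∀ t ∈ T.toFinset, (S.toFinset.filter (fun x => π x = t)).card = s := by
    intro t ht
    rw [← hfib t (Set.mem_toFinset.1 ht), Set.ncard_eq_toFinset_card']
    congr 1
    ext x
    simp
  rw [Finset.sum_congr rfl h2, Finset.sum_const, smul_eq_mul] at h1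
  rw [Set.ncard_eq_toFinset_card', h1, Set.ncard_eq_toFinset_card', mul_comm]

/-- Marggraf's theorem for quasiprimitive groups. -/
theorem quasi : ∀ (n : ℕ) {G : Type u} {Ω : Type v} [Group G] [Finite G] [MulAction G Ω]
    [FaithfulSMul G Ω] [Fintype Ω] [DecidableEq Ω]
    (_ : ∀ N : Subgroup G, N.Normal → N ≠ ⊥ → IsPretransitive ↥N Ω)
    (Γ : Set Ω) (_ : Nat.card Ω = n)
    (_ : 1 < Γ.ncard) (_ : 2 * Γ.ncard < n)
    (_ : ∀ x ∈ Γ, ∀ y ∈ Γ, ∃ g : G, (∀ z ∉ Γ, g • z = z) ∧ g • x = y),
    ∀ σ : Perm Ω, Perm.sign σ = 1 → ∃ x : G, (MulAction.toPerm x : Perm Ω) = σ := by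
  intro n
  induction n using Nat.strong_induction_on with
  | _ n ih =>
  intro G Ω _ _ _ _ _ _ hqp Γ hn h1 h2 htr
  classical
  obtain ⟨u₀, hu₀, v₀, hv₀, huv₀⟩ := (Set.one_lt_ncard Γ.toFinite).1 h1
  obtain ⟨e₀, he₀, he₀u⟩ := htr _ hu₀ _ hv₀
  have he₀1 : e₀ ≠ 1 := by
    rintro rfl
    rw [one_smul] at he₀u
    exact huv₀ he₀u
  have hG : IsPretransitive G Ω := by
    have h3 := hqp ⊤ inferInstance (by
      intro h
      have : e₀ ∈ (⊥ : Subgroup G) := h ▸ Subgroup.mem_top e₀
      exact he₀1 (Subgroup.mem_bot.1 this))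
    refine ⟨fun x y => ?_⟩
    obtain ⟨g, hg⟩ := h3.exists_smul_eq x y
    exact ⟨g, hg⟩
  by_cases hprim : IsPreprimitive G Ω
  · exact prim n hprim Γ hn h1 h2 htr
  exfalso
  obtain ⟨B, hB, hBt⟩ : ∃ B : Set Ω, IsBlock G B ∧ ¬ IsTrivialBlock B := by
    by_contra hcon
    push Not at hcon
    exact hprim { toIsPretransitive := hG, isTrivialBlock_of_isBlock := fun {B} hB => hcon B hB }
  rw [IsTrivialBlock, not_or] at hBt
  obtain ⟨hBs, hBu⟩ := hBt
  have hBne : B.Nonempty := by
    rcases B.eq_empty_or_nonempty with h | h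
    · exact absurd (by rw [h]; exact Set.subsingleton_empty) hBs
    · exact h
  let 𝔅 := ↥(orbit G B)
  letI : Fintype 𝔅 := Fintype.ofFinite _
  have hb_nonempty : ∀ b : 𝔅, b.1.Nonempty := by
    rintro ⟨_, g, rfl⟩
    exact hBne.smul_set
  have hb_card : ∀ b : 𝔅, b.1.ncard = B.ncard := by
    rintro ⟨_, g, rfl⟩
    exact Set.ncard_smul_set g B
  have hb_uniq : ∀ (b b' : 𝔅) (p : Ω), p ∈ b.1 → p ∈ b'.1 → b = b' := by
    rintro ⟨_, g, rfl⟩ ⟨_, g', rfl⟩ p hp hp'
    apply Subtype.ext
    exact hB.smul_eq_smul_of_nonempty ⟨p, hp, hp'⟩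
  have hb_ex : ∀ p : Ω, ∃ b : 𝔅, p ∈ b.1 := by
    intro p
    obtain ⟨w, hw⟩ := hBne
    obtain ⟨g, hg⟩ := hG.exists_smul_eq w p
    exact ⟨⟨g • B, g, rfl⟩, by
      rw [← hg]
      exact Set.smul_mem_smul_set hw⟩
  choose π hπ using hb_ex
  have hπ_eq : ∀ (p : Ω) (b : 𝔅), π p = b ↔ p ∈ b.1 := by
    intro p b
    constructor
    · rintro rfl
      exact hπ p
    · intro hp
      exact hb_uniq _ _ p (hπ p) hp
  have hsmul_mem : ∀ (g : G) (b : 𝔅) (p : Ω), p ∈ b.1 → g • p ∈ (g • b).1 := by
    intro g b p hp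
    exact Set.smul_mem_smul_set hp
  -- an element with `g • p ∈ b` for `p ∈ b` fixes `b`
  have hfix : ∀ (g : G) (b : 𝔅) (p : Ω), p ∈ b.1 → g • p ∈ b.1 → g • b = b := by
    intro g b p hp hgp
    exact hb_uniq _ _ (g • p) (hsmul_mem g b p hp) hgp
  -- the kernel of the action on blocks is trivial
  have hker : ∀ q : G, (∀ b : 𝔅, q • b = b) → q = 1 := by
    intro q hq
    by_contra hq1
    let Q : Subgroup G := (MulAction.toPermHom G 𝔅).ker
    have hqQ : q ∈ Q := by
      rw [MonoidHom.mem_ker]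
      ext1 b
      exact hq b
    have hQ := hqp Q inferInstance (by
      intro h
      exact hq1 (Subgroup.mem_bot.1 (h ▸ hqQ)))
    obtain ⟨w, hw⟩ := hBne
    obtain ⟨z, hz⟩ : ∃ z, z ∉ B := by
      by_contra hcon
      push Not at hcon
      exact hBu (Set.eq_univ_of_forall hcon)
    obtain ⟨r, hr⟩ := hQ.exists_smul_eq w z
    have hrw : (r : G) • w = z := hr
    have hr2 : (r : G) • (⟨B, mem_orbit_self B⟩ : 𝔅) = ⟨B, mem_orbit_self B⟩ := by
      have : (MulAction.toPermHom G 𝔅 (r : G)) = 1 := r.2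
      exact Equiv.congr_fun this _
    have := hsmul_mem (r : G) ⟨B, mem_orbit_self B⟩ w hw
    rw [hr2, hrw] at this
    exact hz this
  -- Case: `Γ` inside a block
  have hnotin : ∀ b : 𝔅, ¬ Γ ⊆ b.1 := by
    intro b hb
    apply he₀1
    apply hker
    intro b'
    obtain ⟨p', hp'⟩ := hb_nonempty b'
    refine hfix e₀ b' p' hp' ?_
    by_cases hΓ : p' ∈ Γ
    · have hbb' : b = b' := hb_uniq _ _ p' (hb hΓ) hp'
      have h3 : e₀ • p' ∈ Γ := by
        by_contra hcon
        have h4 := he₀ _ hcon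
        have h5 := MulAction.injective e₀ h4
        rw [h5] at hcon
        exact hcon hΓ
      rw [← hbb']
      exact hb h3
    · rw [he₀ _ hΓ]
      exact hp'
  -- every block meeting `Γ` lies in `Γ`
  have hin : ∀ b : 𝔅, (∃ p ∈ b.1, p ∈ Γ) → b.1 ⊆ Γ := by
    rintro b ⟨p, hp, hpΓ⟩ q hq
    by_contra hqΓ
    apply hnotin b
    intro w hw
    obtain ⟨e, he, hew⟩ := htr _ hpΓ _ hw
    have h3 : e • b = b := hfix e b q hq (by rw [he _ hqΓ]; exact hq)
    have h4 := hsmul_mem e b p hp
    rw [h3, hew] at h4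
    exact h4
  let Γ' : Set 𝔅 := {b | b.1 ⊆ Γ}
  set s := B.ncard with hs
  have hs1 : 1 < s := by
    rw [hs, Set.one_lt_ncard B.toFinite]
    rw [Set.not_subsingleton_iff] at hBs
    obtain ⟨a, ha, b, hb, hab⟩ := hBs
    exact ⟨a, ha, b, hb, hab⟩
  have hΓcount : Γ.ncard = s * Γ'.ncard := by
    refine ncard_eq_mul_of_fibers π Γ Γ' s ?_ ?_
    · intro x hx
      exact hin _ ⟨x, hπ x, hx⟩
    · intro t ht
      rw [← hb_card t]
      congr 1
      ext x
      constructor
      · rintro ⟨_, hx⟩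
        exact (hπ_eq x t).1 hx
      · intro hx
        exact ⟨ht hx, (hπ_eq x t).2 hx⟩
  have hncount : Nat.card Ω = s * Nat.card 𝔅 := by
    have := ncard_eq_mul_of_fibers π (Set.univ : Set Ω) (Set.univ : Set 𝔅) s
      (fun _ _ => Set.mem_univ _) (by
        intro t _
        rw [← hb_card t]
        congr 1
        ext x
        constructor
        · rintro ⟨_, hx⟩
          exact (hπ_eq x t).1 hx
        · intro hx
          exact ⟨Set.mem_univ _, (hπ_eq x t).2 hx⟩)
    rwa [Set.ncard_univ, Set.ncard_univ] at this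
  set r := Nat.card 𝔅 with hr
  set γ := Γ'.ncard with hγ
  have hγ2 : 2 * γ < r := by
    rw [hn.symm, hncount, hΓcount] at h2
    have : s * (2 * γ) < s * r := by nlinarith
    exact Nat.lt_of_mul_lt_mul_left this
  have hrn : r < n := by
    rw [← hn, hncount]
    have : 0 < r := by omega
    nlinarith
  have hγ1 : 1 < γ := by
    by_contra hcon
    have hγle : γ ≤ 1 := by omega
    obtain ⟨b, hb⟩ : ∃ b : 𝔅, b ∈ Γ' := ⟨π u₀, hin _ ⟨u₀, hπ u₀, hu₀⟩⟩
    have hΓle : Γ.ncard ≤ b.1.ncard := by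
      rw [hb_card, hΓcount]
      calc s * γ ≤ s * 1 := Nat.mul_le_mul_left _ hγle
        _ = s := mul_one s
    have heq : b.1 = Γ := Set.eq_of_subset_of_ncard_le hb hΓle
    exact hnotin b (by rw [heq])
  haveI hfaith : FaithfulSMul G 𝔅 := ⟨fun {g g'} h => by
    have : g⁻¹ * g' = 1 := hker _ (fun b => by
      rw [mul_smul, ← h b, inv_smul_smul])
    rw [inv_mul_eq_one] at this
    exact this⟩
  have hqp' : ∀ N : Subgroup G, N.Normal → N ≠ ⊥ → IsPretransitive ↥N 𝔅 := by
    intro N hN hN1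
    have h3 := hqp N hN hN1
    refine ⟨fun b₁ b₂ => ?_⟩
    obtain ⟨p₁, hp₁⟩ := hb_nonempty b₁
    obtain ⟨p₂, hp₂⟩ := hb_nonempty b₂
    obtain ⟨w, hw⟩ := h3.exists_smul_eq p₁ p₂
    refine ⟨w, ?_⟩
    have hw' : (w : G) • p₁ = p₂ := hw
    exact hb_uniq _ _ p₂ (by
      rw [← hw']
      exact hsmul_mem (w : G) b₁ p₁ hp₁) hp₂
  have halt := ih r hrn hqp' Γ' hr.symm hγ1 hγ2 (by
    intro b₁ hb₁ b₂ hb₂
    obtain ⟨p₁, hp₁⟩ := hb_nonempty b₁
    obtain ⟨p₂, hp₂⟩ := hb_nonempty b₂
    obtain ⟨e, he, hep⟩ := htr _ (hb₁ hp₁) _ (hb₂ hp₂)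
    refine ⟨e, ?_, ?_⟩
    · intro b hb
      obtain ⟨p, hp⟩ := hb_nonempty b
      have hpΓ : p ∉ Γ := fun h => hb (hin b ⟨p, hp, h⟩)
      exact hfix e b p hp (by rw [he _ hpΓ]; exact hp)
    · exact hb_uniq _ _ p₂ (by
        rw [← hep]
        exact hsmul_mem e b₁ p₁ hp₁) hp₂)
  -- the final contradiction
  obtain ⟨b', hb'⟩ : ∃ b : 𝔅, b ∈ Γ' := ⟨π u₀, hin _ ⟨u₀, hπ u₀, hu₀⟩⟩
  have hcompl : 2 ≤ (Γ'ᶜ).ncard := by
    have := Set.ncard_add_ncard_compl Γ'
    omega
  obtain ⟨b₁, hb₁, b₂, hb₂, hb₁₂⟩ := (Set.one_lt_ncard (Set.toFinite _)).1 hcompl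
  have hb'1 : b' ≠ b₁ := fun h => hb₁ (h ▸ hb')
  have hb'2 : b' ≠ b₂ := fun h => hb₂ (h ▸ hb')
  obtain ⟨x, hx, y, hy, hxy⟩ := (Set.one_lt_ncard b'.1.toFinite).1 (by rw [hb_card]; exact hs1)
  obtain ⟨e, he, hexy⟩ := htr _ (hb' hx) _ (hb' hy)
  have hfixout : ∀ b : 𝔅, b ∉ Γ' → e • b = b := by
    intro b hb
    obtain ⟨p, hp⟩ := hb_nonempty b
    have hpΓ : p ∉ Γ := fun h => hb (hin b ⟨p, hp, h⟩)
    exact hfix e b p hp (by rw [he _ hpΓ]; exact hp)
  have heb' : e • b' = b' := hfix e b' x hx (by rw [hexy]; exact hy)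
  let τ : Perm 𝔅 := swap b' b₁ * swap b₁ b₂
  have hτ : Perm.sign τ = 1 := by
    simp only [τ, map_mul]
    rw [Perm.sign_swap hb'1, Perm.sign_swap hb₁₂]
    simp
  obtain ⟨z, hz⟩ := halt τ hτ
  have hzb' : z • b' = b₁ := by
    have := Equiv.congr_fun hz b'
    change z • b' = τ b' at this
    rw [this]
    simp only [τ, Perm.mul_apply]
    rw [swap_apply_of_ne_of_ne hb'1 hb'2, swap_apply_left]
  have hcomm : e * z = z * e := by
    refine hfaith.eq_of_smul_eq_smul (fun b => ?_)
    rw [mul_smul, mul_smul]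
    have h3 : (MulAction.toPerm e : Perm 𝔅) * τ * (MulAction.toPerm e : Perm 𝔅)⁻¹ = τ := by
      have he1 : (MulAction.toPerm e : Perm 𝔅) b' = b' := heb'
      have he2 : (MulAction.toPerm e : Perm 𝔅) b₁ = b₁ := hfixout b₁ hb₁
      have he3 : (MulAction.toPerm e : Perm 𝔅) b₂ = b₂ := hfixout b₂ hb₂
      have h4 : τ = swap b' b₁ * swap b₁ b₂ := rfl
      calc (MulAction.toPerm e : Perm 𝔅) * τ * (MulAction.toPerm e : Perm 𝔅)⁻¹
          = ((MulAction.toPerm e : Perm 𝔅) * swap b' b₁ * (MulAction.toPerm e : Perm 𝔅)⁻¹) *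
            ((MulAction.toPerm e : Perm 𝔅) * swap b₁ b₂ * (MulAction.toPerm e : Perm 𝔅)⁻¹) := by
            rw [h4]; group
        _ = τ := by
            rw [← swap_apply_apply, ← swap_apply_apply, he1, he2, he3]
    have h5 := Equiv.congr_fun h3 (e • b)
    simp only [Perm.mul_apply] at h5
    have h6 : (MulAction.toPerm e : Perm 𝔅)⁻¹ (e • b) = b := by
      rw [Perm.inv_eq_iff_eq]
      rfl
    rw [h6] at h5
    have h7 : ∀ c : 𝔅, τ c = z • c := fun c => (Equiv.congr_fun hz c).symm
    rw [h7, h7] at h5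
    exact h5
  have hzx : z • x ∉ Γ := by
    intro h
    apply hb₁
    apply hin
    refine ⟨z • x, ?_, h⟩
    rw [← hzb']
    exact hsmul_mem z b' x hx
  have h3 := he _ hzx
  rw [← mul_smul, hcomm, mul_smul, hexy] at h3
  exact hxy (MulAction.injective z h3).symm

end Quasi

end Cfsg.Agent.Lib.PermRec.Marggraf
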