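import Mathlib

set_option autoImplicit false

namespace Cfsg.Agent.Lib.PermRec.McConnel

open Polynomial

variable {F : Type*} [Field F] [Fintype F]

/-- If `(σ x - σ y)^k = (x - y)^k` for all `x, y`, with `σ` injective and `k < |F|`, and the
binomial coefficients `C(k, j)` do not vanish in `F`, then every power `σ^i`, `i ≤ k`, is given by
a polynomial of degree at most `k`. -/
theorem exists_poly_pow [DecidableEq F] (k : ℕ) (hk : k < Fintype.card F)
    (hchoose : ∀ j ≤ k, ((k.choose j : ℕ) : F) ≠ 0)
    (σ : F → F) (hinj : Function.Injective σ) (h : ∀ x y, (σ x - σ y) ^ k = (x - y) ^ k) :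
    ∀ i ≤ k, ∃ G : F[X], G.natDegree ≤ k ∧ ∀ x, σ x ^ i = G.eval x := by
  intro i hi
  set j := k - i with hj
  have hjk : j ≤ k := Nat.sub_le _ _
  have hij : k - j = i := by omega
  let ℓ : F → F := fun y => (Lagrange.basis Finset.univ σ y).coeff j
  have hkey : ∀ x : F, (-σ x) ^ i * ((k.choose j : ℕ) : F) = ∑ y, (y - x) ^ k * ℓ y := by
    intro x
    have hdeg : ((X + C (-σ x)) ^ k).degree < ((Finset.univ : Finset F).card : WithBot ℕ) := by
      rw [Finset.card_univ]
      refine lt_of_le_of_lt (degree_le_natDegree) ?_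
      refine Nat.cast_lt.mpr (lt_of_le_of_lt (natDegree_pow_le.trans ?_) hk)
      have : (X + C (-σ x)).natDegree ≤ 1 := (natDegree_X_add_C _).le
      nlinarith
    have heq := Lagrange.eq_interpolate (s := Finset.univ) (v := σ) (hinj.injOn) hdeg
    have hc := congrArg (fun P => P.coeff j) heq
    simp only [Lagrange.interpolate_apply, eval_pow, eval_add, eval_X, eval_C] at hc
    rw [coeff_X_add_C_pow, hij] at hc
    rw [hc, finsetSum_coeff]
    refine Finset.sum_congr rfl fun y _ => ?_
    rw [coeff_C_mul]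
    congr 1
    rw [← sub_eq_add_neg, h]
  let G0 : F[X] := ∑ y, C (ℓ y) * (C y - X) ^ k
  have hG0 : G0.natDegree ≤ k := by
    refine natDegree_sum_le_of_forall_le _ _ fun y _ => ?_
    refine (natDegree_C_mul_le _ _).trans (natDegree_pow_le.trans ?_)
    have : (C y - X : F[X]).natDegree ≤ 1 := by
      rw [← neg_sub, natDegree_neg]
      exact natDegree_X_sub_C_le _
    nlinarith
  have hG0e : ∀ x, G0.eval x = (-σ x) ^ i * ((k.choose j : ℕ) : F) := by
    intro x
    rw [hkey, eval_finsetSum]
    refine Finset.sum_congr rfl fun y _ => ?_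
    simp [mul_comm]
  refine ⟨C ((-1) ^ i * ((k.choose j : ℕ) : F)⁻¹) * G0, (natDegree_C_mul_le _ _).trans hG0, fun x => ?_⟩
  have hne := hchoose j hjk
  rw [eval_mul, eval_C, hG0e, neg_pow (σ x) i]
  have h1 : ((-1 : F) ^ i) * (-1) ^ i = 1 := by
    rw [← mul_pow]; simp
  field_simp
  linear_combination (- σ x ^ i) * h1

/-- McConnel's theorem for functions whose difference quotients are `k`-th roots of unity,
for small `k`: such a function is affine. -/
theorem affine_of_pow_sub_eq (k : ℕ) (hk1 : 1 ≤ k) (hk2 : 2 * k < Fintype.card F)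
    (hchoose : ∀ j ≤ k, ((k.choose j : ℕ) : F) ≠ 0)
    (σ : F → F) (hinj : Function.Injective σ) (h : ∀ x y, (σ x - σ y) ^ k = (x - y) ^ k) :
    ∃ a b : F, ∀ x, σ x = a * x + b := by
  classical
  have hkc : k < Fintype.card F := by omega
  obtain ⟨g, hgdeg, hg⟩ := exists_poly_pow k hkc hchoose σ hinj h 1 hk1
  simp only [pow_one] at hg
  by_cases hD : g.natDegree ≤ 1
  · refine ⟨g.coeff 1, g.coeff 0, fun x => ?_⟩
    rw [hg, eq_X_add_C_of_natDegree_le_one hD]
    simp
  · exfalso
    push Not at hD
    set D := g.natDegree with hDdef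
    have hD2 : 2 ≤ D := hD
    have hk2' : 2 ≤ k := by omega
    set i := k / D + 1 with hi
    have hik : i ≤ k := by
      have : k / D ≤ k / 2 := Nat.div_le_div_left hD2 (by norm_num)
      have : k / 2 ≤ k - 1 := by omega
      omega
    obtain ⟨Gi, hGideg, hGi⟩ := exists_poly_pow k hkc hchoose σ hinj h i hik
    have hiD1 : k < i * D := by
      rw [hi, add_mul, one_mul]
      have := Nat.div_add_mod k D
      have hm := Nat.mod_lt k (by omega : 0 < D)
      nlinarith [Nat.mul_comm D (k / D)]
    have hiD2 : i * D ≤ 2 * k := by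
      rw [hi, add_mul, one_mul]
      have := Nat.div_mul_le_self k D
      omega
    have hT : g ^ i - Gi = 0 := by
      refine eq_zero_of_natDegree_lt_card_of_eval_eq_zero _ (Function.injective_id (α := F)) ?_ ?_
      · intro x
        simp only [id, eval_sub, eval_pow]
        rw [← hg, ← hGi, sub_self]
      · refine lt_of_le_of_lt (natDegree_sub_le _ _) ?_
        have h1 : (g ^ i).natDegree = i * D := natDegree_pow _ _
        rw [h1]
        have : max (i * D) Gi.natDegree ≤ 2 * k := max_le hiD2 (by omega)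
        exact lt_of_le_of_lt this (by simpa [Nat.card_eq_fintype_card] using hk2)
    have h3 : g ^ i = Gi := sub_eq_zero.mp hT
    have h4 : (g ^ i).natDegree = i * D := natDegree_pow _ _
    rw [h3] at h4
    omega

end Cfsg.Agent.Lib.PermRec.McConnel
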