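import Cfsg.Agent.Lib.PermRec.PrimeOrderPerm

/-!
# Permutations of prime order fixing a uniform partition
-/

set_option autoImplicit false

open Equiv Equiv.Perm

namespace Cfsg.Agent.Lib.PermRec.PartitionFix

/-- A permutation of `Fin n` with `σ ^ r = 1` with exactly `n - r * v` fixed points. -/
theorem exists_perm_fix (n r v : ℕ) (hr : r.Prime) (hv : r * v ≤ n) :
    ∃ σ : Perm (Fin n), σ ^ r = 1 ∧ (Finset.univ.filter (fun x => σ x = x)).card = n - r * v := by
  classical
  have hr2 := hr.two_le
  let X := (Fin v × Fin r) ⊕ Fin (n - r * v)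
  have hcard : Fintype.card X = n := by
    simp only [X, Fintype.card_sum, Fintype.card_prod, Fintype.card_fin]
    rw [mul_comm v r]
    omega
  let e : X ≃ Fin n := Fintype.equivFinOfCardEq hcard
  let ρ : Perm (Fin r) := finRotate r
  have hρc : ρ.IsCycle := isCycle_finRotate_of_le hr2
  have hρs : ρ.support = Finset.univ := support_finRotate_of_le hr2
  have hρo : orderOf ρ = r := by
    rw [hρc.orderOf, hρs, Finset.card_univ, Fintype.card_fin]
  have hρ1 : ∀ x, ρ x ≠ x := by
    intro x
    have : x ∈ ρ.support := by rw [hρs]; exact Finset.mem_univ x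
    exact Perm.mem_support.1 this
  let τ : Perm X := Equiv.sumCongr (Equiv.prodCongr (Equiv.refl _) ρ) (Equiv.refl _)
  have hτl : ∀ (m : ℕ) (a : Fin v) (b : Fin r),
      (τ ^ m) (Sum.inl (a, b)) = Sum.inl (a, (ρ ^ m) b) := by
    intro m
    induction m with
    | zero => intro a b; rfl
    | succ m ih =>
      intro a b
      rw [pow_succ', Perm.mul_apply, ih, pow_succ', Perm.mul_apply]
      rfl
  have hτr : ∀ (m : ℕ) (c : Fin (n - r * v)), (τ ^ m) (Sum.inr c) = Sum.inr c := by
    intro m
    induction m with
    | zero => intro c; rfl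
    | succ m ih =>
      intro c
      rw [pow_succ', Perm.mul_apply, ih]
      rfl
  have hτr' : τ ^ r = 1 := by
    ext x
    rcases x with ⟨a, b⟩ | c
    · have hρr : ρ ^ r = 1 := by
        have h := pow_orderOf_eq_one ρ
        rwa [hρo] at h
      rw [hτl, hρr]
      rfl
    · rw [hτr]
      rfl
  let σ : Perm (Fin n) := e.symm.trans (τ.trans e)
  have hσpow : ∀ m : ℕ, σ ^ m = e.symm.trans ((τ ^ m).trans e) := by
    intro m
    induction m with
    | zero =>
      ext x
      simp
    | succ m ih =>
      rw [pow_succ', ih, pow_succ']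
      ext x
      simp [σ]
  refine ⟨σ, ?_, ?_⟩
  · rw [hσpow, hτr']
    ext x
    simp
  · -- the fixed points
    have hfix : ∀ x : X, τ x = x ↔ ∃ c : Fin (n - r * v), x = Sum.inr c := by
      intro x
      rcases x with ⟨a, b⟩ | c
      · constructor
        · intro h
          exfalso
          change Sum.inl (a, ρ b) = Sum.inl (a, b) at h
          exact hρ1 b (congrArg Prod.snd (Sum.inl_injective h))
        · rintro ⟨c, hc⟩
          exact absurd hc (by simp)
      · exact ⟨fun _ => ⟨c, rfl⟩, fun _ => rfl⟩
    have hbij : (Finset.univ.filter (fun x => σ x = x)) =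
        (Finset.univ : Finset (Fin (n - r * v))).map ⟨fun c => e (Sum.inr c), fun a b h => by
          exact Sum.inr_injective (e.injective h)⟩ := by
      ext x
      simp only [Finset.mem_filter, Finset.mem_univ, true_and, Finset.mem_map]
      constructor
      · intro hx
        have h1 : τ (e.symm x) = e.symm x := by
          apply e.injective
          rw [e.apply_symm_apply]
          exact hx
        obtain ⟨c, hc⟩ := (hfix _).1 h1
        refine ⟨c, ?_⟩
        change e (Sum.inr c) = x
        rw [← hc, e.apply_symm_apply]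
      · rintro ⟨c, rfl⟩
        change e (τ (e.symm (e (Sum.inr c)))) = e (Sum.inr c)
        rw [e.symm_apply_apply]
        rfl
    rw [hbij, Finset.card_map, Finset.card_univ, Fintype.card_fin]

variable {α : Type*} [Fintype α] [DecidableEq α]

/-- An invariant set of a permutation with `σ ^ r = 1`, `r` prime: the size is congruent mod `r` to
the number of fixed points in it. -/
theorem card_modEq_of_invariant {r : ℕ} (hr : r.Prime) (σ : Perm α) (hσ : σ ^ r = 1)
    (s : Finset α) (hs : s.image σ = s) :
    s.card ≡ (s.filter (fun x => σ x = x)).card [MOD r] := by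
  classical
  haveI := Fact.mk hr
  have hmaps : ∀ x ∈ s, σ x ∈ s := by
    intro x hx
    rw [← hs]
    exact Finset.mem_image_of_mem σ hx
  let f : Function.End s := fun x => ⟨σ x, hmaps x x.2⟩
  have hf : f ^ r ^ 1 = 1 := by
    have hpow : ∀ (m : ℕ) (x : s), ((f ^ m) x : α) = (σ ^ m) x := by
      intro m
      induction m with
      | zero => intro x; rfl
      | succ m ih =>
        intro x
        rw [pow_succ', pow_succ']
        change σ (((f ^ m) x : s) : α) = (σ * σ ^ m) x
        rw [ih]
        rfl
    funext x
    apply Subtype.ext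
    rw [pow_one, hpow, hσ]
    rfl
  have h1 := card_fixedPoints_modEq (p := r) (n := 1) hf
  have h2 : Fintype.card (Function.fixedPoints f) =
      (s.filter (fun x => σ x = x)).card := by
    let g : Function.fixedPoints f ≃ (s.filter (fun x => σ x = x)) :=
      { toFun := fun x => ⟨x.1.1, by
          have h3 := x.2
          simp only [Finset.mem_filter]
          exact ⟨x.1.2, congrArg Subtype.val h3⟩⟩
        invFun := fun x => ⟨⟨x.1, (Finset.mem_filter.1 x.2).1⟩, by
          apply Subtype.ext
          exact (Finset.mem_filter.1 x.2).2⟩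
        left_inv := fun x => rfl
        right_inv := fun x => rfl }
    rw [Fintype.card_congr g, Fintype.card_coe]
  rw [h2] at h1
  simpa using h1

/-- Two permutations with `r`-th power `1` (`r` prime) and the same number of fixed points are
conjugate. -/
theorem isConj_of_fix_eq {r : ℕ} (hr : r.Prime) (σ τ : Perm α) (hσ : σ ^ r = 1) (hτ : τ ^ r = 1)
    (hfix : (Finset.univ.filter (fun x => σ x = x)).card =
      (Finset.univ.filter (fun x => τ x = x)).card) : IsConj σ τ := by
  classical
  have key : ∀ ρ : Perm α, ρ ^ r = 1 → ρ.cycleType = Multiset.replicate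
      ((Fintype.card α - (Finset.univ.filter (fun x => ρ x = x)).card) / r) r := by
    intro ρ hρ
    have hall : ∀ m ∈ ρ.cycleType, m = r := by
      intro m hm
      have h1 := dvd_of_mem_cycleType hm
      have h2 : orderOf ρ ∣ r := orderOf_dvd_of_pow_eq_one hρ
      rcases (Nat.dvd_prime hr).1 (h1.trans h2) with h | h
      · have := two_le_of_mem_cycleType hm
        omega
      · exact h
    have hrep := Multiset.eq_replicate_card.2 hall
    have hsum := sum_cycleType ρ
    rw [hrep, Multiset.sum_replicate, smul_eq_mul] at hsum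
    have hsupp : ρ.support.card + (Finset.univ.filter (fun x => ρ x = x)).card = Fintype.card α := by
      have h1 := Finset.card_filter_add_card_filter_not (s := (Finset.univ : Finset α))
        (fun x => ρ x ≠ x)
      simp only [not_not] at h1
      rw [Finset.card_univ] at h1
      rw [← h1]
      congr 2
    have hcard : Multiset.card ρ.cycleType =
        (Fintype.card α - (Finset.univ.filter (fun x => ρ x = x)).card) / r := by
      rw [← hsupp, Nat.add_sub_cancel, ← hsum, Nat.mul_div_cancel _ hr.pos]
    rw [← hcard]
    exact hrep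
  rw [Perm.isConj_iff_cycleType_eq, key σ hσ, key τ hτ, hfix]

/-- Distribution of a number among slots. -/
theorem exists_distribution {ι : Type*} [DecidableEq ι] (S : Finset ι) (M : ℕ) :
    ∀ cyc : ℕ, cyc ≤ S.card * M → ∃ i : ι → ℕ, (∀ j, i j ≤ M) ∧ ∑ j ∈ S, i j = cyc := by
  induction S using Finset.induction_on with
  | empty =>
    intro cyc h
    simp only [Finset.card_empty, zero_mul, Nat.le_zero] at h
    exact ⟨fun _ => 0, fun _ => Nat.zero_le _, by simp [h]⟩
  | insert a S ha ih =>
    intro cyc h
    rw [Finset.card_insert_of_notMem ha] at h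
    obtain ⟨i, hi, hsum⟩ := ih (cyc - min cyc M) (by
      have : (S.card + 1) * M = S.card * M + M := by ring
      rcases le_total cyc M with h1 | h1
      · rw [min_eq_left h1]
        simp
      · rw [min_eq_right h1]
        omega)
    refine ⟨Function.update i a (min cyc M), fun j => ?_, ?_⟩
    · by_cases hj : j = a
      · subst hj
        rw [Function.update_self]
        exact min_le_right _ _
      · rw [Function.update_of_ne hj]
        exact hi j
    · rw [Finset.sum_insert ha, Function.update_self]
      have : ∑ j ∈ S, Function.update i a (min cyc M) j = ∑ j ∈ S, i j := by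
        apply Finset.sum_congr rfl
        intro j hj
        rw [Function.update_of_ne (fun h => ha (by rw [← h]; exact hj))]
      rw [this, hsum]
      have := min_le_left cyc M
      omega

/-- Construction of an invariant partition. -/
theorem exists_partition (a b r : ℕ) (hr : r.Prime) (σ : Perm (Fin (a * b))) (hσ : σ ^ r = 1)
    (t cyc : ℕ) (ht : r * t ≤ b) (hcyc : cyc ≤ (b - r * t) * (a / r))
    (hfix : (Finset.univ.filter (fun x => σ x = x)).card + r * (t * a + cyc) = a * b) :
    ∃ f : Fin (a * b) → Fin b, (∀ j : Fin b, Nat.card {x : Fin (a * b) // f x = j} = a) ∧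
      ∃ π : Perm (Fin b), ∀ x : Fin (a * b), f (σ x) = π (f x) := by
  classical
  obtain ⟨π, hπ, hπfix⟩ := exists_perm_fix b r t hr ht
  set S := Finset.univ.filter (fun x => π x = x) with hS
  obtain ⟨i, hi, hisum⟩ := exists_distribution S (a / r) cyc (by rw [hπfix]; exact hcyc)
  have hiM : ∀ j, r * i j ≤ a := by
    intro j
    calc r * i j ≤ r * (a / r) := Nat.mul_le_mul_left _ (hi j)
      _ ≤ a := Nat.mul_div_le a r
  choose τ hτ hτfix using fun j => exists_perm_fix a r (i j) hr (hiM j)
  let ρ : Fin b → Perm (Fin a) := fun j => if π j = j then τ j else Equiv.refl _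
  let σ' : Perm (Fin b × Fin a) := Equiv.prodShear π ρ
  have hσ'apply : ∀ p, σ' p = (π p.1, ρ p.1 p.2) := fun p => rfl
  have hσ'pow : ∀ (m : ℕ) (j : Fin b) (x : Fin a), π j = j →
      (σ' ^ m) (j, x) = (j, (τ j ^ m) x) := by
    intro m
    induction m with
    | zero => intro j x _; rfl
    | succ m ih =>
      intro j x hj
      rw [pow_succ', Perm.mul_apply, ih j x hj, hσ'apply]
      simp only [ρ, hj, if_true]
      rw [pow_succ']
      rfl
  have hσ'pow2 : ∀ (m : ℕ) (j : Fin b) (x : Fin a), π j ≠ j →
      (σ' ^ m) (j, x) = ((π ^ m) j, x) := by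
    intro m
    induction m with
    | zero => intro j x _; rfl
    | succ m ih =>
      intro j x hj
      rw [pow_succ', Perm.mul_apply, ih j x hj, hσ'apply]
      have h1 : π ((π ^ m) j) ≠ (π ^ m) j := by
        intro h
        apply hj
        have h2 : (π ^ m) (π j) = (π ^ m) j := by
          rw [← Perm.mul_apply, ← pow_succ, pow_succ', Perm.mul_apply]
          exact h
        exact (π ^ m).injective h2
      simp only [ρ, h1, if_false]
      rw [pow_succ']
      rfl
  have hσ'r : σ' ^ r = 1 := by
    ext1 ⟨j, x⟩
    by_cases hj : π j = j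
    · rw [hσ'pow r j x hj, hτ j]
      rfl
    · rw [hσ'pow2 r j x hj, hπ]
      rfl
  -- the number of fixed points
  have hfixσ' : (Finset.univ.filter (fun p => σ' p = p)).card + r * cyc = S.card * a := by
    have h1 := Finset.card_eq_sum_card_fiberwise (s := Finset.univ.filter (fun p => σ' p = p))
      (t := S) (f := Prod.fst) (by
        intro p hp
        have hp' := (Finset.mem_filter.1 hp).2
        rw [hσ'apply] at hp'
        exact Finset.mem_coe.2 (Finset.mem_filter.2 ⟨Finset.mem_univ _, congrArg Prod.fst hp'⟩))
    have h2 : ∀ j ∈ S, ((Finset.univ.filter (fun p => σ' p = p)).filter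
        (fun p => p.1 = j)).card + r * i j = a := by
      intro j hj
      have hj' : π j = j := (Finset.mem_filter.1 hj).2
      have h3 : ((Finset.univ.filter (fun p => σ' p = p)).filter (fun p => p.1 = j)) =
          (Finset.univ.filter (fun x => τ j x = x)).map
            ⟨fun x => (j, x), fun x y h => congrArg Prod.snd h⟩ := by
        ext ⟨j', x⟩
        constructor
        · intro h
          obtain ⟨h4, h5⟩ := Finset.mem_filter.1 h
          have h4' := (Finset.mem_filter.1 h4).2
          have h5' : j' = j := h5
          subst h5'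
          refine Finset.mem_map.2 ⟨x, Finset.mem_filter.2 ⟨Finset.mem_univ _, ?_⟩, rfl⟩
          rw [hσ'apply] at h4'
          have h6 := congrArg Prod.snd h4'
          simpa only [ρ, hj', if_true] using h6
        · intro h
          obtain ⟨y, hy, hyx⟩ := Finset.mem_map.1 h
          have hy' := (Finset.mem_filter.1 hy).2
          have h7 : (j, y) = (j', x) := hyx
          obtain ⟨rfl, rfl⟩ := Prod.mk.inj h7
          refine Finset.mem_filter.2 ⟨Finset.mem_filter.2 ⟨Finset.mem_univ _, ?_⟩, rfl⟩
          rw [hσ'apply]
          simp only [ρ, hj', if_true]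
          exact Prod.ext rfl hy'
      rw [h3, Finset.card_map, hτfix j]
      have := hiM j
      omega
    have h4 : (Finset.univ.filter (fun p => σ' p = p)).card + r * cyc = ∑ j ∈ S, a := by
      rw [h1, ← hisum, Finset.mul_sum, ← Finset.sum_add_distrib]
      exact Finset.sum_congr rfl h2
    rw [h4, Finset.sum_const, smul_eq_mul]
  -- transport
  have hcardZ : Fintype.card (Fin b × Fin a) = a * b := by
    simp [mul_comm]
  let e : Fin b × Fin a ≃ Fin (a * b) := Fintype.equivFinOfCardEq hcardZ
  let σ'' : Perm (Fin (a * b)) := e.symm.trans (σ'.trans e)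
  have hσ''pow : ∀ m : ℕ, σ'' ^ m = e.symm.trans ((σ' ^ m).trans e) := by
    intro m
    induction m with
    | zero =>
      ext x
      simp
    | succ m ih =>
      rw [pow_succ', ih, pow_succ']
      ext x
      simp [σ'']
  have hσ''r : σ'' ^ r = 1 := by
    rw [hσ''pow, hσ'r]
    ext x
    simp
  have hfixσ'' : (Finset.univ.filter (fun x => σ'' x = x)).card =
      (Finset.univ.filter (fun p => σ' p = p)).card := by
    refine Finset.card_bij' (fun x _ => e.symm x) (fun p _ => e p) ?_ ?_ ?_ ?_
    · intro x hx
      have hx' := (Finset.mem_filter.1 hx).2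
      refine Finset.mem_filter.2 ⟨Finset.mem_univ _, ?_⟩
      apply e.injective
      rw [e.apply_symm_apply]
      exact hx'
    · intro p hp
      have hp' := (Finset.mem_filter.1 hp).2
      refine Finset.mem_filter.2 ⟨Finset.mem_univ _, ?_⟩
      change e (σ' (e.symm (e p))) = e p
      rw [e.symm_apply_apply, hp']
    · intro x _
      exact e.apply_symm_apply x
    · intro p _
      exact e.symm_apply_apply p
  have hScard : S.card + r * t = b := by
    rw [hπfix]
    omega
  have hfixeq : (Finset.univ.filter (fun x => σ'' x = x)).card =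
      (Finset.univ.filter (fun x => σ x = x)).card := by
    rw [hfixσ'']
    have h1 : (S.card + r * t) * a = a * b := by rw [hScard, mul_comm]
    have h2 : (S.card + r * t) * a = S.card * a + r * (t * a) := by ring
    have h3 : r * (t * a + cyc) = r * (t * a) + r * cyc := by ring
    omega
  obtain ⟨g, hg⟩ := isConj_iff.1 (isConj_of_fix_eq hr σ'' σ hσ''r hσ hfixeq)
  have hgg : ∀ y, g⁻¹ (g y) = y := fun y => by simp
  have hgg' : ∀ y, g (g⁻¹ y) = y := fun y => by simp
  let F : Fin (a * b) → Fin b := fun x => (e.symm (g⁻¹ x)).1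
  refine ⟨F, fun j => ?_, π, fun x => ?_⟩
  · let E : {x : Fin (a * b) // F x = j} ≃ Fin a :=
      { toFun := fun x => (e.symm (g⁻¹ x.1)).2
        invFun := fun m => ⟨g (e (j, m)), by
          change (e.symm (g⁻¹ (g (e (j, m))))).1 = j
          rw [hgg, e.symm_apply_apply]⟩
        left_inv := by
          rintro ⟨x, hx⟩
          apply Subtype.ext
          change g (e (j, (e.symm (g⁻¹ x)).2)) = x
          have h1 : (j, (e.symm (g⁻¹ x)).2) = e.symm (g⁻¹ x) := by
            rw [← hx]
          rw [h1, e.apply_symm_apply, hgg']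
        right_inv := by
          intro m
          change (e.symm (g⁻¹ (g (e (j, m))))).2 = m
          rw [hgg, e.symm_apply_apply] }
    rw [Nat.card_congr E, Nat.card_eq_fintype_card, Fintype.card_fin]
  · change (e.symm (g⁻¹ (σ x))).1 = π (e.symm (g⁻¹ x)).1
    have h1 : g⁻¹ (σ x) = σ'' (g⁻¹ x) := by
      rw [← hg]
      simp only [Perm.mul_apply]
      rw [hgg]
    rw [h1]
    change (e.symm (e (σ' (e.symm (g⁻¹ x))))).1 = _
    rw [e.symm_apply_apply]
    rfl

/-- Necessary conditions for an invariant partition. -/
theorem fix_bounds (a b r : ℕ) (ha : 0 < a) (hr : r.Prime) (σ : Perm (Fin (a * b))) (hσ : σ ^ r = 1)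
    (f : Fin (a * b) → Fin b) (hf : ∀ j : Fin b, Nat.card {x : Fin (a * b) // f x = j} = a)
    (π : Perm (Fin b)) (hπ : ∀ x : Fin (a * b), f (σ x) = π (f x)) :
    ∃ c : ℕ, c ≤ b ∧ c ≡ b [MOD r] ∧ c * (a % r) ≤ (Finset.univ.filter (fun x => σ x = x)).card ∧
      (Finset.univ.filter (fun x => σ x = x)).card ≤ c * a := by
  classical
  have hfcard : ∀ j : Fin b, (Finset.univ.filter (fun x => f x = j)).card = a := by
    intro j
    have h1 := hf j
    rw [Nat.card_eq_fintype_card, Fintype.card_subtype] at h1
    exact h1
  have hsurj : ∀ j : Fin b, ∃ x, f x = j := by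
    intro j
    have h1 : 0 < (Finset.univ.filter (fun x => f x = j)).card := by rw [hfcard]; exact ha
    obtain ⟨x, hx⟩ := Finset.card_pos.1 h1
    exact ⟨x, (Finset.mem_filter.1 hx).2⟩
  have hπpow : ∀ (m : ℕ) (x : Fin (a * b)), f ((σ ^ m) x) = (π ^ m) (f x) := by
    intro m
    induction m with
    | zero => intro x; rfl
    | succ m ih =>
      intro x
      rw [pow_succ', Perm.mul_apply, hπ, ih, pow_succ', Perm.mul_apply]
  have hπr : π ^ r = 1 := by
    ext1 j
    obtain ⟨x, rfl⟩ := hsurj j
    rw [← hπpow, hσ]
    rfl
  set S := Finset.univ.filter (fun j => π j = j) with hS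
  refine ⟨S.card, ?_, ?_, ?_, ?_⟩
  · calc S.card ≤ (Finset.univ : Finset (Fin b)).card := Finset.card_le_univ S
      _ = b := by simp
  · have h1 := card_modEq_of_invariant hr π hπr Finset.univ (by
      rw [Finset.image_univ_equiv])
    rw [Finset.card_univ, Fintype.card_fin] at h1
    exact h1.symm
  all_goals
    have hfiber : ∀ j ∈ S, (Finset.univ.filter (fun x => σ x = x)).filter (fun x => f x = j) =
        (Finset.univ.filter (fun x => f x = j)).filter (fun x => σ x = x) := by
      intro j _
      ext x
      simp only [Finset.mem_filter, Finset.mem_univ, true_and]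
      exact and_comm
    have h1 := Finset.card_eq_sum_card_fiberwise (s := Finset.univ.filter (fun x => σ x = x))
      (t := S) (f := f) (by
        intro x hx
        have hx' := (Finset.mem_filter.1 hx).2
        refine Finset.mem_coe.2 (Finset.mem_filter.2 ⟨Finset.mem_univ _, ?_⟩)
        rw [← hπ, hx'])
    rw [h1, Finset.sum_congr rfl (fun j hj => by rw [hfiber j hj])]
  · refine le_trans (by rw [smul_eq_mul]) (Finset.card_nsmul_le_sum S _ (a % r) ?_)
    intro j hj
    have hj' : π j = j := (Finset.mem_filter.1 hj).2
    have hinv : (Finset.univ.filter (fun x => f x = j)).image σ =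
        Finset.univ.filter (fun x => f x = j) := by
      apply Finset.eq_of_subset_of_card_le
      · intro y hy
        obtain ⟨x, hx, rfl⟩ := Finset.mem_image.1 hy
        refine Finset.mem_filter.2 ⟨Finset.mem_univ _, ?_⟩
        rw [hπ, (Finset.mem_filter.1 hx).2, hj']
      · rw [Finset.card_image_of_injective _ σ.injective]
    have h2 := card_modEq_of_invariant hr σ hσ _ hinv
    rw [hfcard j] at h2
    calc a % r = ((Finset.univ.filter (fun x => f x = j)).filter (fun x => σ x = x)).card % r := h2
      _ ≤ _ := Nat.mod_le _ _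
  · refine le_trans (Finset.sum_le_card_nsmul S _ a ?_) (by rw [smul_eq_mul])
    intro j _
    calc _ ≤ (Finset.univ.filter (fun x => f x = j)).card := Finset.card_filter_le _ _
      _ = a := hfcard j

end Cfsg.Agent.Lib.PermRec.PartitionFix
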