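import Mathlib

/-!
# Permutations of prime order

An explicit permutation of `Fin n` of prime order `r` with `n % r` fixed points, and the structure
of an arbitrary permutation of prime order: cycles of length `r` and fixed points.
-/

set_option autoImplicit false

open Equiv Equiv.Perm

namespace Cfsg.Agent.Lib.PermRec.PrimeOrderPerm

/-- There is a permutation of `Fin n` of prime order `r ≤ n` with exactly `n % r` fixed points. -/
theorem exists_max_perm (n r : ℕ) (hr : r.Prime) (hrn : r ≤ n) :
    ∃ σ : Perm (Fin n), orderOf σ = r ∧
      (Finset.univ.filter (fun x => σ x = x)).card = n % r := by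
  classical
  have hr2 := hr.two_le
  let X := (Fin (n / r) × Fin r) ⊕ Fin (n % r)
  have hcard : Fintype.card X = n := by
    simp only [X, Fintype.card_sum, Fintype.card_prod, Fintype.card_fin]
    exact Nat.div_add_mod' n r
  let e : X ≃ Fin n := Fintype.equivFinOfCardEq hcard
  let ρ : Perm (Fin r) := finRotate r
  have hρc : ρ.IsCycle := isCycle_finRotate_of_le hr2
  have hρs : ρ.support = Finset.univ := support_finRotate_of_le hr2
  have hρo : orderOf ρ = r := by
    rw [hρc.orderOf, hρs, Finset.card_univ, Fintype.card_fin]
  have hρ1 : ∀ x, ρ x ≠ x := by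
    intro x
    have : x ∈ ρ.support := by rw [hρs]; exact Finset.mem_univ x
    exact Perm.mem_support.1 this
  let τ : Perm X := Equiv.sumCongr (Equiv.prodCongr (Equiv.refl _) ρ) (Equiv.refl _)
  have hτl : ∀ (m : ℕ) (a : Fin (n / r)) (b : Fin r),
      (τ ^ m) (Sum.inl (a, b)) = Sum.inl (a, (ρ ^ m) b) := by
    intro m
    induction m with
    | zero => intro a b; rfl
    | succ m ih =>
      intro a b
      rw [pow_succ', Perm.mul_apply, ih, pow_succ', Perm.mul_apply]
      rfl
  have hτr : ∀ (m : ℕ) (c : Fin (n % r)), (τ ^ m) (Sum.inr c) = Sum.inr c := by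
    intro m
    induction m with
    | zero => intro c; rfl
    | succ m ih =>
      intro c
      rw [pow_succ', Perm.mul_apply, ih]
      rfl
  have hτr' : τ ^ r = 1 := by
    ext x
    rcases x with ⟨a, b⟩ | c
    · have hρr : ρ ^ r = 1 := by
        have h := pow_orderOf_eq_one ρ
        rwa [hρo] at h
      rw [hτl, hρr]
      rfl
    · rw [hτr]
      rfl
  have hpos : 0 < n / r := Nat.div_pos hrn hr.pos
  have hτ1 : τ ≠ 1 := by
    intro h
    have h1 := Equiv.congr_fun h (Sum.inl (⟨0, hpos⟩, ⟨0, hr.pos⟩))
    change Sum.inl ((⟨0, hpos⟩ : Fin (n / r)), ρ ⟨0, hr.pos⟩) = Sum.inl (⟨0, hpos⟩, ⟨0, hr.pos⟩) at h1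
    have h2 := Sum.inl_injective h1
    exact hρ1 _ (congrArg Prod.snd h2)
  haveI := Fact.mk hr
  have hτo : orderOf τ = r := orderOf_eq_prime hτr' hτ1
  let σ : Perm (Fin n) := e.symm.trans (τ.trans e)
  have hσpow : ∀ m : ℕ, σ ^ m = e.symm.trans ((τ ^ m).trans e) := by
    intro m
    induction m with
    | zero =>
      ext x
      simp
    | succ m ih =>
      rw [pow_succ', ih, pow_succ']
      ext x
      simp [σ]
  refine ⟨σ, ?_, ?_⟩
  · have h1 : σ ^ r = 1 := by
      rw [hσpow, hτr']
      ext x
      simp
    refine orderOf_eq_prime h1 ?_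
    intro h
    apply hτ1
    ext x
    have := Equiv.congr_fun h (e x)
    simp only [σ, Equiv.trans_apply, Equiv.symm_apply_apply, Perm.one_apply] at this
    rw [e.injective this]
    rfl
  · -- the fixed points
    have hfix : ∀ x : X, τ x = x ↔ ∃ c : Fin (n % r), x = Sum.inr c := by
      intro x
      rcases x with ⟨a, b⟩ | c
      · constructor
        · intro h
          exfalso
          change Sum.inl (a, ρ b) = Sum.inl (a, b) at h
          exact hρ1 b (congrArg Prod.snd (Sum.inl_injective h))
        · rintro ⟨c, hc⟩
          exact absurd hc (by simp)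
      · exact ⟨fun _ => ⟨c, rfl⟩, fun _ => rfl⟩
    have hbij : (Finset.univ.filter (fun x => σ x = x)) =
        (Finset.univ : Finset (Fin (n % r))).map ⟨fun c => e (Sum.inr c), fun a b h => by
          exact Sum.inr_injective (e.injective h)⟩ := by
      ext x
      simp only [Finset.mem_filter, Finset.mem_univ, true_and, Finset.mem_map,
        Function.Embedding.coeFn_mk]
      constructor
      · intro hx
        have h1 : τ (e.symm x) = e.symm x := by
          apply e.injective
          rw [e.apply_symm_apply]
          exact hx
        obtain ⟨c, hc⟩ := (hfix _).1 h1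
        refine ⟨c, ?_⟩
        change e (Sum.inr c) = x
        rw [← hc, e.apply_symm_apply]
      · rintro ⟨c, rfl⟩
        change e (τ (e.symm (e (Sum.inr c)))) = e (Sum.inr c)
        rw [e.symm_apply_apply]
        rfl
    rw [hbij, Finset.card_map, Finset.card_univ, Fintype.card_fin]

/-- If `s` is invariant under a permutation of prime order `r`, the cardinality of `s` is congruent
mod `r` to the number of fixed points in `s`. -/
theorem card_mod_le_of_invariant {n r : ℕ} (hr : r.Prime) (σ : Perm (Fin n)) (hσ : σ ^ r = 1)
    (s : Finset (Fin n)) (hs : s.image σ = s) :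
    s.card % r ≤ (Finset.univ.filter (fun x => σ x = x)).card := by
  classical
  haveI := Fact.mk hr
  have hmaps : ∀ x ∈ s, σ x ∈ s := by
    intro x hx
    rw [← hs]
    exact Finset.mem_image_of_mem σ hx
  let f : Function.End s := fun x => ⟨σ x, hmaps x x.2⟩
  have hf : f ^ r ^ 1 = 1 := by
    have hpow : ∀ (m : ℕ) (x : s), ((f ^ m) x : Fin n) = (σ ^ m) x := by
      intro m
      induction m with
      | zero => intro x; rfl
      | succ m ih =>
        intro x
        rw [pow_succ', pow_succ']
        change σ (((f ^ m) x : s) : Fin n) = (σ * σ ^ m) x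
        rw [ih]
        rfl
    funext x
    apply Subtype.ext
    rw [pow_one, hpow, hσ]
    rfl
  have h1 := card_fixedPoints_modEq (p := r) (n := 1) hf
  have h2 : Fintype.card (Function.fixedPoints f) ≤
      (Finset.univ.filter (fun x => σ x = x)).card := by
    let g : Function.fixedPoints f → (Finset.univ.filter (fun x => σ x = x)) := fun x =>
      ⟨x.1.1, by
        have h3 := x.2
        simp only [Finset.mem_filter, Finset.mem_univ, true_and]
        exact congrArg Subtype.val h3⟩
    have := Fintype.card_le_of_injective g (fun a b hab => by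
      apply Subtype.ext
      apply Subtype.ext
      have h4 := congrArg Subtype.val hab
      exact h4)
    rwa [Fintype.card_coe] at this
  have h3 : s.card ≡ Fintype.card (Function.fixedPoints f) [MOD r] := by
    simpa using h1
  calc s.card % r = Fintype.card (Function.fixedPoints f) % r := h3
    _ ≤ Fintype.card (Function.fixedPoints f) := Nat.mod_le _ _
    _ ≤ _ := h2

/-- Structure of a permutation of prime order: every choice of `i ≤ v` cycles and `j ≤ f` fixed
points gives an invariant set. -/
theorem exists_invariant {n r : ℕ} (hr : r.Prime) (σ : Perm (Fin n)) (hσ : orderOf σ = r) :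
    ∃ v : ℕ, n = r * v + (Finset.univ.filter (fun x => σ x = x)).card ∧
      ∀ i j : ℕ, i ≤ v → j ≤ (Finset.univ.filter (fun x => σ x = x)).card →
        ∃ s : Finset (Fin n), s.card = r * i + j ∧ s.image σ = s := by
  classical
  set F := Finset.univ.filter (fun x => σ x = x) with hF
  set 𝒞 := σ.cycleFactorsFinset with h𝒞
  have hc : ∀ c ∈ 𝒞, c.support.card = r := by
    intro c hc
    have h1 : c.support.card ∈ σ.cycleType := by
      rw [cycleType_def]
      exact Multiset.mem_map_of_mem _ (Finset.mem_def.1 hc)
    have h2 := dvd_of_mem_cycleType h1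
    rw [hσ] at h2
    have h3 := two_le_of_mem_cycleType h1
    rcases (Nat.dvd_prime hr).1 h2 with h | h
    · omega
    · exact h
  have hsum : σ.support.card = r * 𝒞.card := by
    rw [← sum_cycleType, cycleType_def]
    have : 𝒞.val.map (Finset.card ∘ support) = 𝒞.val.map (fun _ => r) := by
      apply Multiset.map_congr rfl
      intro c hc'
      exact hc c hc'
    rw [this, Multiset.map_const', Multiset.sum_replicate, smul_eq_mul, mul_comm]
    rfl
  have hdisjFM : Disjoint F σ.support := by
    rw [Finset.disjoint_left]
    intro x hx hx'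
    rw [Perm.mem_support] at hx'
    exact hx' (Finset.mem_filter.1 hx).2
  have hunion : F ∪ σ.support = Finset.univ := by
    ext x
    simp only [Finset.mem_union, Finset.mem_univ, iff_true, Perm.mem_support, hF,
      Finset.mem_filter, true_and]
    exact em _
  refine ⟨𝒞.card, ?_, ?_⟩
  · have h1 := Finset.card_union_of_disjoint hdisjFM
    rw [hunion, Finset.card_univ, Fintype.card_fin, hsum] at h1
    omega
  · intro i j hi hj
    obtain ⟨A, hA, hAcard⟩ := Finset.exists_subset_card_eq hi
    obtain ⟨B, hB, hBcard⟩ := Finset.exists_subset_card_eq hj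
    have hdisj : (A : Set (Perm (Fin n))).PairwiseDisjoint support := by
      intro c hc' d hd hcd
      exact (cycleFactorsFinset_pairwise_disjoint σ (hA hc') (hA hd) hcd).disjoint_support
    have hAU : (A.biUnion support).card = r * i := by
      rw [Finset.card_biUnion hdisj]
      have : ∀ c ∈ A, c.support.card = r := fun c hc' => hc c (hA hc')
      rw [Finset.sum_congr rfl this, Finset.sum_const, hAcard, smul_eq_mul, mul_comm]
    have hAsub : A.biUnion support ⊆ σ.support := by
      intro x hx
      obtain ⟨c, hc', hxc⟩ := Finset.mem_biUnion.1 hx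
      have h1 := (mem_cycleFactorsFinset_iff.1 (hA hc')).2 x hxc
      rw [Perm.mem_support, ← h1]
      exact Perm.mem_support.1 hxc
    have hd : Disjoint (A.biUnion support) B := by
      rw [Finset.disjoint_left]
      intro x hx hx'
      exact (Finset.disjoint_left.1 hdisjFM) (hB hx') (hAsub hx)
    refine ⟨A.biUnion support ∪ B, ?_, ?_⟩
    · rw [Finset.card_union_of_disjoint hd, hAU, hBcard]
    · apply Finset.eq_of_subset_of_card_le
      · intro x hx
        obtain ⟨y, hy, rfl⟩ := Finset.mem_image.1 hx
        rcases Finset.mem_union.1 hy with hy | hy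
        · obtain ⟨c, hc', hyc⟩ := Finset.mem_biUnion.1 hy
          refine Finset.mem_union_left _ (Finset.mem_biUnion.2 ⟨c, hc', ?_⟩)
          have h1 := (mem_cycleFactorsFinset_iff.1 (hA hc')).2 y hyc
          rw [← h1]
          exact Perm.apply_mem_support.2 hyc
        · refine Finset.mem_union_right _ ?_
          have h1 := (Finset.mem_filter.1 (hB hy)).2
          rw [h1]
          exact hy
      · rw [Finset.card_image_of_injective _ σ.injective]

end Cfsg.Agent.Lib.PermRec.PrimeOrderPerm
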