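import Mathlib

/-!
# The Sylvester–Schur theorem

For `2 * k ≤ n` and `1 ≤ k`, the binomial coefficient `n.choose k` has a prime factor `> k`.
Erdős-style estimates for `k ≥ 4000`, and a finite check (prime chains, smooth-part test) below.
-/

set_option autoImplicit false

namespace Cfsg.Agent.Lib.PermRec.SylvesterSchur

open Finset

/-! ### Elementary bounds -/

lemma pi_le (x : ℕ) : 3 * Nat.primeCounting x ≤ x + 9 := by
  by_cases hx : x < 6
  · interval_cases x <;> decide
  · obtain ⟨n, rfl⟩ := Nat.exists_eq_add_of_le (not_lt.mp hx)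
    have := Nat.primeCounting_add_le (a := 6) (k := 6) (by norm_num) le_rfl n
    have h6 : Nat.primeCounting 6 = 3 := by decide
    have ht : Nat.totient 6 = 2 := by decide
    rw [h6, ht] at this
    omega

lemma choose_le_of_smooth {n k s W : ℕ} (hkn : k ≤ n) (hn : 0 < n) (hs : n < (s + 1) ^ 2)
    (hW : ∀ p, p.Prime → p ∣ n.choose k → p ≤ W) :
    n.choose k ≤ n ^ Nat.primeCounting s * primorial W := by
  classical
  have h1 := Nat.prod_pow_factorization_choose n k hkn
  set v := (n.choose k).factorization with hv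
  have hC : n.choose k ≠ 0 := (Nat.choose_pos hkn).ne'
  have hterm : ∀ p ∈ range (n + 1), p ^ v p ≤
      (if p.Prime ∧ p ≤ s then n else 1) * (if p.Prime ∧ s < p ∧ p ≤ W then p else 1) := by
    intro p _
    by_cases hpp : p.Prime
    · by_cases hps : p ≤ s
      · rw [if_pos ⟨hpp, hps⟩, if_neg (by omega), mul_one]
        exact Nat.pow_factorization_choose_le hn
      · have hps' : s < p := by omega
        have hv1 : v p ≤ 1 := by
          apply Nat.factorization_choose_le_one
          have : (s + 1) ^ 2 ≤ p ^ 2 := Nat.pow_le_pow_left hps' 2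
          omega
        rw [if_neg (by tauto), one_mul]
        by_cases hpW : p ≤ W
        · rw [if_pos ⟨hpp, hps', hpW⟩]
          calc p ^ v p ≤ p ^ 1 := Nat.pow_le_pow_right hpp.pos hv1
            _ = p := pow_one p
        · rw [if_neg (by tauto)]
          have h0 : v p = 0 := by
            by_contra h0
            have : p ∣ n.choose k := Nat.dvd_of_factorization_pos h0
            exact hpW (hW p hpp this)
          simp [h0]
    · have h0 : v p = 0 := Nat.factorization_eq_zero_of_not_prime _ hpp
      simp [h0, hpp]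
  calc n.choose k = ∏ p ∈ range (n + 1), p ^ v p := h1.symm
    _ ≤ ∏ p ∈ range (n + 1), ((if p.Prime ∧ p ≤ s then n else 1) *
          (if p.Prime ∧ s < p ∧ p ≤ W then p else 1)) := Finset.prod_le_prod' hterm
    _ = (∏ p ∈ range (n + 1), (if p.Prime ∧ p ≤ s then n else 1)) *
          (∏ p ∈ range (n + 1), (if p.Prime ∧ s < p ∧ p ≤ W then p else 1)) :=
        Finset.prod_mul_distrib
    _ ≤ n ^ Nat.primeCounting s * primorial W := by
      apply Nat.mul_le_mul
      · rw [Finset.prod_ite, Finset.prod_const, Finset.prod_const_one, mul_one]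
        apply Nat.pow_le_pow_right hn
        rw [Nat.primeCounting, Nat.primeCounting', Nat.count_eq_card_filter_range]
        apply Finset.card_le_card
        intro p hp
        simp only [mem_filter, mem_range] at hp ⊢
        exact ⟨by omega, hp.2.1⟩
      · rw [Finset.prod_ite, Finset.prod_const_one, mul_one]
        unfold primorial
        apply Finset.prod_le_prod_of_subset_of_one_le'
        · intro p hp
          simp only [mem_filter, mem_range] at hp ⊢
          exact ⟨by omega, hp.2.1⟩
        · intro p hp _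
          exact (Finset.mem_filter.mp hp).2.one_lt.le

lemma pow_le_pow_mul_choose {n k : ℕ} (hk : k ≤ n) : n ^ k ≤ k ^ k * n.choose k := by
  induction k generalizing n with
  | zero => simp
  | succ k ih =>
    obtain ⟨m, rfl⟩ : ∃ m, n = m + 1 := ⟨n - 1, by omega⟩
    have hkm : k ≤ m := by omega
    have h1 := Nat.add_one_mul_choose_eq m k
    have ih' := ih hkm
    have h2 : (m + 1) ^ k ≤ (k + 1) ^ k * m.choose k := by
      rcases Nat.eq_zero_or_pos k with rfl | hk0
      · simp
      · have h3 : ((m + 1) * k) ^ k ≤ (m * (k + 1)) ^ k := Nat.pow_le_pow_left (by nlinarith) k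
        rw [mul_pow, mul_pow] at h3
        have h4 : k ^ k > 0 := by positivity
        apply Nat.le_of_mul_le_mul_right _ h4
        calc (m + 1) ^ k * k ^ k ≤ m ^ k * (k + 1) ^ k := h3
          _ ≤ (k ^ k * m.choose k) * (k + 1) ^ k := Nat.mul_le_mul_right _ ih'
          _ = (k + 1) ^ k * m.choose k * k ^ k := by ring
    calc (m + 1) ^ (k + 1) = (m + 1) ^ k * (m + 1) := pow_succ _ _
      _ ≤ ((k + 1) ^ k * m.choose k) * (m + 1) := Nat.mul_le_mul_right _ h2
      _ = (k + 1) ^ k * ((m + 1) * m.choose k) := by ring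
      _ = (k + 1) ^ k * ((m + 1).choose (k + 1) * (k + 1)) := by rw [← h1]
      _ = (k + 1) ^ (k + 1) * (m + 1).choose (k + 1) := by ring

lemma three_pow_le (k j : ℕ) (hj : j ≤ k) :
    3 ^ j * (2 * k).choose k ≤ 2 ^ j * (2 * k + j).choose k := by
  induction j with
  | zero => simp
  | succ j ih =>
    have ih' := ih (by omega)
    have h := Nat.choose_mul_succ_eq (2 * k + j) k
    have e : 2 * k + j + 1 - k = k + j + 1 := by omega
    rw [e] at h
    have h2 : 3 * (2 * k + j).choose k ≤ 2 * (2 * k + j + 1).choose k := by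
      apply Nat.le_of_mul_le_mul_right _ (by omega : 0 < k + j + 1)
      calc 3 * (2 * k + j).choose k * (k + j + 1)
          ≤ (2 * k + j).choose k * (2 * (2 * k + j + 1)) := by
            rw [mul_comm 3, mul_assoc]
            exact Nat.mul_le_mul_left _ (by omega)
        _ = 2 * ((2 * k + j).choose k * (2 * k + j + 1)) := by ring
        _ = 2 * ((2 * k + j + 1).choose k * (k + j + 1)) := by rw [h]
        _ = 2 * (2 * k + j + 1).choose k * (k + j + 1) := by ring
    rw [← add_assoc]
    calc 3 ^ (j + 1) * (2 * k).choose k = 3 * (3 ^ j * (2 * k).choose k) := by ring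
      _ ≤ 3 * (2 ^ j * (2 * k + j).choose k) := Nat.mul_le_mul_left _ ih'
      _ = 2 ^ j * (3 * (2 * k + j).choose k) := by ring
      _ ≤ 2 ^ j * (2 * (2 * k + j + 1).choose k) := Nat.mul_le_mul_left _ h2
      _ = 2 ^ (j + 1) * (2 * k + j + 1).choose k := by ring

/-- The main lower/upper comparison in the range `n < 16 k` (no size restriction beyond `n ≥ 2k`). -/
lemma key_ineq {n k s : ℕ} (hk : 3 ≤ k) (h2 : 2 * k ≤ n) (hs : n < (s + 1) ^ 2)
    (hsm : ∀ p, p.Prime → p ∣ n.choose k → p ≤ k) :
    27 ^ k ≤ 8 ^ k * ((2 * k) ^ 3 * (n ^ (3 * Nat.primeCounting s))) := by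
  have hn : 0 < n := by omega
  have hkn : k ≤ n := by omega
  have hcb : 4 ^ k ≤ 2 * k * (2 * k).choose k := by
    have := Nat.four_pow_le_two_mul_self_mul_centralBinom k (by omega)
    rwa [Nat.centralBinom_eq_two_mul_choose] at this
  set P := n ^ Nat.primeCounting s with hP
  have hP3 : n ^ (3 * Nat.primeCounting s) = P ^ 3 := by rw [hP, ← pow_mul, mul_comm]
  rw [hP3]
  by_cases h3 : 3 * k ≤ n
  · have hC : n.choose k ≤ P * primorial k := choose_le_of_smooth hkn hn hs hsm
    have hC' : n.choose k ≤ P * 4 ^ k :=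
      hC.trans (Nat.mul_le_mul_left _ (primorial_le_four_pow k))
    have h4 := three_pow_le k k le_rfl
    have h5 : (2 * k + k).choose k ≤ n.choose k := Nat.choose_le_choose k (by omega)
    have h6 : 3 ^ k ≤ 2 * k * 2 ^ k * P := by
      have h40 : 0 < 4 ^ k := by positivity
      apply Nat.le_of_mul_le_mul_right _ h40
      calc 3 ^ k * 4 ^ k ≤ 3 ^ k * (2 * k * (2 * k).choose k) := Nat.mul_le_mul_left _ hcb
        _ = 2 * k * (3 ^ k * (2 * k).choose k) := by ring
        _ ≤ 2 * k * (2 ^ k * (2 * k + k).choose k) := Nat.mul_le_mul_left _ h4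
        _ ≤ 2 * k * (2 ^ k * (P * 4 ^ k)) :=
            Nat.mul_le_mul_left _ (Nat.mul_le_mul_left _ (h5.trans hC'))
        _ = 2 * k * 2 ^ k * P * 4 ^ k := by ring
    calc 27 ^ k = (3 ^ k) ^ 3 := by rw [← pow_mul, mul_comm, pow_mul]; norm_num
      _ ≤ (2 * k * 2 ^ k * P) ^ 3 := Nat.pow_le_pow_left h6 3
      _ = 8 ^ k * ((2 * k) ^ 3 * P ^ 3) := by
        have : (2 ^ k) ^ 3 = 8 ^ k := by rw [← pow_mul, mul_comm, pow_mul]; norm_num
        rw [mul_pow, mul_pow, this]; ring
  · push Not at h3
    obtain ⟨j, rfl⟩ : ∃ j, n = 2 * k + j := ⟨n - 2 * k, by omega⟩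
    have hjk : j < k := by omega
    set N := 2 * k + j with hN
    set W := N / 3 with hW
    have hWle : 3 * W ≤ N := by omega
    have hsmW : ∀ p, p.Prime → p ∣ N.choose k → p ≤ W := by
      intro p hp hd
      by_contra hlt
      have hlt' : N < 3 * p := by omega
      have hpk := hsm p hp hd
      have hp2 : p ≠ 2 := by rintro rfl; omega
      have h0 := Nat.factorization_choose_of_lt_three_mul hp2 hpk (by omega) hlt'
      have := Nat.Prime.factorization_pos_of_dvd hp (Nat.choose_pos hkn).ne' hd
      omega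
    have hC : N.choose k ≤ P * primorial W := choose_le_of_smooth hkn hn hs hsmW
    have hC' : N.choose k ≤ P * 4 ^ W :=
      hC.trans (Nat.mul_le_mul_left _ (primorial_le_four_pow W))
    have h4 := three_pow_le k j hjk.le
    have h6 : 3 ^ j * 4 ^ k ≤ 2 * k * 2 ^ j * P * 4 ^ W :=
      calc 3 ^ j * 4 ^ k ≤ 3 ^ j * (2 * k * (2 * k).choose k) := Nat.mul_le_mul_left _ hcb
        _ = 2 * k * (3 ^ j * (2 * k).choose k) := by ring
        _ ≤ 2 * k * (2 ^ j * N.choose k) := Nat.mul_le_mul_left _ h4
        _ ≤ 2 * k * (2 ^ j * (P * 4 ^ W)) :=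
            Nat.mul_le_mul_left _ (Nat.mul_le_mul_left _ hC')
        _ = 2 * k * 2 ^ j * P * 4 ^ W := by ring
    have h7 := Nat.pow_le_pow_left h6 3
    set X := (2 * k) ^ 3 * P ^ 3 with hX
    have e1 : ∀ a b : ℕ, (a ^ b) ^ 3 = (a ^ 3) ^ b := fun a b => by
      rw [← pow_mul, ← pow_mul, mul_comm]
    have h8 : 27 ^ j * 64 ^ k ≤ 8 ^ j * X * 4 ^ (2 * k + j) := by
      calc 27 ^ j * 64 ^ k = (3 ^ j * 4 ^ k) ^ 3 := by
            rw [mul_pow, e1, e1]; norm_num
        _ ≤ (2 * k * 2 ^ j * P * 4 ^ W) ^ 3 := h7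
        _ = 8 ^ j * X * (4 ^ W) ^ 3 := by
            rw [mul_pow, mul_pow, mul_pow, e1 2 j, hX]; norm_num; ring
        _ ≤ 8 ^ j * X * 4 ^ (2 * k + j) := by
            apply Nat.mul_le_mul_left
            rw [← pow_mul]
            exact Nat.pow_le_pow_right (by norm_num) (by omega)
    have h9 : 27 ^ j * 4 ^ k ≤ X * 32 ^ j := by
      have h16 : 0 < 16 ^ k := by positivity
      apply Nat.le_of_mul_le_mul_right _ h16
      calc 27 ^ j * 4 ^ k * 16 ^ k = 27 ^ j * 64 ^ k := by
            rw [mul_assoc, ← mul_pow]; norm_num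
        _ ≤ 8 ^ j * X * 4 ^ (2 * k + j) := h8
        _ = X * 32 ^ j * 16 ^ k := by
            have e2 : (4 : ℕ) ^ (2 * k + j) = 16 ^ k * 4 ^ j := by
              rw [pow_add, pow_mul]; norm_num
            have e3 : (32 : ℕ) ^ j = 8 ^ j * 4 ^ j := by rw [← mul_pow]; norm_num
            rw [e2, e3]; ring
    obtain ⟨i, rfl⟩ : ∃ i, k = j + i := ⟨k - j, by omega⟩
    have h10 : 27 ^ (j + i) * 4 ^ (j + i) ≤ X * 32 ^ (j + i) := by
      calc 27 ^ (j + i) * 4 ^ (j + i) = (27 ^ j * 4 ^ (j + i)) * 27 ^ i := by rw [pow_add 27]; ring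
        _ ≤ (X * 32 ^ j) * 27 ^ i := Nat.mul_le_mul_right _ h9
        _ ≤ (X * 32 ^ j) * 32 ^ i := Nat.mul_le_mul_left _ (Nat.pow_le_pow_left (by norm_num) i)
        _ = X * 32 ^ (j + i) := by rw [pow_add 32]; ring
    have h40 : 0 < 4 ^ (j + i) := by positivity
    apply Nat.le_of_mul_le_mul_right _ h40
    calc 27 ^ (j + i) * 4 ^ (j + i) ≤ X * 32 ^ (j + i) := h10
      _ = 8 ^ (j + i) * X * 4 ^ (j + i) := by
        have e3 : (32 : ℕ) ^ (j + i) = 8 ^ (j + i) * 4 ^ (j + i) := by rw [← mul_pow]; norm_num
        rw [e3]; ring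

/-! ### Real estimates -/

lemma log_le_mul {t : ℝ} (ht : 0 < t) : Real.log t ≤ t * 0.368 := by
  have he : (2.7182818283 : ℝ) < Real.exp 1 := Real.exp_one_gt_d9
  have he0 : 0 < Real.exp 1 := Real.exp_pos 1
  have h1 := Real.log_le_sub_one_of_pos (div_pos ht he0)
  rw [Real.log_div ht.ne' he0.ne', Real.log_exp] at h1
  have h2 : t / Real.exp 1 ≤ t * 0.368 := by
    rw [div_le_iff₀ he0]
    have : t * 1 ≤ t * (0.368 * Real.exp 1) := by
      apply mul_le_mul_of_nonneg_left _ ht.le
      nlinarith
    nlinarith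
  linarith

lemma log_27_8 : (1.2 : ℝ) ≤ Real.log 27 - Real.log 8 := by
  rw [← Real.log_div (by norm_num) (by norm_num)]
  have h : Real.exp 6 ≤ (27 / 8 : ℝ) ^ 5 := by
    have e : (6 : ℝ) = (6 : ℕ) * 1 := by norm_num
    rw [e, Real.exp_nat_mul]
    have he : Real.exp 1 < 2.7182818286 := Real.exp_one_lt_d9
    calc Real.exp 1 ^ 6 ≤ (2.7182818286 : ℝ) ^ 6 := by
          apply pow_le_pow_left₀ (Real.exp_pos 1).le he.le
      _ ≤ _ := by norm_num
  have h2 := Real.log_le_log (Real.exp_pos 6) h
  rw [Real.log_exp, Real.log_pow] at h2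
  push_cast at h2
  linarith

lemma log_four : (1.386 : ℝ) ≤ Real.log 4 := by
  have h : Real.log 4 = 2 * Real.log 2 := by
    rw [show (4 : ℝ) = 2 ^ 2 by norm_num, Real.log_pow]; norm_num
  have := Real.log_two_gt_d9
  rw [h]; linarith

/-- Region `n < 16 k`. -/
lemma real_iii {n k s : ℕ} (hk : 4000 ≤ k) (hn : 0 < n) (h16 : n < 16 * k) (hsn : s ^ 2 ≤ n)
    {e : ℕ} (he : e ≤ s + 9)
    (h : 27 ^ k ≤ 8 ^ k * ((2 * k) ^ 3 * (n ^ e))) : False := by
  have hk' : (4000 : ℝ) ≤ k := by exact_mod_cast hk
  set y : ℝ := 16 * k with hy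
  have hy0 : 0 < y := by rw [hy]; linarith
  set t : ℝ := y ^ (1 / 8 : ℝ) with ht
  have ht0 : 0 < t := Real.rpow_pos_of_pos hy0 _
  have ht8 : t ^ 8 = y := by
    rw [ht, ← Real.rpow_natCast, ← Real.rpow_mul hy0.le]; norm_num
  have ht39 : (3.9 : ℝ) ≤ t := by
    by_contra hlt
    push Not at hlt
    have : t ^ 8 < (3.9 : ℝ) ^ 8 := pow_lt_pow_left₀ hlt ht0.le (by norm_num)
    rw [ht8] at this
    norm_num at this
    rw [hy] at this
    linarith
  have hsq : Real.sqrt y = t ^ 4 := by
    rw [← ht8, show t ^ 8 = (t ^ 4) ^ 2 by ring, Real.sqrt_sq (by positivity)]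
  have hly : Real.log y = 8 * Real.log t := by
    rw [← ht8, Real.log_pow]; norm_num
  have hlt := log_le_mul ht0
  have hny : (n : ℝ) ≤ y := by rw [hy]; exact_mod_cast h16.le
  have hn0 : (0 : ℝ) < n := by exact_mod_cast hn
  have h2k : ((2 * k : ℕ) : ℝ) ≤ y := by push_cast; rw [hy]; nlinarith
  have h2k0 : (0 : ℝ) < ((2 * k : ℕ) : ℝ) := by push_cast; linarith
  have hs : (s : ℝ) ≤ t ^ 4 := by
    rw [← hsq]
    apply Real.le_sqrt_of_sq_le
    have : ((s ^ 2 : ℕ) : ℝ) ≤ n := by exact_mod_cast hsn
    push_cast at this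
    linarith
  -- take logs
  have hlog := Real.log_le_log (by positivity) (show ((27 : ℝ) ^ k) ≤ 8 ^ k * (((2 * k : ℕ) : ℝ) ^ 3 * ((n : ℝ) ^ e)) by
    exact_mod_cast h)
  rw [Real.log_pow, Real.log_mul (by positivity) (by positivity),
    Real.log_mul (by positivity) (by positivity), Real.log_pow, Real.log_pow, Real.log_pow] at hlog
  have hl1 : Real.log ((2 * k : ℕ) : ℝ) ≤ Real.log y := Real.log_le_log h2k0 h2k
  have hl2 : Real.log (n : ℝ) ≤ Real.log y := Real.log_le_log hn0 hny
  have hl0 : 0 ≤ Real.log (n : ℝ) := Real.log_natCast_nonneg n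
  have hly0 : 0 ≤ Real.log y := hl0.trans hl2
  have he' : (e : ℝ) ≤ t ^ 4 + 9 := by
    have : (e : ℝ) ≤ s + 9 := by exact_mod_cast he
    linarith
  have h27 := log_27_8
  have hkt : (k : ℝ) = t ^ 8 / 16 := by rw [ht8, hy]; ring
  -- combine
  have main : (k : ℝ) * 1.2 ≤ (t ^ 4 + 12) * Real.log y := by
    have a1 : (k : ℝ) * 1.2 ≤ k * (Real.log 27 - Real.log 8) :=
      mul_le_mul_of_nonneg_left h27 (by linarith)
    have a2 : ((3 : ℕ) : ℝ) * Real.log ((2 * k : ℕ) : ℝ) ≤ 3 * Real.log y := by
      push_cast; push_cast at hl1; linarith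
    have a3 : (e : ℝ) * Real.log (n : ℝ) ≤ (t ^ 4 + 9) * Real.log y :=
      mul_le_mul he' hl2 hl0 (by positivity)
    nlinarith
  rw [hly, hkt] at main
  have ht3 : (59 : ℝ) ≤ t ^ 3 := by
    calc (59 : ℝ) ≤ (3.9 : ℝ) ^ 3 := by norm_num
      _ ≤ t ^ 3 := pow_le_pow_left₀ (by norm_num) ht39 3
  have ht4 : (231 : ℝ) ≤ t ^ 4 := by
    calc (231 : ℝ) ≤ (3.9 : ℝ) ^ 4 := by norm_num
      _ ≤ t ^ 4 := pow_le_pow_left₀ (by norm_num) ht39 4
  have hf : (t ^ 4 + 12) * (8 * Real.log t) ≤ (t ^ 4 + 12) * (8 * (t * 0.368)) := by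
    apply mul_le_mul_of_nonneg_left _ (by positivity)
    linarith
  have hg : t ^ 8 / 16 * 1.2 ≤ (t ^ 4 + 12) * (8 * (t * 0.368)) := main.trans hf
  have e8 : t ^ 8 = t ^ 3 * t ^ 4 * t := by ring
  have hh : 59 * t ^ 4 * t ≤ t ^ 8 := by
    rw [e8]
    have : 59 * t ^ 4 ≤ t ^ 3 * t ^ 4 := by nlinarith
    exact mul_le_mul_of_nonneg_right this ht0.le
  have hg2 : (59 * t ^ 4 * t) / 16 * 1.2 ≤ (t ^ 4 + 12) * (8 * (t * 0.368)) := by linarith
  have : t * (1.481 * t ^ 4 - 35.4) ≤ 0 := by nlinarith
  have h3 : 0 < 1.481 * t ^ 4 - 35.4 := by linarith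
  have := mul_pos ht0 h3
  linarith

/-- Region `16 k ≤ n`, `n ^ 5 < k ^ 8`. -/
lemma real_ii {n k s : ℕ} (hk : 4000 ≤ k) (h16 : 16 * k ≤ n) (h58 : n ^ 5 < k ^ 8)
    (hsn : s ^ 2 ≤ n) {e : ℕ} (he : 3 * e ≤ s + 9)
    (h : n ^ k ≤ k ^ k * (n ^ e * 4 ^ k)) : False := by
  have hk' : (4000 : ℝ) ≤ k := by exact_mod_cast hk
  have hk0 : (0 : ℝ) < k := by linarith
  have hn0 : (0 : ℝ) < n := by
    have : (16 * k : ℝ) ≤ n := by exact_mod_cast h16
    linarith
  set t : ℝ := (k : ℝ) ^ (1 / 10 : ℝ) with ht
  have ht0 : 0 < t := Real.rpow_pos_of_pos hk0 _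
  have ht10 : t ^ 10 = k := by
    rw [ht, ← Real.rpow_natCast, ← Real.rpow_mul hk0.le]; norm_num
  have ht22 : (2.2 : ℝ) ≤ t := by
    by_contra hlt
    push Not at hlt
    have : t ^ 10 < (2.2 : ℝ) ^ 10 := pow_lt_pow_left₀ hlt ht0.le (by norm_num)
    rw [ht10] at this
    norm_num at this
    linarith
  have hnt : (n : ℝ) < t ^ 16 := by
    have h1 : ((n : ℝ)) ^ 5 < (t ^ 16) ^ 5 := by
      have : ((n ^ 5 : ℕ) : ℝ) < ((k ^ 8 : ℕ) : ℝ) := by exact_mod_cast h58
      push_cast at this
      rw [← ht10] at this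
      calc (n : ℝ) ^ 5 < (t ^ 10) ^ 8 := this
        _ = (t ^ 16) ^ 5 := by ring
    exact lt_of_pow_lt_pow_left₀ 5 (by positivity) h1
  have hlogn : Real.log n ≤ 16 * (t * 0.368) := by
    have h1 := Real.log_le_log hn0 hnt.le
    rw [Real.log_pow] at h1
    have h2 := log_le_mul ht0
    push_cast at h1
    linarith
  have hs : (s : ℝ) ≤ t ^ 8 := by
    have h1 : (s : ℝ) ^ 2 ≤ n := by exact_mod_cast hsn
    have h2 : (s : ℝ) ^ 2 < (t ^ 8) ^ 2 := by
      calc (s : ℝ) ^ 2 ≤ n := h1
        _ < t ^ 16 := hnt
        _ = (t ^ 8) ^ 2 := by ring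
    exact (lt_of_pow_lt_pow_left₀ 2 (by positivity) h2).le
  have he' : 3 * (e : ℝ) ≤ t ^ 8 + 9 := by
    have : ((3 * e : ℕ) : ℝ) ≤ ((s + 9 : ℕ) : ℝ) := by exact_mod_cast he
    push_cast at this
    linarith
  have hlog := Real.log_le_log (by positivity)
    (show ((n : ℝ) ^ k) ≤ (k : ℝ) ^ k * ((n : ℝ) ^ e * 4 ^ k) by exact_mod_cast h)
  rw [Real.log_pow, Real.log_mul (by positivity) (by positivity),
    Real.log_mul (by positivity) (by positivity), Real.log_pow, Real.log_pow, Real.log_pow] at hlog
  have h16' : (16 : ℝ) * k ≤ n := by exact_mod_cast h16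
  have hl16 : Real.log (16 * k) ≤ Real.log n := Real.log_le_log (by positivity) h16'
  rw [Real.log_mul (by norm_num) hk0.ne'] at hl16
  have hl4 := log_four
  have e16 : Real.log 16 = 2 * Real.log 4 := by
    rw [show (16 : ℝ) = 4 ^ 2 by norm_num, Real.log_pow]; norm_num
  have h1 : (k : ℝ) * Real.log 4 ≤ e * Real.log n := by
    have a1 : (k : ℝ) * (2 * Real.log 4 + Real.log k) ≤ k * Real.log n :=
      mul_le_mul_of_nonneg_left (by linarith) hk0.le
    nlinarith
  have hl0 : 0 ≤ Real.log (n : ℝ) := Real.log_natCast_nonneg n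
  have h2 : (k : ℝ) * 1.386 ≤ e * Real.log n :=
    (mul_le_mul_of_nonneg_left hl4 hk0.le).trans h1
  have h3 : 3 * ((e : ℝ) * Real.log n) ≤ (t ^ 8 + 9) * (16 * (t * 0.368)) := by
    rw [← mul_assoc]
    exact mul_le_mul he' hlogn hl0 (by positivity)
  rw [← ht10] at h2
  have ht8 : (548 : ℝ) ≤ t ^ 8 := by
    calc (548 : ℝ) ≤ (2.2 : ℝ) ^ 8 := by norm_num
      _ ≤ t ^ 8 := pow_le_pow_left₀ (by norm_num) ht22 8
  have h4 : 2.2 * t ^ 9 ≤ t ^ 10 := by
    have : t ^ 10 = t * t ^ 9 := by ring
    rw [this]
    exact mul_le_mul_of_nonneg_right ht22 (by positivity)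
  have e9 : t ^ 9 = t ^ 8 * t := by ring
  have h5 : t * (3 * 1.386 * 2.2 * t ^ 8 - (t ^ 8 + 9) * (16 * 0.368)) ≤ 0 := by
    have : 3 * (t ^ 10 * 1.386) ≤ (t ^ 8 + 9) * (16 * (t * 0.368)) := by linarith
    nlinarith
  have h6 : 0 < 3 * 1.386 * 2.2 * t ^ 8 - (t ^ 8 + 9) * (16 * 0.368) := by nlinarith
  have := mul_pos ht0 h6
  linarith

/-- Region `n ^ 5 ≥ k ^ 8`: impossible for `k ≥ 73`. -/
lemma nat_i {n k e : ℕ} (hk : 73 ≤ k) (h58 : k ^ 8 ≤ n ^ 5) (he : 3 * e ≤ k + 9) (hn : 0 < n)
    (h : n ^ k ≤ k ^ k * n ^ e) : False := by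
  have hek : e ≤ k := by omega
  obtain ⟨d, rfl⟩ : ∃ d, k = e + d := ⟨k - e, by omega⟩
  have h1 : n ^ d ≤ (e + d) ^ (e + d) := by
    apply Nat.le_of_mul_le_mul_right _ (by positivity : 0 < n ^ e)
    rw [← pow_add, add_comm d e]
    exact h
  have h2 : (n ^ 5) ^ d ≤ ((e + d) ^ (e + d)) ^ 5 := by
    rw [← pow_mul, mul_comm, pow_mul]
    exact Nat.pow_le_pow_left h1 5
  have h3 : ((e + d) ^ 8) ^ d ≤ (n ^ 5) ^ d := Nat.pow_le_pow_left h58 d
  have h4 := h3.trans h2
  rw [← pow_mul, ← pow_mul] at h4
  have h5 := (Nat.pow_le_pow_iff_right (by omega : 1 < e + d)).mp h4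
  omega

/-! ### Finite checks -/

/-- Walks along a list of "good" numbers with gaps at most `g`. -/
def chain (good : ℕ → Bool) (g : ℕ) : ℕ → List ℕ → Option ℕ
  | a, [] => some a
  | a, b :: l => if good b && decide (a < b) && decide (b ≤ a + g) then chain good g b l else none

lemma chain_spec (good : ℕ → Bool) (g : ℕ) (l : List ℕ) :
    ∀ a e, chain good g a l = some e → good a = true → ∀ n, a ≤ n → n < e →
      ∃ y, good y = true ∧ y ≤ n ∧ n < y + g := by
  induction l with
  | nil =>
    intro a e h _ n h1 h2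
    simp only [chain, Option.some.injEq] at h
    omega
  | cons b l ih =>
    intro a e h ha n h1 h2
    simp only [chain] at h
    split_ifs at h with hc
    simp only [Bool.and_eq_true, decide_eq_true_eq] at hc
    obtain ⟨⟨hb, hab⟩, hba⟩ := hc
    by_cases hnb : n < b
    · exact ⟨a, ha, h1, by omega⟩
    · exact ih b e h hb n (by omega) h2

def goodP (P x : ℕ) : Bool := Nat.gcd x P == 1

/-- forces the evaluation of its argument in the kernel. -/
def withNat {α : Type} (n : ℕ) (f : ℕ → α) : α :=
  match n with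
  | 0 => f 0
  | m + 1 => f (m + 1)

lemma withNat_eq {α : Type} (n : ℕ) (f : ℕ → α) : withNat n f = f n := by
  cases n <;> rfl

lemma prime_of_goodP {N x : ℕ} (h : goodP (Nat.factorial N) x = true) (h1 : 1 < x)
    (h2 : x < (N + 1) ^ 2) : x.Prime := by
  by_contra hnp
  have h3 := Nat.minFac_sq_le_self (by omega) hnp
  have h4 : x.minFac ≤ N := by
    by_contra hlt
    push Not at hlt
    have : (N + 1) ^ 2 ≤ x.minFac ^ 2 := Nat.pow_le_pow_left hlt 2
    omega
  have hmp : x.minFac.Prime := Nat.minFac_prime (by omega)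
  have h5 : x.minFac ∣ Nat.factorial N := Nat.dvd_factorial hmp.pos h4
  have h6 : x.minFac ∣ Nat.gcd x (Nat.factorial N) := Nat.dvd_gcd (Nat.minFac_dvd x) h5
  have h7 : Nat.gcd x (Nat.factorial N) = 1 := by
    simpa [goodP] using h
  rw [h7] at h6
  exact hmp.one_lt.ne' (Nat.dvd_one.mp h6)

def list1 : List ℕ := [211, 283, 353, 421, 491, 563, 631, 701, 773, 839, 911, 983, 1051]

set_option maxRecDepth 100000 in
def list2 : List ℕ := [
   977, 1049, 1117, 1187, 1259, 1327, 1399, 1471, 1543, 1613, 1669, 1741, 1811, 1879, 1951, 2017, 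
   2089, 2161, 2221, 2293, 2357, 2423, 2477, 2549, 2621, 2693, 2753, 2819, 2887, 2957, 3023, 3089, 
   3137, 3209, 3271, 3343, 3413, 3469, 3541, 3613, 3677, 3739, 3803, 3863, 3931, 4003, 4073, 4139, 
   4211, 4283, 4349, 4421, 4493, 4561, 4621, 4691, 4759, 4831, 4903, 4973, 5039, 5107, 5179, 5237, 
   5309, 5381, 5449, 5521, 5591, 5659, 5717, 5783, 5851, 5923, 5987, 6053, 6121, 6173, 6229, 6301, 
   6373, 6427, 6491, 6563, 6619, 6691, 6763, 6833, 6899, 6971, 7043, 7109, 7177, 7247, 7309, 7369, 
   7433, 7499, 7561, 7621, 7691, 7759, 7829, 7901, 7963, 8017, 8089, 8161, 8233, 8297, 8369, 8431, 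
   8501, 8573, 8641, 8713, 8783, 8849, 8893, 8963, 9029, 9091, 9161, 9227, 9293, 9349, 9421, 9491, 
   9551, 9623, 9689, 9749, 9817, 9887, 9949, 10009, 10079, 10151, 10223, 10289, 10357, 10429, 
   10501, 10567, 10639, 10711, 10781, 10853, 10909, 10979, 11047, 11119, 11177, 11243, 11311, 
   11383, 11447, 11519, 11587, 11657, 11719, 11789, 11839, 11909, 11981, 12049, 12119, 12163, 
   12227, 12289, 12347, 12413, 12479, 12547, 12619, 12689, 12757, 12829, 12899, 12967, 13037, 
   13109, 13177, 13249, 13313, 13381, 13451, 13523, 13591, 13649, 13721, 13789, 13859, 13931, 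
   13999, 14071, 14143, 14207, 14251, 14323, 14389, 14461, 14533, 14593, 14657, 14723, 14783, 
   14851, 14923, 14983, 15053, 15121, 15193, 15263, 15331, 15401, 15473, 15541, 15607, 15679, 
   15749, 15817, 15889, 15959, 16007, 16073, 16141, 16193, 16253, 16319, 16381, 16453, 16519, 
   16573, 16633, 16703, 16763, 16831, 16903, 16963, 17033, 17099, 17167, 17239, 17299, 17359, 
   17431, 17497, 17569, 17627, 17683, 17749, 17807, 17863, 17929, 17989, 18061, 18133, 18199, 
   18269, 18341, 18413, 18481, 18553, 18617, 18679, 18749, 18803, 18869, 18919, 18979, 19051, 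
   19121, 19183, 19249, 19319, 19391, 19463, 19531, 19603, 19661, 19727, 19793, 19861, 19927, 
   19997, 20063, 20129, 20201, 20269, 20341, 20411, 20483, 20551, 20611, 20681, 20753, 20809, 
   20879, 20947, 21019, 21089, 21157, 21227, 21283, 21347, 21419, 21491, 21563, 21617, 21683, 
   21751, 21821, 21893, 21961, 22031, 22093, 22159, 22229, 22291, 22349, 22409, 22481, 22549, 
   22621, 22691, 22751, 22817, 22877, 22943, 23011, 23081, 23143, 23209, 23279, 23339, 23399, 
   23459, 23531, 23603, 23671, 23743, 23813, 23879, 23929, 24001, 24071, 24137, 24203, 24251, 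
   24317, 24379, 24443, 24509, 24571, 24631, 24697, 24767, 24821, 24889, 24953, 25013, 25073, 
   25127, 25189, 25261, 25321, 25391, 25463, 25523, 25589, 25657, 25717, 25771, 25841, 25913, 
   25981, 26053, 26119, 26189, 26261, 26321, 26393, 26459, 26513, 26573, 26641, 26713, 26783, 
   26849, 26921, 26993, 27061, 27127, 27197, 27259, 27329, 27397, 27457, 27529, 27583, 27653, 
   27701, 27773, 27827, 27893, 27961, 28031, 28099, 28163, 28229, 28297, 28351, 28411, 28477, 
   28549, 28621, 28687, 28759, 28817, 28879, 28949, 29021, 29077, 29147, 29209, 29269, 29339, 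
   29411, 29483, 29537, 29599, 29671, 29741, 29803, 29873, 29927, 29989, 30059, 30119, 30187, 
   30259, 30323, 30391, 30449, 30517, 30577, 30649, 30713, 30781, 30853, 30911, 30983, 31051, 
   31123, 31193, 31259, 31327, 31397, 31469, 31541, 31607, 31667, 31729, 31799, 31859, 31907, 
   31973, 32029, 32099, 32159, 32213, 32261, 32327, 32381, 32443, 32507, 32579, 32647, 32719, 
   32789, 32843, 32911, 32983, 33053, 33119, 33191, 33247, 33317, 33377, 33427, 33493, 33563, 
   33629, 33679, 33751, 33811, 33871, 33941, 33997, 34061, 34129, 34183, 34253, 34319, 34381, 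
   34439, 34511, 34583, 34651, 34721, 34781, 34849, 34919, 34981, 35053, 35117, 35171, 35227, 
   35291, 35363, 35423, 35491, 35543, 35603, 35671, 35731, 35803, 35869, 35933, 35999, 36067, 
   36137, 36209, 36277, 36343, 36389, 36457, 36529, 36599, 36671, 36739, 36809, 36877, 36947, 
   37019, 37087, 37159, 37223, 37277, 37339, 37409, 37463, 37529, 37591, 37663, 37717, 37783, 
   37853, 37907, 37967, 38039, 38083, 38153, 38219, 38287, 38351, 38393, 38461, 38501, 38569, 
   38639, 38711, 38783, 38851, 38923, 38993, 39047, 39119, 39191, 39251, 39323, 39383, 39451, 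
   39521, 39581, 39631, 39703, 39769, 39841, 39901, 39971, 40039, 40111, 40177, 40241, 40289, 
   40361, 40433, 40499, 40559, 40627, 40699, 40771, 40841, 40903, 40973, 41039, 41081, 41149, 
   41221, 41281, 41351, 41413, 41479, 41549, 41621, 41687, 41759, 41813, 41879, 41947, 42019, 
   42089, 42157, 42227, 42299, 42359, 42409, 42473, 42533, 42589, 42649, 42719, 42787, 42859, 
   42929, 42989, 43051, 43117, 43189, 43261, 43331, 43403, 43457, 43517, 43579, 43651, 43721, 
   43793, 43853, 43913, 43973, 44041, 44111, 44179, 44249, 44293, 44357, 44417, 44483, 44549, 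
   44621, 44687, 44753, 44819, 44887, 44959, 45013, 45083, 45139, 45197, 45263, 45329, 45389, 
   45439, 45503, 45569, 45641, 45707, 45779, 45841, 45893, 45959, 46027, 46099, 46171, 46237, 
   46309, 46381, 46451, 46523, 46591, 46663, 46727, 46771, 46831, 46901, 46957, 47017, 47087, 
   47149, 47221, 47293, 47363, 47431, 47501, 47569, 47639, 47711, 47779, 47843, 47911, 47981, 
   48049, 48121, 48193, 48259, 48313, 48383, 48449, 48497, 48563, 48623, 48679, 48751, 48823, 
   48889, 48953, 49019, 49081, 49139, 49211, 49279, 49339, 49411, 49481, 49549, 49613, 49681, 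
   49747, 49811, 49877, 49943, 49999, 50069, 50131, 50177, 50231, 50291, 50363, 50423, 50461, 
   50527, 50599, 50671, 50741, 50789, 50857, 50929, 51001, 51071, 51137, 51203, 51263, 51329, 
   51383, 51449, 51521, 51593, 51659, 51721, 51787, 51859, 51929, 51991, 52057, 52127, 52189, 
   52259, 52321, 52391, 52457, 52529, 52583, 52639, 52711, 52783, 52837, 52903, 52973, 53017, 
   53089, 53161, 53233, 53299, 53359, 53419, 53479, 53551, 53623, 53693, 53759, 53831, 53899, 
   53959, 54013, 54083, 54151, 54217, 54287, 54347, 54419, 54469, 54541, 54601, 54673, 54727, 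
   54799, 54869, 54941, 55009, 55079, 55147, 55219, 55291, 55351, 55411, 55469, 55541, 55609, 
   55681, 55733, 55799, 55871, 55933, 56003, 56053, 56123, 56179, 56249, 56311, 56383, 56453, 
   56519, 56591, 56663, 56731, 56783, 56843, 56911, 56983, 57047, 57119, 57191, 57259, 57331, 
   57397, 57467, 57529, 57601, 57667, 57737, 57809, 57881, 57947, 58013, 58073, 58129, 58199, 
   58271, 58337, 58403, 58453, 58511, 58579, 58631, 58699, 58771, 58831, 58901, 58967, 59029, 
   59093, 59159, 59221, 59281, 59351, 59419, 59473, 59539, 59611, 59671, 59743, 59809, 59879, 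
   59951, 60017, 60089, 60161, 60223, 60293, 60353, 60413, 60457, 60527, 60589, 60661, 60733, 
   60793, 60859, 60923, 60961, 61031, 61099, 61169, 61231, 61297, 61363, 61417, 61487, 61559, 
   61631, 61703, 61757, 61819, 61879, 61949, 62017, 62081, 62143, 62213, 62273, 62327, 62383, 
   62423, 62483, 62549, 62617, 62687, 62753, 62819, 62873, 62939, 62989, 63059, 63131, 63199, 
   63247, 63317, 63389, 63443, 63499, 63559, 63629, 63697, 63761, 63823, 63863, 63929, 63997, 
   64067, 64123, 64189, 64237, 64303, 64373, 64439, 64499, 64567, 64633, 64693, 64763, 64817, 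
   64879, 64951, 65011, 65071, 65141, 65213, 65269, 65327, 65393, 65449, 65521, 65587, 65657, 
   65729, 65789, 65851, 65921, 65993, 66047, 66109, 66179, 66239, 66301, 66373, 66431, 66499, 
   66571, 66643, 66713, 66763, 66821, 66889, 66959, 67021, 67079, 67141, 67213, 67273, 67343, 
   67411, 67481, 67547, 67619, 67679, 67751, 67819, 67891, 67961, 68023, 68087, 68147, 68219, 
   68281, 68351, 68399, 68449, 68521, 68581, 68639, 68711, 68777, 68821, 68891, 68963, 69031, 
   69073, 69143, 69203, 69263, 69317, 69389, 69457, 69499, 69557, 69623, 69691, 69763, 69833, 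
   69899, 69959, 70019, 70079, 70141, 70207, 70271, 70327, 70393, 70459, 70529, 70589, 70657, 
   70729, 70793, 70853, 70921, 70991, 71059, 71129, 71191, 71263, 71333, 71399, 71471, 71537, 
   71597, 71663, 71719, 71789, 71861, 71933, 71999, 72053, 72109, 72173, 72229, 72287, 72353, 
   72421, 72493, 72559, 72623, 72689, 72739, 72797, 72869, 72937, 73009, 73079, 73141, 73189, 
   73259, 73331, 73387, 73459, 73529, 73597, 73651, 73721, 73783, 73849, 73907, 73973, 74027, 
   74099, 74167, 74231, 74297, 74363, 74419, 74489, 74561, 74623, 74687, 74759, 74831, 74903, 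
   74959, 75029, 75083, 75149, 75217, 75289, 75353, 75407, 75479, 75541, 75611, 75683, 75743, 
   75797, 75869, 75941, 76003, 76039, 76103, 76163, 76231, 76303, 76369, 76441, 76511, 76579, 
   76651, 76717, 76781, 76847, 76919, 76991, 77047, 77101, 77171, 77243, 77291, 77359, 77431, 
   77491, 77563, 77621, 77689, 77761, 77813, 77867, 77933, 77999, 78059, 78121, 78193, 78259, 
   78317, 78367, 78439, 78511, 78583, 78653, 78721, 78791, 78857, 78929, 78989, 79043, 79111, 
   79181, 79241, 79309, 79379, 79451, 79493, 79561, 79633, 79699, 79769, 79841, 79907, 79979, 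
   80051, 80111, 80177, 80239, 80309, 80369, 80429, 80491, 80557, 80629, 80701, 80761, 80833, 
   80897, 80963, 81031, 81101, 81173, 81239, 81307, 81373, 81439, 81509, 81569, 81637, 81707, 
   81773, 81839, 81901, 81973, 82039, 82073, 82141, 82207, 82279, 82351, 82421, 82493, 82561, 
   82633, 82699, 82763, 82813, 82883, 82939, 83009, 83077, 83137, 83207, 83273, 83341, 83407, 
   83477, 83537, 83609, 83663, 83719, 83791, 83857, 83921, 83987, 84059, 84131, 84199, 84263, 
   84319, 84391, 84463, 84533, 84589, 84659, 84731, 84793, 84859, 84919, 84991, 85061, 85133, 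
   85201, 85259, 85331, 85381, 85453, 85523, 85577, 85643, 85711, 85781, 85853, 85909, 85933, 
   85999, 86069, 86137, 86209, 86269, 86341, 86413, 86477, 86539, 86599, 86629, 86693, 86753, 
   86813, 86869, 86939, 87011, 87083, 87151, 87223, 87293, 87359, 87427, 87491, 87559, 87631, 
   87701, 87767, 87833, 87887, 87959, 88019, 88079, 88129, 88177, 88241, 88301, 88339, 88411, 
   88471, 88523, 88591, 88663, 88729, 88801, 88873, 88937, 89009, 89071, 89137, 89209, 89273, 
   89329, 89399, 89459, 89527, 89599, 89671, 89689, 89759, 89821, 89891, 89963, 90031, 90089, 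
   90149, 90217, 90289, 90359, 90407, 90473, 90533, 90599, 90659, 90731, 90803, 90863, 90931, 
   90997, 91033, 91099, 91163, 91229, 91297, 91369, 91433, 91499, 91571, 91639, 91711, 91781, 
   91841, 91909, 91969, 92041, 92111, 92179, 92251, 92317, 92387, 92459, 92507, 92569, 92641, 
   92707, 92779, 92849, 92921, 92993, 93059, 93131, 93199, 93263, 93329, 93383, 93427, 93497, 
   93563, 93629, 93701, 93763, 93827, 93893, 93949, 94009, 94079, 94151, 94219, 94291, 94351, 
   94421, 94483, 94547, 94613, 94651, 94723, 94793, 94849, 94907, 94961, 95027, 95093, 95153, 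
   95219, 95287, 95339, 95401, 95471, 95539, 95603, 95651, 95723, 95791, 95857, 95929, 96001, 
   96059, 96097, 96167, 96233, 96293, 96353, 96419, 96487, 96557, 96601, 96671, 96739, 96799, 
   96857, 96911, 96979, 97039, 97103, 97171, 97241, 97303, 97373, 97441, 97511, 97583, 97651, 
   97711, 97777, 97849, 97919, 97987, 98057, 98129, 98179, 98251, 98323, 98389, 98459, 98519, 
   98573, 98641, 98713, 98779, 98849, 98911, 98981, 99053, 99119, 99191, 99259, 99317, 99377, 
   99439, 99497, 99563, 99623, 99689, 99761, 99833, 99901, 99971, 100043, 100109, 100169, 100237, 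
   100297, 100363, 100417, 100483, 100549, 100621, 100693, 100747, 100811, 100853, 100913, 100981, 
   101051, 101119, 101183, 101221, 101293, 101363, 101429, 101501, 101573, 101641, 101701, 101771, 
   101839, 101891, 101963, 102031, 102103, 102161, 102233, 102301, 102367, 102437, 102503, 102563, 
   102611, 102679, 102701, 102769, 102841, 102913, 102983, 103049, 103099, 103171, 103237, 103307, 
   103357, 103423, 103483, 103553, 103619, 103687, 103723, 103787, 103843, 103913, 103981, 104053, 
   104123, 104183, 104243, 104311, 104383, 104417, 104479, 104551, 104623, 104693, 104761, 104831, 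
   104891, 104959, 105031, 105097, 105167, 105239, 105277, 105341, 105407, 105467, 105533, 105601, 
   105673, 105733, 105769, 105829, 105899, 105971, 106033, 106103, 106163, 106219, 106291, 106363, 
   106433, 106501, 106543, 106591, 106663, 106727, 106787, 106859, 106921, 106993, 107057, 107123, 
   107183, 107251, 107323, 107377, 107449, 107509, 107581, 107647, 107719, 107791, 107857, 107927, 
   107999, 108061, 108131, 108203, 108271, 108343, 108413, 108463, 108533, 108587, 108649, 108709, 
   108769, 108827, 108893, 108961, 109013, 109073, 109141, 109211, 109279, 109331, 109397, 109469, 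
   109541, 109609, 109673, 109741, 109807, 109873, 109943, 109987, 110059, 110129, 110183, 110251, 
   110323, 110359, 110431, 110503, 110573, 110641, 110711, 110777, 110849, 110921, 110989, 111053, 
   111121, 111191, 111263, 111323, 111373, 111443, 111509, 111581, 111653, 111721, 111791, 111863, 
   111919, 111977, 112031, 112103, 112163, 112223, 112291, 112363, 112429, 112501, 112573, 112643, 
   112691, 112759, 112831, 112901, 112967, 113039, 113111, 113177, 113233, 113287, 113359, 113417, 
   113489, 113557, 113623, 113683, 113749, 113819, 113891, 113963, 114031, 114089, 114161, 114229, 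
   114299, 114371, 114419, 114487, 114553, 114617, 114689, 114761, 114833, 114901, 114973, 115021, 
   115079, 115151, 115223, 115279, 115343, 115399, 115471, 115523, 115589, 115657, 115727, 115793, 
   115861, 115933, 115987, 116047, 116113, 116177, 116243, 116293, 116359, 116423, 116491, 116549, 
   116593, 116663, 116731, 116803, 116867, 116933, 116993, 117053, 117119, 117191, 117259, 117331, 
   117389, 117443, 117511, 117577, 117643, 117709, 117779, 117851, 117917, 117989, 118061, 118127, 
   118189, 118259, 118297, 118369, 118429, 118493, 118549, 118621, 118691, 118757, 118819, 118891, 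
   118931, 118973, 119039, 119107, 119179, 119243, 119311, 119363, 119429, 119489, 119557, 119627, 
   119699, 119771, 119839, 119891, 119963, 120017, 120079, 120121, 120193, 120247, 120319, 120391, 
   120431, 120503, 120569, 120641, 120713, 120779, 120851, 120919, 120977, 121039, 121081, 121151, 
   121189, 121259, 121327, 121379, 121447, 121507, 121579, 121637, 121697, 121763, 121789, 121853, 
   121921, 121993, 122053, 122117, 122173, 122231, 122299, 122363, 122401, 122471, 122533, 122599, 
   122663, 122719, 122789, 122861, 122929, 123001, 123059, 123127, 123191, 123259, 123323, 123379, 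
   123449, 123517, 123583, 123653, 123719, 123791, 123863, 123931, 124001, 124067, 124139, 124199, 
   124249, 124309, 124367, 124433, 124493, 124561, 124633, 124703, 124771, 124823, 124853, 124919, 
   124991, 125063, 125131, 125201, 125269, 125339, 125407, 125471, 125539, 125597, 125669, 125737, 
   125803, 125863, 125933, 126001, 126067, 126131, 126199, 126271, 126341, 126397, 126461, 126517, 
   126583, 126653, 126719, 126781, 126851, 126923, 126989, 127051, 127123, 127189, 127261, 127331, 
   127403, 127453, 127507, 127579, 127649, 127717, 127781, 127849, 127921, 127979, 128047, 128119, 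
   128189, 128257, 128327, 128399, 128467, 128521, 128591, 128663, 128717, 128767, 128837, 128903, 
   128971, 129037, 129097, 129169, 129229, 129293, 129361, 129419, 129491, 129553, 129607, 129671, 
   129737, 129803, 129853, 129919, 129971, 130043, 130099, 130171, 130241, 130307, 130379, 130447, 
   130517, 130589, 130657, 130729, 130787, 130859, 130927, 130987, 131059, 131129, 131171, 131231, 
   131303, 131371, 131441, 131507, 131561, 131627, 131687, 131759, 131797, 131861, 131933, 132001, 
   132071, 132137, 132199, 132263, 132331, 132403, 132469, 132541, 132611, 132679, 132751, 132817, 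
   132887, 132953, 133013]

set_option maxRecDepth 100000 in
def list3 : List ℕ := [
   133999, 134999, 135979, 136979, 137957, 138937, 139921, 140909, 141907, 142907, 143881, 144847, 
   145829, 146819, 147811, 148793, 149791, 150791, 151787, 152783, 153763, 154753, 155747, 156733, 
   157733, 158731, 159721, 160711, 161683, 162683, 163679, 164677, 165673, 166669, 167663, 168643, 
   169639, 170633, 171629, 172619, 173617, 174617, 175601, 176599, 177589, 178571, 179563, 180563, 
   181553, 182549, 183527, 184523, 185519, 186481, 187477, 188473, 189473, 190471, 191467, 192463, 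
   193463, 194443, 195443, 196439, 197423, 198413, 199411, 200407, 201403, 202403, 203393, 204377, 
   205357, 206351, 207343, 208337, 209333, 210323, 211319, 212297, 213289, 214283, 215279, 216263, 
   217253, 218249, 219223, 220217, 221209, 222199, 223151, 224149, 225149, 226141, 227131, 228131, 
   229127, 230123, 231109, 232109, 233083, 234083, 235069, 236069, 237067, 238039, 239027, 240017, 
   241013, 242009, 242999, 243989, 244957, 245941, 246941, 247939, 248909, 249881, 250871, 251861, 
   252829, 253823, 254803, 255803, 256801, 257797, 258787, 259783, 260773, 261773, 262747, 263737, 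
   264731, 265729, 266719, 267719, 268693, 269683, 270679, 271657, 272651, 273643, 274627, 275623, 
   276623, 277603, 278591, 279583, 280583, 281581, 282577, 283573, 284573, 285569, 286553, 287549, 
   288539, 289511, 290509, 291509, 292493, 293483, 294479, 295459, 296441, 297439, 298427, 299419, 
   300413, 301409, 302399, 303389, 304373, 305369, 306367, 307367, 308359, 309359, 310357, 311347, 
   312343, 313343, 314339, 315313, 316301, 317279, 318271, 319259, 320239, 321239, 322237, 323233, 
   324223, 325219, 326219, 327211, 328177, 329177, 330167, 331159, 332159, 333139, 334133, 335131, 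
   336121, 337121, 338119, 339107, 340103, 341087, 342077, 343073, 344053, 345047, 346043, 347041, 
   348031, 349007, 350003, 350989, 351971, 352951, 353939, 354911, 355909, 356893, 357883, 358879, 
   359869, 360869, 361843, 362801, 363799, 364759, 365759, 366733, 367733, 368729, 369709, 370693, 
   371669, 372667, 373661, 374653, 375647, 376639, 377633, 378629, 379607, 380591, 381569, 382567, 
   383557, 384547, 385537, 386537, 387529, 388529, 389527, 390527, 391519, 392519, 393517, 394507, 
   395491, 396479, 397469, 398467, 399439, 400429, 401417, 402403, 403391, 404389, 405373, 406361, 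
   407359, 408347, 409337, 410323, 411311, 412303, 413299, 414283, 415273, 416263, 417251, 418219, 
   419201, 420193, 421189, 422183, 423179, 424169, 425149, 426131, 427117, 428093, 429083, 430081, 
   431077, 432073, 433073, 434039, 435037, 436027, 437011, 438001, 438989, 439981, 440959, 441953, 
   442919, 443917, 444901, 445891, 446891, 447883, 448883, 449879, 450859, 451859, 452857, 453851, 
   454849, 455849, 456821, 457817, 458807, 459803, 460793, 461717, 462713, 463711, 464699, 465679, 
   466673, 467671, 468667, 469657, 470653, 471649, 472643, 473633, 474629, 475621, 476611, 477593, 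
   478589, 479581, 480569, 481549, 482539, 483523, 484493, 485479, 486449, 487447, 488441, 489439, 
   490421, 491417, 492413, 493403, 494387, 495377, 496343, 497339, 498331, 499327, 500321, 501317, 
   502301, 503297, 504289, 505283, 506281, 507217, 508213, 509203, 510203, 511201, 512167, 513167, 
   514147, 515143, 516127, 517091, 518083, 519083, 520073, 521063, 522061, 523049, 524047, 525043, 
   526037, 526997, 527993, 528991, 529987, 530983, 531983, 532981, 533971, 534971, 535967, 536953, 
   537941, 538939, 539921, 540907, 541901, 542891, 543889, 544889, 545873, 546869, 547853, 548851, 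
   549839, 550831, 551813, 552809, 553789, 554789, 555767, 556763, 557761, 558757, 559747, 560737, 
   561733, 562721, 563663, 564653, 565651, 566639, 567631, 568627, 569623, 570613, 571603, 572599, 
   573571, 574547, 575513, 576509, 577483, 578483, 579473, 580471, 581459, 582457, 583447, 584447, 
   585443, 586433, 587429, 588403, 589387, 590383, 591377, 592369, 593353, 594329, 595319, 596317, 
   597307, 598307, 599303, 600293]

theorem chain1_eq : (withNat (Nat.factorial 43) fun P => chain (goodP P) 73 139 list1) = some 1051 := by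
  decide +kernel

theorem chain2_eq : (withNat (Nat.factorial 810) fun P => chain (goodP P) 73 907 list2) = some 133013 := by
  decide +kernel

theorem chain3_eq : (withNat (Nat.factorial 810) fun P => chain (goodP P) 1000 133013 list3) = some 600293 := by
  decide +kernel

/-- "smooth part" test: `x` has a prime factor coprime to `F`. -/
def goodS (F G x : ℕ) : Bool :=
  let z := x / Nat.gcd x G
  (z != 1) && (z != 0) && (Nat.gcd z F == 1)

lemma exists_prime_of_goodS {F G x : ℕ} (h : goodS F G x = true) :
    ∃ q, q.Prime ∧ q ∣ x ∧ Nat.Coprime q F := by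
  simp only [goodS, Bool.and_eq_true, bne_iff_ne, beq_iff_eq] at h
  obtain ⟨⟨h1, _⟩, h3⟩ := h
  refine ⟨(x / Nat.gcd x G).minFac, Nat.minFac_prime h1, ?_, ?_⟩
  · exact (Nat.minFac_dvd _).trans (Nat.div_dvd_of_dvd (Nat.gcd_dvd_left _ _))
  · exact Nat.Coprime.coprime_dvd_left (Nat.minFac_dvd _) h3

def bd (k : ℕ) : ℕ := max (k * k) 100

def smallAll : Bool :=
  (List.range 73).all fun k =>
    withNat (Nat.factorial k) fun F =>
      withNat (F ^ 13) fun G =>
        (List.range' (2 * k) (bd k - 2 * k)).all fun n =>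
          (k == 0) || (List.range k).any fun i => goodS F G (n - i)

theorem smallAll_eq : smallAll = true := by decide +kernel

lemma small_spec {k n : ℕ} (hk : 1 ≤ k) (hk2 : k < 73) (h1 : 2 * k ≤ n) (h2 : n < bd k) :
    ∃ i < k, goodS (Nat.factorial k) (Nat.factorial k ^ 13) (n - i) = true := by
  have h := smallAll_eq
  unfold smallAll at h
  rw [List.all_eq_true] at h
  have h3 := h k (List.mem_range.mpr hk2)
  rw [withNat_eq, withNat_eq, List.all_eq_true] at h3
  have h4 := h3 n (by
    rw [List.mem_range'_1]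
    omega)
  have hk0 : (k == 0) = false := by simp; omega
  rw [hk0, Bool.false_or, List.any_eq_true] at h4
  obtain ⟨i, hi, h5⟩ := h4
  exact ⟨i, List.mem_range.mp hi, h5⟩

theorem t1_check : ∀ k < 73, 1 ≤ k →
    Nat.primeCounting k ≤ k ∧ k ^ k < (bd k) ^ (k - Nat.primeCounting k) := by
  decide +kernel

lemma choose_le_pi {n k W : ℕ} (hkn : k ≤ n) (hn : 0 < n)
    (hW : ∀ p, p.Prime → p ∣ n.choose k → p ≤ W) :
    n.choose k ≤ n ^ Nat.primeCounting W := by
  classical
  have h1 := Nat.prod_pow_factorization_choose n k hkn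
  set v := (n.choose k).factorization with hv
  have hterm : ∀ p ∈ range (n + 1), p ^ v p ≤ (if p.Prime ∧ p ≤ W then n else 1) := by
    intro p _
    by_cases hpp : p.Prime
    · by_cases hps : p ≤ W
      · rw [if_pos ⟨hpp, hps⟩]
        exact Nat.pow_factorization_choose_le hn
      · rw [if_neg (by tauto)]
        have h0 : v p = 0 := by
          by_contra h0
          exact hps (hW p hpp (Nat.dvd_of_factorization_pos h0))
        simp [h0]
    · have h0 : v p = 0 := Nat.factorization_eq_zero_of_not_prime _ hpp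
      simp [h0, hpp]
  calc n.choose k = ∏ p ∈ range (n + 1), p ^ v p := h1.symm
    _ ≤ ∏ p ∈ range (n + 1), (if p.Prime ∧ p ≤ W then n else 1) := Finset.prod_le_prod' hterm
    _ ≤ n ^ Nat.primeCounting W := by
      rw [Finset.prod_ite, Finset.prod_const, Finset.prod_const_one, mul_one]
      apply Nat.pow_le_pow_right hn
      rw [Nat.primeCounting, Nat.primeCounting', Nat.count_eq_card_filter_range]
      apply Finset.card_le_card
      intro p hp
      simp only [mem_filter, mem_range] at hp ⊢
      exact ⟨by omega, hp.2.1⟩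

lemma prime_dvd_choose {n k q i : ℕ} (hq : q.Prime) (hkq : k < q) (hi : i < k) (hd : q ∣ n - i) :
    q ∣ n.choose k := by
  have h1 : q ∣ n.descFactorial k := by
    rw [Nat.descFactorial_eq_prod_range]
    exact hd.trans (Finset.dvd_prod_of_mem _ (Finset.mem_range.mpr hi))
  rw [Nat.descFactorial_eq_factorial_mul_choose] at h1
  rcases (Nat.Prime.dvd_mul hq).mp h1 with h2 | h2
  · exact absurd (hq.dvd_factorial.mp h2) (by omega)
  · exact h2

/-- **Sylvester–Schur**: for `1 ≤ k` and `2 * k ≤ n`, `n.choose k` has a prime factor `> k`. -/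
theorem exists_prime_dvd_choose {n k : ℕ} (hk : 1 ≤ k) (h : 2 * k ≤ n) :
    ∃ q, q.Prime ∧ k < q ∧ q ∣ n.choose k := by
  by_contra hcon
  push Not at hcon
  have hsm : ∀ p, p.Prime → p ∣ n.choose k → p ≤ k := by
    intro p hp hd
    by_contra hlt
    exact hcon p hp (by omega) hd
  have hbad : ∀ y, y.Prime → y ≤ n → n < y + k → False := by
    intro y hy h1 h2
    have hi : n - y < k := by omega
    have hyk : k < y := by omega
    have hd : y ∣ n - (n - y) := by
      rw [Nat.sub_sub_self h1]
    exact hcon y hy hyk (prime_dvd_choose hy hyk hi hd)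
  have hkn : k ≤ n := by omega
  have hn : 0 < n := by omega
  have hT1 : n ^ k ≤ k ^ k * n ^ Nat.primeCounting k :=
    (pow_le_pow_mul_choose hkn).trans (Nat.mul_le_mul_left _ (choose_le_pi hkn hn hsm))
  by_cases hk73 : k < 73
  · by_cases hnb : n < bd k
    · obtain ⟨i, hi, hg⟩ := small_spec hk hk73 h hnb
      obtain ⟨q, hq, hqd, hqc⟩ := exists_prime_of_goodS hg
      have hkq : k < q := by
        by_contra hle
        push Not at hle
        have := hq.dvd_factorial.mpr hle
        have h1 := Nat.Coprime.eq_one_of_dvd hqc this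
        exact hq.one_lt.ne' h1
      exact hcon q hq hkq (prime_dvd_choose hq hkq hi hqd)
    · obtain ⟨hpk, hlt⟩ := t1_check k hk73 hk
      obtain ⟨d, hd⟩ : ∃ d, k = Nat.primeCounting k + d := ⟨k - Nat.primeCounting k, by omega⟩
      have h1 : n ^ (k - Nat.primeCounting k) ≤ k ^ k := by
        apply Nat.le_of_mul_le_mul_right _ (by positivity : 0 < n ^ Nat.primeCounting k)
        rw [← pow_add, Nat.sub_add_cancel hpk]
        exact hT1
      have h2 : (bd k) ^ (k - Nat.primeCounting k) ≤ n ^ (k - Nat.primeCounting k) :=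
        Nat.pow_le_pow_left (by omega) _
      omega
  · have hk73' : 73 ≤ k := by omega
    have h58 : n ^ 5 < k ^ 8 := by
      by_contra hle
      push Not at hle
      exact nat_i hk73' hle (pi_le k) hn hT1
    by_cases hk4 : k < 4000
    · have hn6 : n < 600293 := by
        by_contra hge
        push Not at hge
        have h1 : 600293 ^ 5 ≤ n ^ 5 := Nat.pow_le_pow_left hge 5
        have h2 : k ^ 8 ≤ 4000 ^ 8 := Nat.pow_le_pow_left hk4.le 8
        omega
      by_cases hn1 : n < 1051
      · have hc := chain1_eq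
        rw [withNat_eq] at hc
        obtain ⟨y, hy1, hy2, hy3⟩ := chain_spec _ _ _ _ _ hc (by decide +kernel) n (by omega) hn1
        have hyp := prime_of_goodP hy1 (by omega) (by omega)
        exact hbad y hyp hy2 (by omega)
      · by_cases hn2 : n < 133013
        · have hc := chain2_eq
          rw [withNat_eq] at hc
          obtain ⟨y, hy1, hy2, hy3⟩ :=
            chain_spec _ _ _ _ _ hc (by decide +kernel) n (by omega) hn2
          have hyp := prime_of_goodP hy1 (by omega) (by omega)
          exact hbad y hyp hy2 (by omega)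
        · have hk1000 : 1000 ≤ k := by
            by_contra hlt
            push Not at hlt
            have h1 : 133013 ^ 5 ≤ n ^ 5 := Nat.pow_le_pow_left (by omega) 5
            have h2 : k ^ 8 ≤ 1000 ^ 8 := Nat.pow_le_pow_left hlt.le 8
            omega
          have hc := chain3_eq
          rw [withNat_eq] at hc
          obtain ⟨y, hy1, hy2, hy3⟩ :=
            chain_spec _ _ _ _ _ hc (by decide +kernel) n (by omega) (by omega)
          have hyp := prime_of_goodP hy1 (by omega) (by omega)
          exact hbad y hyp hy2 (by omega)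
    · have hk4' : 4000 ≤ k := by omega
      set s := Nat.sqrt n with hs
      have hs1 : s ^ 2 ≤ n := Nat.sqrt_le' n
      have hs2 : n < (s + 1) ^ 2 := Nat.lt_succ_sqrt' n
      by_cases h16 : 16 * k ≤ n
      · have hC := choose_le_of_smooth hkn hn hs2 hsm
        have hC' : n.choose k ≤ n ^ Nat.primeCounting s * 4 ^ k :=
          hC.trans (Nat.mul_le_mul_left _ (primorial_le_four_pow k))
        exact real_ii hk4' h16 h58 hs1 (pi_le s)
          ((pow_le_pow_mul_choose hkn).trans (Nat.mul_le_mul_left _ hC'))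
      · exact real_iii hk4' hn (by omega) hs1 (pi_le s)
          (key_ineq (by omega) h hs2 hsm)

end Cfsg.Agent.Lib.PermRec.SylvesterSchur
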